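import Mathlib
import Cfsg.Prelude.Def_CaseTheorems
import Cfsg.Agent.Lib.InvChar.BaerSuzuki
import Cfsg.Agent.Lib.Involutions.Isolated
import Cfsg.Agent.Lib.Cores.PCore

/-!
# Elements of odd prime order which are real

Inverters, Baer-Suzuki for involutions, lifting of real elements through surjections, and groups
without real elements of odd prime order.
-/

set_option autoImplicit false
set_option linter.style.haveILetI false
open Cfsg

namespace CfsgLib.RealClassGraph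

universe u v

variable {G : Type u} [Group G]

/-- An element of odd prime order conjugate to its inverse. -/
def RealPrime (a : G) : Prop :=
  ∃ q : ℕ, q.Prime ∧ q ≠ 2 ∧ orderOf a = q ∧ ∃ t : G, t * a * t⁻¹ = a⁻¹

theorem RealPrime.ne_one {a : G} (h : RealPrime a) : a ≠ 1 := by
  rintro rfl
  obtain ⟨q, hq, -, hqo, -⟩ := h
  rw [orderOf_one] at hqo
  exact hq.one_lt.ne hqo

theorem RealPrime.conj {a : G} (h : RealPrime a) (g : G) : RealPrime (g * a * g⁻¹) := by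
  obtain ⟨q, hq, hq2, hqo, t, ht⟩ := h
  refine ⟨q, hq, hq2, ((MulAut.conj g).orderOf_eq a).trans hqo, g * t * g⁻¹, ?_⟩
  calc g * t * g⁻¹ * (g * a * g⁻¹) * (g * t * g⁻¹)⁻¹ = g * (t * a * t⁻¹) * g⁻¹ := by group
    _ = (g * a * g⁻¹)⁻¹ := by rw [ht]; group

theorem RealPrime.map {H : Type v} [Group H] (f : G →* H) (hf : Function.Injective f) {a : G}
    (h : RealPrime a) : RealPrime (f a) := by
  obtain ⟨q, hq, hq2, hqo, t, ht⟩ := h
  exact ⟨q, hq, hq2, (orderOf_injective f hf a).trans hqo, f t,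
    by rw [← map_inv, ← map_mul, ← map_mul, ht, map_inv]⟩

theorem RealPrime.coe {L : Subgroup G} {a : L} (h : RealPrime a) : RealPrime (a : G) :=
  h.map L.subtype L.subtype_injective

theorem RealPrime.ne_inv {a : G} (h : RealPrime a) : a ≠ a⁻¹ := by
  obtain ⟨q, hq, hq2, hqo, -⟩ := h
  intro e
  have h1 : a ^ 2 = 1 := by
    rw [pow_two]
    nth_rw 2 [e]
    exact mul_inv_cancel a
  have := (Nat.prime_dvd_prime_iff_eq hq Nat.prime_two).1 (hqo ▸ orderOf_dvd_of_pow_eq_one h1)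
  exact hq2 this

/-- An odd power of an inverter inverts. -/
theorem inv_of_odd_pow {t a : G} (h : t * a * t⁻¹ = a⁻¹) :
    ∀ {l : ℕ}, Odd l → t ^ l * a * (t ^ l)⁻¹ = a⁻¹ := by
  have h2 : t * t * a * (t * t)⁻¹ = a := by
    calc t * t * a * (t * t)⁻¹ = t * (t * a * t⁻¹) * t⁻¹ := by group
      _ = t * a⁻¹ * t⁻¹ := by rw [h]
      _ = (t * a * t⁻¹)⁻¹ := by group
      _ = a := by rw [h, inv_inv]
  rintro l ⟨i, rfl⟩
  induction i with
  | zero => simpa using h
  | succ i ih =>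
    have e : t ^ (2 * (i + 1) + 1) = t ^ (2 * i + 1) * (t * t) := by
      rw [← pow_two, ← pow_add]
      congr 1
    calc t ^ (2 * (i + 1) + 1) * a * (t ^ (2 * (i + 1) + 1))⁻¹
        = t ^ (2 * i + 1) * (t * t * a * (t * t)⁻¹) * (t ^ (2 * i + 1))⁻¹ := by rw [e]; group
      _ = a⁻¹ := by rw [h2, ih]

/-- An inverted element is inverted by a 2-element that is a power of the inverter. -/
theorem exists_two_inverter [Finite G] {t a : G} (h : t * a * t⁻¹ = a⁻¹) :
    ∃ l : ℕ, Odd l ∧ (∃ k, orderOf (t ^ l) = 2 ^ k) ∧ t ^ l * a * (t ^ l)⁻¹ = a⁻¹ := by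
  obtain ⟨k, l, hl, hkl⟩ := Nat.exists_eq_two_pow_mul_odd (orderOf_pos t).ne'
  refine ⟨l, hl, ⟨k, ?_⟩, inv_of_odd_pow h hl⟩
  rw [orderOf_pow_of_dvd (by intro e; rw [e] at hl; exact Nat.not_odd_zero hl) ⟨2 ^ k, by rw [hkl, mul_comm]⟩,
    hkl, Nat.mul_div_cancel _ hl.pos]

/-- Inversion passes to powers. -/
theorem inv_pow_of_inv {t a : G} (h : t * a * t⁻¹ = a⁻¹) (i : ℕ) :
    t * a ^ i * t⁻¹ = (a ^ i)⁻¹ := by
  rw [← inv_pow, ← h, ← MulAut.conj_apply, map_pow, MulAut.conj_apply]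

/-- An element of odd prime-power order inverted by some element gives a real element of prime
order among its powers. -/
theorem exists_realPrime_pow [Finite G] {u t : G} (h : t * u * t⁻¹ = u⁻¹) {q : ℕ} (hq : q.Prime)
    (hq2 : q ≠ 2) (hd : q ∣ orderOf u) :
    ∃ i : ℕ, orderOf (u ^ i) = q ∧ RealPrime (u ^ i) := by
  have ho : orderOf (u ^ (orderOf u / q)) = q := orderOf_pow_orderOf_div (orderOf_pos u).ne' hd
  exact ⟨_, ho, q, hq, hq2, ho, t, inv_pow_of_inv h _⟩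

/-- If two involutions do not generate a 2-group, one of them inverts an element of odd prime
order in their product. -/
theorem exists_prime_inverted [Finite G] {x y : G} (hx : orderOf x = 2) (hy : orderOf y = 2)
    (h : ¬ IsPGroup 2 (Subgroup.closure ({x, y} : Set G))) :
    ∃ i : ℕ, RealPrime ((x * y) ^ i) ∧ x * (x * y) ^ i * x⁻¹ = ((x * y) ^ i)⁻¹ := by
  have hxy : x * (x * y) * x⁻¹ = (x * y)⁻¹ := by
    have hx1 : x * x = 1 := by rw [← pow_two, ← hx, pow_orderOf_eq_one]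
    have hy1 : y * y = 1 := by rw [← pow_two, ← hy, pow_orderOf_eq_one]
    rw [mul_inv_rev, inv_eq_of_mul_eq_one_right hy1, ← mul_assoc, hx1, one_mul]
  obtain ⟨k, l, hl, hkl⟩ := Nat.exists_eq_two_pow_mul_odd (orderOf_pos (x * y)).ne'
  rcases eq_or_ne l 1 with rfl | hl1
  · exact absurd (Involutions.isPGroup_closure_pair hx hy (k := k) (by rw [hkl, mul_one])) h
  obtain ⟨q, hq, hql⟩ := Nat.exists_prime_and_dvd hl1
  have hq2 : q ≠ 2 := by
    rintro rfl
    exact (Nat.not_even_iff_odd.2 hl) (even_iff_two_dvd.2 hql)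
  obtain ⟨i, -, hi⟩ := exists_realPrime_pow hxy hq hq2 (hkl ▸ hql.mul_left _)
  exact ⟨i, hi, inv_pow_of_inv hxy i⟩

/-- An involution outside `O₂(G)` has a conjugate inverting an element of odd prime order. -/
theorem exists_inverted_of_notMem [Finite G] {v : G} (hv : orderOf v = 2)
    (h : v ∉ Cfsg.pCore 2 G) :
    ∃ x b : G, IsConj v x ∧ RealPrime b ∧ x * b * x⁻¹ = b⁻¹ := by
  haveI : Fact (Nat.Prime 2) := ⟨Nat.prime_two⟩
  by_contra hno
  refine h (InvChar.mem_pCore_of_conj_pairs v fun x y hx hy => ?_)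
  by_contra hnp
  obtain ⟨c, hc⟩ := isConj_iff.1 hx
  obtain ⟨d, hd⟩ := isConj_iff.1 hy
  have hxo : orderOf x = 2 := hc ▸ ((MulAut.conj c).orderOf_eq v).trans hv
  have hyo : orderOf y = 2 := hd ▸ ((MulAut.conj d).orderOf_eq v).trans hv
  obtain ⟨i, hi1, hi2⟩ := exists_prime_inverted hxo hyo hnp
  exact hno ⟨x, _, hx, hi1, hi2⟩

/-- A normal 2-subgroup lies in every subgroup of odd index. -/
theorem le_of_odd_index [Finite G] {P H : Subgroup G} [P.Normal] (hP : IsPGroup 2 P)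
    (hH : Odd H.index) : P ≤ H := by
  haveI : Fact (Nat.Prime 2) := ⟨Nat.prime_two⟩
  obtain ⟨x, hx⟩ := hP.nonempty_fixed_point_of_prime_not_dvd_card (G ⧸ H)
    (by rw [← Subgroup.index_eq_card]; exact hH.not_two_dvd_nat)
  induction x using QuotientGroup.induction_on with
  | H g =>
    intro y hy
    have h1 : g * y * g⁻¹ ∈ P := ‹P.Normal›.conj_mem y hy g
    have h2 := hx ⟨_, h1⟩
    have h2' : ((g * y * g⁻¹ * g : G) : G ⧸ H) = g := h2
    rw [QuotientGroup.eq] at h2'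
    have h4 : y⁻¹ ∈ H := by simpa [mul_assoc] using h2'
    simpa using inv_mem h4

/-- A real element of prime-power order in a quotient lifts to one of prime-power order. -/
theorem exists_real_lift [Finite G] {H : Type v} [Group H] {f : G →* H}
    (hf : Function.Surjective f) {a t : H} {q j : ℕ} (hq : q.Prime) (hq2 : q ≠ 2)
    (ha : orderOf a = q ^ j) (ht : t * a * t⁻¹ = a⁻¹) :
    ∃ u n : G, f u = a ∧ (∃ i, orderOf u = q ^ i) ∧ n * u * n⁻¹ = u⁻¹ := by
  classical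
  haveI := Fact.mk hq
  haveI : Finite H := Finite.of_surjective f hf
  obtain ⟨t₀, rfl⟩ := hf t
  obtain ⟨g₀, rfl⟩ := hf a
  set L : Subgroup G := (Subgroup.zpowers (f g₀)).comap f with hL
  have hnorm : ∀ x, x ∈ L → t₀ * x * t₀⁻¹ ∈ L := by
    intro x hx
    obtain ⟨i, hi⟩ := Subgroup.mem_zpowers_iff.1 (Subgroup.mem_comap.1 hx)
    refine Subgroup.mem_comap.2 (Subgroup.mem_zpowers_iff.2 ⟨-i, ?_⟩)
    rw [map_mul, map_mul, map_inv, ← hi, ← MulAut.conj_apply, map_zpow, MulAut.conj_apply, ht,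
      inv_zpow, zpow_neg]
  obtain ⟨Q⟩ : Nonempty (Sylow q L) := inferInstance
  -- the conjugate of `Q` by `t₀`
  let φ : L →* L :=
    { toFun := fun x => ⟨t₀ * x * t₀⁻¹, hnorm x x.2⟩
      map_one' := Subtype.ext (by simp)
      map_mul' := fun x y => Subtype.ext (by simp [mul_assoc]) }
  have hφ : Function.Injective φ := fun x y e => Subtype.ext
    (mul_left_cancel (mul_right_cancel (congrArg Subtype.val e : t₀ * (x : G) * t₀⁻¹ = t₀ * y * t₀⁻¹)))
  have hφs : Function.Surjective φ := Finite.surjective_of_injective hφ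
  obtain ⟨c, hc⟩ := MulAction.exists_smul_eq L (Q.mapSurjective hφs) Q
  set m : G := (c : G) * t₀ with hm
  have hmQ : ∀ x : L, x ∈ (Q : Subgroup L) → ∃ y : L, y ∈ (Q : Subgroup L) ∧ (y : G) = m * x * m⁻¹ := by
    intro x hx
    have h1 : φ x ∈ ((Q.mapSurjective hφs : Sylow q L) : Subgroup L) := by
      rw [Sylow.coe_mapSurjective]
      exact Subgroup.mem_map_of_mem _ hx
    refine ⟨c * φ x * c⁻¹, ?_, ?_⟩
    · rw [← hc, Sylow.coe_subgroup_smul]
      exact Subgroup.smul_mem_pointwise_smul _ _ _ h1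
    · show (c : G) * (t₀ * x * t₀⁻¹) * (c : G)⁻¹ = _
      rw [hm]; group
  obtain ⟨i, hi⟩ := Subgroup.mem_zpowers_iff.1 (Subgroup.mem_comap.1 c.2)
  have hfm : f m * f g₀ * (f m)⁻¹ = (f g₀)⁻¹ := by
    rw [hm, map_mul, ← hi]
    calc (f g₀ ^ i * f t₀) * f g₀ * (f g₀ ^ i * f t₀)⁻¹
        = f g₀ ^ i * (f t₀ * f g₀ * (f t₀)⁻¹) * (f g₀ ^ i)⁻¹ := by group
      _ = _ := by rw [ht]; group
  obtain ⟨l, hl, ⟨k, hk⟩, -⟩ := exists_two_inverter hfm
  obtain ⟨k', l', hl', hkl'⟩ := Nat.exists_eq_two_pow_mul_odd (orderOf_pos m).ne'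
  set n := m ^ l' with hn
  have hno : orderOf n = 2 ^ k' := by
    rw [hn, orderOf_pow_of_dvd (by intro e; rw [e] at hl'; exact Nat.not_odd_zero hl')
      ⟨2 ^ k', by rw [hkl', mul_comm]⟩, hkl', Nat.mul_div_cancel _ hl'.pos]
  have hfn : f n * f g₀ * (f n)⁻¹ = (f g₀)⁻¹ := by
    rw [hn, map_pow]
    exact inv_of_odd_pow hfm hl'
  have hnQ : ∀ x : L, x ∈ (Q : Subgroup L) →
      ∃ y : L, y ∈ (Q : Subgroup L) ∧ (y : G) = n * x * n⁻¹ := by
    rw [hn]
    clear_value m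
    clear hn hno hfn hkl' hl'
    induction l' with
    | zero => exact fun x hx => ⟨x, hx, by simp⟩
    | succ l' ih =>
      intro x hx
      obtain ⟨y, hy, hy'⟩ := hmQ x hx
      obtain ⟨z, hz, hz'⟩ := ih y hy
      exact ⟨z, hz, by rw [hz', hy', pow_succ]; group⟩
  -- the points of `Q` over `a`
  let Ω := {x : L // x ∈ (Q : Subgroup L) ∧ f (x : G) = f g₀}
  have hstep : ∀ x : Ω, ∃ y : Ω, (y.1 : G) = n * ((x.1 : L) : G)⁻¹ * n⁻¹ := by
    rintro ⟨x, hxQ, hxa⟩
    obtain ⟨y, hy, hy'⟩ := hnQ x⁻¹ (inv_mem hxQ)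
    refine ⟨⟨y, hy, ?_⟩, hy'⟩
    rw [hy', map_mul, map_mul, map_inv f n, Subgroup.coe_inv, map_inv, hxa]
    have := congrArg (fun z => z⁻¹) hfn
    simpa [mul_assoc] using this
  choose σ hσ using hstep
  have hσi : Function.Injective σ := by
    intro x y e
    have h1 := congrArg (fun z : Ω => (z.1 : G)) e
    simp only [hσ] at h1
    exact Subtype.ext (Subtype.ext (inv_injective (mul_left_cancel (mul_right_cancel h1))))
  let σ' : Equiv.Perm Ω := Equiv.ofBijective σ (Finite.injective_iff_bijective.1 hσi)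
  have hit : ∀ (d : ℕ) (x : Ω), Even d → (((σ' ^ d) x).1 : G) = n ^ d * x.1 * (n ^ d)⁻¹ := by
    intro d x hd
    obtain ⟨e, rfl⟩ := hd
    rw [← two_mul]
    induction e with
    | zero => simp
    | succ e ih =>
      rw [show 2 * (e + 1) = 2 + 2 * e by ring, pow_add σ', Equiv.Perm.mul_apply, pow_two σ',
        Equiv.Perm.mul_apply, pow_add n]
      show (((σ (σ ((σ' ^ (2 * e)) x))).1 : L) : G) = _
      rw [hσ, hσ, ih, pow_two]
      group
  have hσp : σ' ^ (2 ^ (k' + 1)) = 1 := by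
    refine Equiv.Perm.ext fun x => Subtype.ext (Subtype.ext ?_)
    rw [hit _ x ⟨2 ^ k', by ring⟩]
    have : n ^ (2 ^ (k' + 1)) = 1 :=
      orderOf_dvd_iff_pow_eq_one.1 (hno ▸ pow_dvd_pow 2 (Nat.le_succ k'))
    simp [this]
  have hP : IsPGroup 2 (Subgroup.zpowers σ') := by
    obtain ⟨e, -, he⟩ := (Nat.dvd_prime_pow Nat.prime_two).1 (orderOf_dvd_of_pow_eq_one hσp)
    exact IsPGroup.of_card (n := e) (by rw [Nat.card_zpowers, he])
  -- their number is a power of `q`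
  have hmap : ∃ x₀ : L, x₀ ∈ (Q : Subgroup L) ∧ f (x₀ : G) = f g₀ := by
    let fL : L →* Subgroup.zpowers (f g₀) :=
      { toFun := fun x => ⟨f (x : G), Subgroup.mem_comap.1 x.2⟩
        map_one' := Subtype.ext (map_one f)
        map_mul' := fun x y => Subtype.ext (map_mul f (x : G) (y : G)) }
    have hfL : Function.Surjective fL := fun ⟨b, hb⟩ => by
      obtain ⟨y, hy⟩ := hf b
      exact ⟨⟨y, Subgroup.mem_comap.2 (hy.symm ▸ hb)⟩, Subtype.ext hy⟩
    have htop : ((Q.mapSurjective hfL : Sylow q _) : Subgroup (Subgroup.zpowers (f g₀))) = ⊤ := by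
      refine Subgroup.eq_top_of_card_eq _ ?_
      rw [(Q.mapSurjective hfL).card_eq_multiplicity, Nat.card_zpowers, ha,
        Nat.factorization_pow, Finsupp.smul_apply, hq.factorization_self, smul_eq_mul, mul_one]
    have h1 : (⟨f g₀, Subgroup.mem_zpowers _⟩ : Subgroup.zpowers (f g₀)) ∈
        ((Q.mapSurjective hfL : Sylow q _) : Subgroup (Subgroup.zpowers (f g₀))) :=
      htop ▸ Subgroup.mem_top _
    rw [Sylow.coe_mapSurjective] at h1
    obtain ⟨x₀, hx₀, e⟩ := h1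
    exact ⟨x₀, hx₀, congrArg Subtype.val e⟩
  obtain ⟨x₀, hx₀Q, hx₀⟩ := hmap
  let R : Subgroup L := (Q : Subgroup L) ⊓ (f.comp L.subtype).ker
  have hΩ : Nat.card Ω = Nat.card R := Nat.card_congr
    { toFun := fun x => ⟨x₀⁻¹ * x.1, Subgroup.mul_mem _ (Subgroup.inv_mem _ hx₀Q) x.2.1, by
        show f ((x₀⁻¹ * x.1 : L) : G) = 1
        rw [Subgroup.coe_mul, Subgroup.coe_inv, map_mul, map_inv, hx₀, x.2.2, inv_mul_cancel]⟩
      invFun := fun y => ⟨x₀ * y.1, mul_mem hx₀Q y.2.1, by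
        have : f ((y.1 : L) : G) = 1 := y.2.2
        rw [Subgroup.coe_mul, map_mul, this, mul_one, hx₀]⟩
      left_inv := fun x => by simp
      right_inv := fun y => by simp }
  obtain ⟨d, hd⟩ := IsPGroup.iff_card.1 (Q.isPGroup'.to_le (inf_le_left : R ≤ (Q : Subgroup L)))
  haveI : Fact (Nat.Prime 2) := ⟨Nat.prime_two⟩
  obtain ⟨x, hx⟩ := hP.nonempty_fixed_point_of_prime_not_dvd_card Ω (by
    rw [hΩ, hd]
    exact fun h => hq2 ((Nat.prime_dvd_prime_iff_eq Nat.prime_two hq).1 (Nat.prime_two.dvd_of_dvd_pow h)).symm)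
  have hfix : (x.1 : G) = n * ((x.1 : L) : G)⁻¹ * n⁻¹ := by
    have := hx ⟨σ', Subgroup.mem_zpowers σ'⟩
    exact ((congrArg (fun z : Ω => (z.1 : G)) this).symm).trans (hσ x)
  obtain ⟨e, he⟩ := IsPGroup.iff_orderOf.1 Q.isPGroup' ⟨x.1, x.2.1⟩
  refine ⟨(x.1 : G), n, x.2.2, ⟨e, ?_⟩, ?_⟩
  · rw [Subgroup.orderOf_mk] at he
    rw [Subgroup.orderOf_coe, he]
  · calc n * ((x.1 : L) : G) * n⁻¹ = (n * ((x.1 : L) : G)⁻¹ * n⁻¹)⁻¹ := by group
      _ = ((x.1 : L) : G)⁻¹ := by rw [← hfix]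

/-- A real element of prime order in a quotient lifts. -/
theorem RealPrime.lift [Finite G] {H : Type v} [Group H] {f : G →* H} (hf : Function.Surjective f)
    {a : H} (h : RealPrime a) :
    ∃ (u t : G) (q i : ℕ), q.Prime ∧ q ≠ 2 ∧ f u = a ∧ orderOf u = q ^ i ∧ 1 ≤ i ∧
      t * u * t⁻¹ = u⁻¹ := by
  obtain ⟨q, hq, hq2, hqo, t, ht⟩ := h
  obtain ⟨u, n, hu, ⟨i, hi⟩, hn⟩ := exists_real_lift hf hq hq2 (j := 1) (by rw [hqo, pow_one]) ht
  refine ⟨u, n, q, i, hq, hq2, hu, hi, Nat.one_le_iff_ne_zero.2 ?_, hn⟩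
  rintro rfl
  rw [pow_zero, orderOf_eq_one_iff] at hi
  rw [hi, map_one] at hu
  rw [← hu, orderOf_one] at hqo
  exact hq.one_lt.ne hqo

/-- Without real elements of odd prime order the Sylow 2-subgroup is normal. -/
theorem odd_index_pCore [Finite G] (h : ∀ a : G, ¬ RealPrime a) :
    Odd (Cfsg.pCore 2 G).index := by
  suffices ∀ (n : ℕ) (G : Type u) [Group G] [Finite G], Nat.card G = n → (∀ a : G, ¬ RealPrime a) →
      Odd (Cfsg.pCore 2 G).index from this _ G rfl h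
  intro n
  induction n using Nat.strong_induction_on with
  | h n IH =>
  intro G _ _ hn h
  subst hn
  haveI : Fact (Nat.Prime 2) := ⟨Nat.prime_two⟩
  by_cases hodd : Odd (Nat.card G)
  · exact Odd.of_dvd_nat hodd (Subgroup.index_dvd_card _)
  obtain ⟨v, hv⟩ := exists_prime_orderOf_dvd_card' 2 (even_iff_two_dvd.1 (Nat.not_odd_iff_even.1 hodd))
  have hvP : v ∈ Cfsg.pCore 2 G := by
    by_contra hvn
    obtain ⟨-, b, -, hb, -⟩ := exists_inverted_of_notMem hv hvn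
    exact h b hb
  haveI : (Cfsg.pCore 2 G).Normal := Cfsg.pCore_normal 2 G
  have hP1 : 1 < Nat.card (Cfsg.pCore 2 G) := by
    rw [Subgroup.one_lt_card_iff_ne_bot]
    intro e
    rw [e, Subgroup.mem_bot] at hvP
    rw [hvP, orderOf_one] at hv
    omega
  have hlt : Nat.card (G ⧸ Cfsg.pCore 2 G) < Nat.card G := by
    rw [← Subgroup.index_eq_card, ← Subgroup.card_mul_index (Cfsg.pCore 2 G)]
    exact lt_mul_left (Nat.pos_of_ne_zero Subgroup.index_ne_zero_of_finite) hP1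
  have hq : ∀ a : G ⧸ Cfsg.pCore 2 G, ¬ RealPrime a := by
    intro a ha
    obtain ⟨u, t, q, i, hq, hq2, -, hi, hi1, ht⟩ := ha.lift (QuotientGroup.mk'_surjective _)
    obtain ⟨i', _, hj⟩ := exists_realPrime_pow ht hq hq2 (hi ▸ dvd_pow_self q (by omega))
    exact h _ hj
  have h1 := IH _ hlt (G ⧸ Cfsg.pCore 2 G) rfl hq
  rw [CfsgLib.Cores.pCore_quotient_pCore, Subgroup.index_bot, ← Subgroup.index_eq_card] at h1
  exact h1

end CfsgLib.RealClassGraph
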