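import Cfsg.Agent.Lib.RealClassGraph.Basic

/-!
# Real classes of coprime size

Two real classes of coprime sizes multiply to a single real class; if its size divides one of the
two sizes, a normal subgroup translates the larger class to itself.
-/

set_option autoImplicit false
set_option linter.style.haveILetI false
set_option linter.unusedSectionVars false
open Cfsg

namespace CfsgLib.RealClassGraph

universe u

variable {G : Type u} [Group G]

/-- The size of the class of `x`. -/
noncomputable def sz (x : G) : ℕ := (Subgroup.centralizer ({x} : Set G)).index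

/-- The sizes of real classes. -/
def realSizes (G : Type u) [Group G] : Set ℕ :=
  {n : ℕ | ∃ x : G, IsConj x x⁻¹ ∧ (Subgroup.centralizer ({x} : Set G)).index = n}

/-- The class of `x`. -/
def cls (x : G) : Set G := {y | IsConj x y}

theorem mem_cls_self (x : G) : x ∈ cls x := IsConj.refl x

/-- The subgroup generated by the quotients of two conjugates of `x`. -/
def dsub (x : G) : Subgroup G :=
  Subgroup.closure {m | ∃ a ∈ cls x, ∃ b ∈ cls x, a⁻¹ * b = m}

theorem mem_dsub {x a b : G} (ha : IsConj x a) (hb : IsConj x b) : a⁻¹ * b ∈ dsub x :=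
  Subgroup.subset_closure ⟨a, ha, b, hb, rfl⟩

theorem cls_conj {x y : G} (g : G) (hy : y ∈ cls x) : g * y * g⁻¹ ∈ cls x :=
  IsConj.trans hy (isConj_iff.2 ⟨g, rfl⟩)

instance dsub_normal (x : G) : (dsub x).Normal where
  conj_mem m hm g := by
    have hle : (dsub x).map (MulAut.conj g).toMonoidHom ≤ dsub x := by
      rw [dsub, MonoidHom.map_closure, Subgroup.closure_le]
      rintro - ⟨-, ⟨a, ha, b, hb, rfl⟩, rfl⟩
      show g * (a⁻¹ * b) * g⁻¹ ∈ dsub x
      rw [show g * (a⁻¹ * b) * g⁻¹ = (g * a * g⁻¹)⁻¹ * (g * b * g⁻¹) by group]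
      exact mem_dsub (cls_conj g ha) (cls_conj g hb)
    exact hle ⟨m, hm, rfl⟩

/-- The left translations mapping a set onto itself. -/
def leftStab (Y : Set G) : Subgroup G where
  carrier := {m | ∀ y, m * y ∈ Y ↔ y ∈ Y}
  one_mem' y := by rw [one_mul]
  mul_mem' {a b} ha hb y := by rw [mul_assoc, ha, hb]
  inv_mem' {a} ha y := by rw [← ha, mul_inv_cancel_left]

theorem mem_leftStab {Y : Set G} {m : G} : m ∈ leftStab Y ↔ ∀ y, m * y ∈ Y ↔ y ∈ Y := Iff.rfl

theorem leftStab_cls_normal (x : G) : (leftStab (cls x)).Normal where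
  conj_mem m hm g := by
    intro y
    have hiff : ∀ z : G, g⁻¹ * z * g ∈ cls x ↔ z ∈ cls x := fun z => by
      constructor
      · intro hz; simpa [mul_assoc] using cls_conj g hz
      · intro hz; simpa [mul_assoc] using cls_conj g⁻¹ hz
    rw [← hiff, ← hiff y, show g⁻¹ * (g * m * g⁻¹ * y) * g = m * (g⁻¹ * y * g) by group, hm]

theorem sz_conj (g x : G) : sz (g * x * g⁻¹) = sz x := by
  rw [sz, sz, show Subgroup.centralizer ({g * x * g⁻¹} : Set G) =
    (Subgroup.centralizer ({x} : Set G)).comap (MulAut.conj g⁻¹).toMonoidHom from ?_,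
    Subgroup.index_comap_of_surjective _ (MulAut.conj g⁻¹).surjective]
  ext z
  rw [Subgroup.mem_comap, Subgroup.mem_centralizer_singleton_iff, Subgroup.mem_centralizer_singleton_iff]
  show _ ↔ g⁻¹ * z * g⁻¹⁻¹ * x = x * (g⁻¹ * z * g⁻¹⁻¹)
  constructor
  · intro h
    calc g⁻¹ * z * g⁻¹⁻¹ * x = g⁻¹ * (z * (g * x * g⁻¹)) * g := by group
      _ = g⁻¹ * (g * x * g⁻¹ * z) * g := by rw [h]
      _ = _ := by group
  · intro h
    calc z * (g * x * g⁻¹) = g * (g⁻¹ * z * g⁻¹⁻¹ * x) * g⁻¹ := by group
      _ = g * (x * (g⁻¹ * z * g⁻¹⁻¹)) * g⁻¹ := by rw [h]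
      _ = _ := by group

theorem sz_eq_of_isConj {x y : G} (h : IsConj x y) : sz y = sz x := by
  obtain ⟨g, rfl⟩ := isConj_iff.1 h
  exact sz_conj g x

/-- The map from cosets of the centraliser onto the class is a bijection. -/
theorem card_cls (x : G) : Nat.card (cls x) = sz x := by
  rw [sz, Subgroup.index_eq_card]
  refine (Nat.card_congr (Equiv.ofBijective (Quotient.lift
    (fun g : G => (⟨g * x * g⁻¹, isConj_iff.2 ⟨g, rfl⟩⟩ : cls x)) fun a b hab => ?_) ⟨?_, ?_⟩)).symm
  · have h := QuotientGroup.leftRel_apply.1 hab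
    rw [Subgroup.mem_centralizer_singleton_iff] at h
    refine Subtype.ext ?_
    show a * x * a⁻¹ = b * x * b⁻¹
    calc a * x * a⁻¹ = a * (x * (a⁻¹ * b)) * b⁻¹ := by group
      _ = a * (a⁻¹ * b * x) * b⁻¹ := by rw [h]
      _ = _ := by group
  · intro p q
    induction p using Quotient.inductionOn with
    | h a =>
      induction q using Quotient.inductionOn with
      | h b =>
        intro e
        have e' : a * x * a⁻¹ = b * x * b⁻¹ := congrArg Subtype.val e
        refine Quotient.sound (QuotientGroup.leftRel_apply.2 ?_)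
        rw [Subgroup.mem_centralizer_singleton_iff]
        calc a⁻¹ * b * x = a⁻¹ * (b * x * b⁻¹) * b := by group
          _ = a⁻¹ * (a * x * a⁻¹) * b := by rw [e']
          _ = _ := by group
  · rintro ⟨y, hy⟩
    obtain ⟨g, rfl⟩ := isConj_iff.1 hy
    exact ⟨Quotient.mk _ g, rfl⟩

variable [Finite G]

theorem sz_pos (x : G) : 0 < sz x := Nat.pos_of_ne_zero Subgroup.index_ne_zero_of_finite

theorem eq_of_sz_eq_one {x : G} (h : sz x = 1) (g : G) : g * x = x * g := by
  rw [sz, Subgroup.index_eq_one] at h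
  exact Subgroup.mem_centralizer_singleton_iff.1 (h.symm ▸ Subgroup.mem_top g)

theorem sz_eq_one {x : G} (h : ∀ g : G, g * x = x * g) : sz x = 1 := by
  rw [sz, Subgroup.index_eq_one, eq_top_iff]
  exact fun g _ => Subgroup.mem_centralizer_singleton_iff.2 (h g)

theorem sz_eq_one_of_dsub {x : G} (h : dsub x = ⊥) : sz x = 1 := by
  refine sz_eq_one fun g => ?_
  have h1 : x⁻¹ * (g * x * g⁻¹) ∈ dsub x := mem_dsub (IsConj.refl x) (isConj_iff.2 ⟨g, rfl⟩)
  rw [h, Subgroup.mem_bot, inv_mul_eq_one] at h1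
  calc g * x = g * x * g⁻¹ * g := by group
    _ = x * g := by rw [← h1]

/-- A real element which is not an involution has a class of even size. -/
theorem even_sz {x : G} (hx : IsConj x x⁻¹) (h2 : x * x ≠ 1) : 2 ∣ sz x := by
  haveI : Fact (Nat.Prime 2) := ⟨Nat.prime_two⟩
  by_contra hodd
  have hinv : ∀ y ∈ cls x, y⁻¹ ∈ cls x := fun y hy => by
    obtain ⟨c, rfl⟩ := isConj_iff.1 (hy : IsConj x y)
    rw [show (c * x * c⁻¹)⁻¹ = c * x⁻¹ * c⁻¹ by group]
    exact cls_conj c hx
  let σ : Equiv.Perm (cls x) :=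
    { toFun := fun y => ⟨(y : G)⁻¹, hinv y y.2⟩
      invFun := fun y => ⟨(y : G)⁻¹, hinv y y.2⟩
      left_inv := fun y => Subtype.ext (inv_inv _)
      right_inv := fun y => Subtype.ext (inv_inv _) }
  have hσ : σ ^ 2 = 1 := Equiv.Perm.ext fun y => by
    rw [pow_two, Equiv.Perm.mul_apply]
    exact Subtype.ext (inv_inv _)
  have hP : IsPGroup 2 (Subgroup.zpowers σ) := by
    obtain ⟨e, -, he⟩ := (Nat.dvd_prime_pow Nat.prime_two).1
      (show orderOf σ ∣ 2 ^ 1 by rw [pow_one]; exact orderOf_dvd_of_pow_eq_one hσ)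
    exact IsPGroup.of_card (n := e) (by rw [Nat.card_zpowers, he])
  obtain ⟨y, hy⟩ := hP.nonempty_fixed_point_of_prime_not_dvd_card (cls x) (by rwa [card_cls])
  have h1 : (y : G)⁻¹ = y := congrArg Subtype.val (hy ⟨σ, Subgroup.mem_zpowers σ⟩)
  obtain ⟨c, hc⟩ := isConj_iff.1 (y.2 : IsConj x y)
  refine h2 ?_
  rw [← hc] at h1
  have h3 : c * (x * x) * c⁻¹ = 1 := by
    calc c * (x * x) * c⁻¹ = c * x * c⁻¹ * (c * x * c⁻¹) := by group
      _ = (c * x * c⁻¹)⁻¹ * (c * x * c⁻¹) := by rw [h1]
      _ = 1 := inv_mul_cancel _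
  simpa using h3

/-- Real elements of odd class size square to one. -/
theorem sq_eq_one_of_odd {x : G} (hx : IsConj x x⁻¹) (h : Odd (sz x)) : x * x = 1 := by
  by_contra h2
  exact h.not_two_dvd_nat (even_sz hx h2)

/-- For coprime sizes the centraliser of one element is transitive on the class of the other. -/
theorem exists_conj_of_coprime {x y : G} (hc : Nat.Coprime (sz x) (sz y)) {x' : G} (hx' : IsConj x x') :
    ∃ d : G, d * y = y * d ∧ d * x * d⁻¹ = x' := by
  set A := Subgroup.centralizer ({x} : Set G) with hA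
  set B := Subgroup.centralizer ({y} : Set G) with hB
  have h1 : (A ⊓ B).index = A.relIndex B * B.index := by
    rw [← Subgroup.inf_relIndex_right A B, Subgroup.relIndex_mul_index inf_le_right]
  have h2 : A.index ∣ (A ⊓ B).index := Subgroup.index_dvd_of_le inf_le_left
  rw [h1] at h2
  have h3 : A.index ∣ A.relIndex B := hc.dvd_of_dvd_mul_right h2
  let F : B ⧸ A.subgroupOf B → cls x := Quotient.lift
    (fun b : B => (⟨(b : G) * x * (b : G)⁻¹, isConj_iff.2 ⟨(b : G), rfl⟩⟩ : cls x)) fun a b hab => by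
      have h := QuotientGroup.leftRel_apply.1 hab
      rw [Subgroup.mem_subgroupOf, Subgroup.mem_centralizer_singleton_iff] at h
      refine Subtype.ext ?_
      show (a : G) * x * (a : G)⁻¹ = (b : G) * x * (b : G)⁻¹
      calc (a : G) * x * (a : G)⁻¹ = (a : G) * (x * ((a : G)⁻¹ * b)) * (b : G)⁻¹ := by group
        _ = (a : G) * (((a⁻¹ * b : B) : G) * x) * (b : G)⁻¹ := by rw [h]; simp
        _ = _ := by simp [mul_assoc]
  have hF : Function.Injective F := by
    intro p q
    induction p using Quotient.inductionOn with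
    | h a =>
      induction q using Quotient.inductionOn with
      | h b =>
        intro e
        have e' : (a : G) * x * (a : G)⁻¹ = (b : G) * x * (b : G)⁻¹ := congrArg Subtype.val e
        refine Quotient.sound (QuotientGroup.leftRel_apply.2 ?_)
        rw [Subgroup.mem_subgroupOf, Subgroup.mem_centralizer_singleton_iff]
        show (a : G)⁻¹ * b * x = x * ((a : G)⁻¹ * b)
        calc (a : G)⁻¹ * b * x = (a : G)⁻¹ * ((b : G) * x * (b : G)⁻¹) * b := by group
          _ = (a : G)⁻¹ * ((a : G) * x * (a : G)⁻¹) * b := by rw [e']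
          _ = _ := by group
  have hcard : Nat.card (cls x) ≤ Nat.card (B ⧸ A.subgroupOf B) := by
    rw [card_cls, ← Subgroup.index_eq_card]
    exact Nat.le_of_dvd (Nat.pos_of_ne_zero (Subgroup.index_ne_zero_of_finite (H := A.subgroupOf B))) h3
  obtain ⟨p, hp⟩ := ((hF.bijective_of_nat_card_le hcard).2 ⟨x', hx'⟩)
  induction p using Quotient.inductionOn with
  | h b => exact ⟨b, Subgroup.mem_centralizer_singleton_iff.1 b.2, congrArg Subtype.val hp⟩

/-- Pairs of conjugates are simultaneously conjugate when the class sizes are coprime. -/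
theorem exists_conj_pair {x y : G} (hc : Nat.Coprime (sz x) (sz y)) {x' y' : G} (hx' : IsConj x x')
    (hy' : IsConj y y') : ∃ g : G, g * x * g⁻¹ = x' ∧ g * y * g⁻¹ = y' := by
  obtain ⟨g, rfl⟩ := isConj_iff.1 hy'
  obtain ⟨d, hd, hdx⟩ := exists_conj_of_coprime hc
    (x' := g⁻¹ * x' * g) (hx'.trans (isConj_iff.2 ⟨g⁻¹, by simp⟩))
  refine ⟨g * d, ?_, ?_⟩
  · calc g * d * x * (g * d)⁻¹ = g * (d * x * d⁻¹) * g⁻¹ := by group
      _ = x' := by rw [hdx]; group
  · calc g * d * y * (g * d)⁻¹ = g * (d * y) * d⁻¹ * g⁻¹ := by group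
      _ = g * (y * d) * d⁻¹ * g⁻¹ := by rw [hd]
      _ = _ := by group

theorem isConj_mul {x y : G} (hc : Nat.Coprime (sz x) (sz y)) {x' y' : G} (hx' : IsConj x x')
    (hy' : IsConj y y') : IsConj (x * y) (x' * y') := by
  obtain ⟨g, rfl, rfl⟩ := exists_conj_pair hc hx' hy'
  exact isConj_iff.2 ⟨g, by group⟩

theorem sz_mul_dvd {x y : G} (hc : Nat.Coprime (sz x) (sz y)) : sz (x * y) ∣ sz x * sz y := by
  set A := Subgroup.centralizer ({x} : Set G) with hA
  set B := Subgroup.centralizer ({y} : Set G) with hB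
  have h1 : (A ⊓ B).index ≤ sz x * sz y := Subgroup.index_inf_le
  have h2 : sz x * sz y ∣ (A ⊓ B).index := hc.mul_dvd_of_dvd_of_dvd
    (Subgroup.index_dvd_of_le inf_le_left) (Subgroup.index_dvd_of_le inf_le_right)
  have h3 : (A ⊓ B).index = sz x * sz y :=
    le_antisymm h1 (Nat.le_of_dvd (Nat.pos_of_ne_zero Subgroup.index_ne_zero_of_finite) h2)
  rw [← h3]
  refine Subgroup.index_dvd_of_le fun g hg => ?_
  have h4 : g ∈ A := (Subgroup.mem_inf.1 hg).1
  have h5 : g ∈ B := (Subgroup.mem_inf.1 hg).2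
  rw [hA, Subgroup.mem_centralizer_singleton_iff] at h4
  rw [hB, Subgroup.mem_centralizer_singleton_iff] at h5
  rw [Subgroup.mem_centralizer_singleton_iff]
  calc g * (x * y) = g * x * y := (mul_assoc _ _ _).symm
    _ = x * (g * y) := by rw [h4, mul_assoc]
    _ = x * y * g := by rw [h5, mul_assoc]

theorem isConj_inv_mul {x y : G} (hx : IsConj x x⁻¹) (hy : IsConj y y⁻¹)
    (hc : Nat.Coprime (sz x) (sz y)) : IsConj (x * y) (x * y)⁻¹ := by
  refine (isConj_mul hc hx hy).trans (isConj_iff.2 ⟨y⁻¹, by group⟩)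

/-- If the size of `xy` divides that of `y`, the quotients of conjugates of `x` translate the class
of `y` to itself. -/
theorem dsub_le_leftStab {x y : G} (hc : Nat.Coprime (sz x) (sz y)) (hd : sz (x * y) ∣ sz y) :
    dsub x ≤ leftStab (cls y) := by
  have htr : ∀ a, IsConj x a → (fun z => a * z) '' cls y = cls (x * y) := by
    intro a ha
    refine Set.eq_of_subset_of_ncard_le ?_ ?_ (Set.toFinite _)
    · rintro - ⟨z, hz, rfl⟩
      exact isConj_mul hc ha hz
    · rw [Set.ncard_image_of_injective _ (mul_right_injective a), ← Nat.card_coe_set_eq,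
        ← Nat.card_coe_set_eq, card_cls, card_cls]
      exact Nat.le_of_dvd (sz_pos y) hd
  rw [dsub, Subgroup.closure_le]
  rintro - ⟨a, ha, b, hb, rfl⟩ z
  have h1 : a⁻¹ * b * z ∈ cls y ↔ b * z ∈ cls (x * y) := by
    rw [← htr a ha, Set.mem_image]
    constructor
    · intro h; exact ⟨_, h, by group⟩
    · rintro ⟨w, hw, e⟩
      have : a⁻¹ * b * z = w := by rw [mul_assoc, ← e]; group
      rwa [this]
  rw [h1, ← htr b hb, Set.mem_image]
  constructor
  · rintro ⟨w, hw, e⟩; rwa [← mul_left_cancel e]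
  · intro h; exact ⟨z, h, rfl⟩

/-- A group translating a set to itself has order dividing its size. -/
theorem card_dvd_of_le_leftStab {M : Subgroup G} {Y : Set G} (hM : M ≤ leftStab Y) :
    Nat.card M ∣ Nat.card Y := by
  classical
  let _ : MulAction M Y :=
    { smul := fun m z => ⟨(m : G) * (z : G), (hM m.2 z.1).2 z.2⟩
      one_smul := fun z => Subtype.ext (one_mul (z : G))
      mul_smul := fun m k z => Subtype.ext (mul_assoc (m : G) (k : G) (z : G)) }
  haveI := Fintype.ofFinite (Quotient (MulAction.orbitRel M Y))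
  rw [Nat.card_congr (MulAction.selfEquivSigmaOrbitsQuotientStabilizer M Y), Nat.card_sigma]
  refine Finset.dvd_sum fun i _ => ?_
  have hstab : ∀ z : Y, MulAction.stabilizer M z = ⊥ := fun z =>
    (Subgroup.eq_bot_iff_forall _).2 fun m hm => Subtype.ext
      (mul_eq_right.1 (congrArg Subtype.val (hm : m • z = z)))
  rw [hstab, ← Subgroup.index_eq_card, Subgroup.index_bot]

theorem relIndex_dvd_index (C M : Subgroup G) [M.Normal] : C.relIndex M ∣ C.index := by
  have e : M.relIndex (C ⊔ M) = M.relIndex C := Subgroup.relIndex_sup_right C M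
  have e1 : Nat.card (M.subgroupOf (C ⊔ M)) * M.relIndex (C ⊔ M) = Nat.card (C ⊔ M : Subgroup G) :=
    Subgroup.card_mul_index _
  have e2 : Nat.card (M.subgroupOf C) * M.relIndex C = Nat.card C := Subgroup.card_mul_index _
  have e3 : Nat.card (C.subgroupOf M) * C.relIndex M = Nat.card M := Subgroup.card_mul_index _
  have e4 : Nat.card (C.subgroupOf (C ⊔ M)) * C.relIndex (C ⊔ M) = Nat.card (C ⊔ M : Subgroup G) :=
    Subgroup.card_mul_index _
  rw [Nat.card_congr (Subgroup.subgroupOfEquivOfLe (le_sup_right : M ≤ C ⊔ M)).toEquiv, e] at e1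
  rw [Nat.card_congr (Subgroup.subgroupOfEquivOfLe (le_sup_left : C ≤ C ⊔ M)).toEquiv] at e4
  have e5 : Nat.card (M.subgroupOf C) = Nat.card (C.subgroupOf M) := by
    rw [← Subgroup.card_map_of_injective C.subtype_injective,
      ← Subgroup.card_map_of_injective M.subtype_injective (K := C.subgroupOf M),
      Subgroup.subgroupOf_map_subtype, Subgroup.subgroupOf_map_subtype, inf_comm]
  have e6 : C.relIndex M = C.relIndex (C ⊔ M) := by
    refine Nat.eq_of_mul_eq_mul_left (Nat.card_pos (α := C)) ?_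
    rw [e4]
    calc Nat.card C * C.relIndex M = Nat.card (M.subgroupOf C) * M.relIndex C * C.relIndex M := by
          rw [e2]
      _ = Nat.card M * M.relIndex C := by rw [e5, ← e3]; ring
      _ = Nat.card (C ⊔ M : Subgroup G) := e1
  rw [e6]
  exact ⟨(C ⊔ M).index, (Subgroup.relIndex_mul_index le_sup_left).symm⟩

/-- A normal subgroup of order prime to the size of the class centralises it. -/
theorem le_centralizer_of_coprime {x : G} (M : Subgroup G) [M.Normal]
    (hc : Nat.Coprime (Nat.card M) (sz x)) : ∀ m ∈ M, m * x = x * m := by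
  intro m hm
  have h1 : (Subgroup.centralizer ({x} : Set G)).relIndex M = 1 :=
    Nat.eq_one_of_dvd_coprimes hc (Subgroup.relIndex_dvd_card _ M) (relIndex_dvd_index _ M)
  exact Subgroup.mem_centralizer_singleton_iff.1 (Subgroup.relIndex_eq_one.1 h1 hm)

/-- If the quotients of its conjugates centralise `x`, the class consists of commuting elements. -/
theorem commute_cls {x : G} (h : ∀ m ∈ dsub x, m * x = x * m) {a b : G} (ha : IsConj x a)
    (hb : IsConj x b) : a * b = b * a := by
  obtain ⟨g, rfl⟩ := isConj_iff.1 ha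
  have key : ∀ c, IsConj x c → x * c = c * x := fun c hc => by
    have h1 := h _ (mem_dsub (IsConj.refl x) hc)
    calc x * c = x * (x * (x⁻¹ * c)) := by group
      _ = x * (x⁻¹ * c * x) := by rw [h1]
      _ = c * x := by group
  have h2 := key _ (hb.trans (isConj_iff.2 ⟨g⁻¹, rfl⟩))
  calc g * x * g⁻¹ * b = g * (x * (g⁻¹ * b * g⁻¹⁻¹)) * g⁻¹ := by group
    _ = g * (g⁻¹ * b * g⁻¹⁻¹ * x) * g⁻¹ := by rw [h2]
    _ = _ := by group

/-- A class of commuting involutions generates an elementary abelian group. -/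
theorem dsub_sq_eq_one {x : G} (hx : x * x = 1)
    (hcomm : ∀ a b, IsConj x a → IsConj x b → a * b = b * a) :
    (∀ m ∈ dsub x, m * m = 1) ∧ ∀ m ∈ dsub x, m * x = x * m := by
  have hgen : ∀ m ∈ dsub x, m * m = 1 ∧ ∀ c, IsConj x c → m * c = c * m := by
    intro m hm
    induction hm using Subgroup.closure_induction with
    | mem m hm =>
      obtain ⟨a, ha, b, hb, rfl⟩ := hm
      have hsq : ∀ c, IsConj x c → c * c = 1 := fun c hc => by
        obtain ⟨g, rfl⟩ := isConj_iff.1 hc
        calc g * x * g⁻¹ * (g * x * g⁻¹) = g * (x * x) * g⁻¹ := by group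
          _ = 1 := by rw [hx]; group
      have hai : a⁻¹ = a := inv_eq_of_mul_eq_one_right (hsq a ha)
      rw [hai]
      refine ⟨?_, fun c hc => ?_⟩
      · calc a * b * (a * b) = a * (b * a) * b := by group
          _ = a * a * (b * b) := by rw [← hcomm a b ha hb]; group
          _ = 1 := by rw [hsq a ha, hsq b hb, one_mul]
      · calc a * b * c = a * (b * c) := mul_assoc _ _ _
          _ = a * (c * b) := by rw [hcomm b c hb hc]
          _ = a * c * b := (mul_assoc _ _ _).symm
          _ = c * a * b := by rw [hcomm a c ha hc]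
          _ = c * (a * b) := mul_assoc _ _ _
    | one => exact ⟨one_mul 1, fun c _ => by rw [one_mul, mul_one]⟩
    | mul m n hm hn ihm ihn =>
      have hnm : n * m = m * n := by
        have key : ∀ k ∈ dsub x, m * k = k * m := by
          intro k hk
          induction hk using Subgroup.closure_induction with
          | mem k hk =>
            obtain ⟨a, ha, b, hb, rfl⟩ := hk
            have h1 : m * a⁻¹ = a⁻¹ * m := (show Commute m a from ihm.2 a ha).inv_right.eq
            calc m * (a⁻¹ * b) = m * a⁻¹ * b := (mul_assoc _ _ _).symm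
              _ = a⁻¹ * (m * b) := by rw [h1, mul_assoc]
              _ = a⁻¹ * b * m := by rw [ihm.2 b hb, mul_assoc]
          | one => rw [mul_one, one_mul]
          | mul k l _ _ ihk ihl => exact (Commute.mul_right ihk ihl).eq
          | inv k _ ihk => exact (show Commute m k from ihk).inv_right.eq
        exact (key n hn).symm
      refine ⟨?_, fun c hc => ?_⟩
      · calc m * n * (m * n) = m * (n * m) * n := by group
          _ = m * m * (n * n) := by rw [hnm]; group
          _ = 1 := by rw [ihm.1, ihn.1, one_mul]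
      · rw [mul_assoc, ihn.2 c hc, ← mul_assoc, ihm.2 c hc, mul_assoc]
    | inv m _ ih =>
      rw [inv_eq_of_mul_eq_one_right ih.1]
      exact ih
  exact ⟨fun m hm => (hgen m hm).1, fun m hm => (hgen m hm).2 x (IsConj.refl x)⟩

end CfsgLib.RealClassGraph
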