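import Cfsg.Agent.Lib.RealClassGraph.Torus
import Cfsg.Agent.Lib.Zsigmondy.Basic
import Cfsg.Agent.Lib.SmallBlocks.NormalDef.Irreducible
import Cfsg.Agent.Lib.Involutions.BrauerSuzuki

/-!
# Existence of the torus

Outside the module of order 64 a primitive prime divisor gives a real element with cyclic
semiregular centraliser.
-/

set_option autoImplicit false
set_option linter.style.haveILetI false
set_option linter.unusedSectionVars false
open Cfsg

namespace CfsgLib.RealClassGraph

universe u v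

/-- Frattini: an inverted element has a 2-element inverting it and normalising a Sylow subgroup of
its centraliser. -/
theorem exists_normalizer {J : Type u} [Group J] [Finite J] {b t : J} (ht : t * b * t⁻¹ = b⁻¹)
    {r : ℕ} [Fact r.Prime] (R : Sylow r (Subgroup.centralizer ({b} : Set J))) :
    ∃ n : J, (∃ k, orderOf n = 2 ^ k) ∧ n * b * n⁻¹ = b⁻¹ ∧
      ∀ x ∈ (R : Subgroup (Subgroup.centralizer ({b} : Set J))).map
          (Subgroup.centralizer ({b} : Set J)).subtype,
        n * x * n⁻¹ ∈ (R : Subgroup (Subgroup.centralizer ({b} : Set J))).map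
          (Subgroup.centralizer ({b} : Set J)).subtype := by
  have hnorm : ∀ x ∈ (Subgroup.centralizer ({b} : Set J)), t * x * t⁻¹ ∈ (Subgroup.centralizer ({b} : Set J)) := by
    intro x hx
    rw [Subgroup.mem_centralizer_singleton_iff] at hx ⊢
    have hb : b = t * b⁻¹ * t⁻¹ := by
      calc b = (t * b * t⁻¹)⁻¹ := by rw [ht, inv_inv]
        _ = _ := by group
    have hx' : x * b⁻¹ = b⁻¹ * x := (show Commute x b from hx).inv_right.eq
    calc t * x * t⁻¹ * b = t * x * t⁻¹ * (t * b⁻¹ * t⁻¹) := by rw [← hb]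
      _ = t * (x * b⁻¹) * t⁻¹ := by group
      _ = t * (b⁻¹ * x) * t⁻¹ := by rw [hx']
      _ = t * b⁻¹ * t⁻¹ * (t * x * t⁻¹) := by group
      _ = b * (t * x * t⁻¹) := by rw [← hb]
  let φ : (Subgroup.centralizer ({b} : Set J)) →* (Subgroup.centralizer ({b} : Set J)) :=
    { toFun := fun x => ⟨t * x * t⁻¹, hnorm x x.2⟩
      map_one' := Subtype.ext (by simp)
      map_mul' := fun x y => Subtype.ext (by simp [mul_assoc]) }
  have hφs : Function.Surjective φ := Finite.surjective_of_injective fun x y e => Subtype.ext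
    (mul_left_cancel (mul_right_cancel (congrArg Subtype.val e : t * (x : J) * t⁻¹ = t * y * t⁻¹)))
  obtain ⟨c, hc⟩ := MulAction.exists_smul_eq (Subgroup.centralizer ({b} : Set J)) (R.mapSurjective hφs) R
  set m : J := (c : J) * t with hm
  have hmb : m * b * m⁻¹ = b⁻¹ := by
    have hcb := Subgroup.mem_centralizer_singleton_iff.1 c.2
    calc m * b * m⁻¹ = (c : J) * (t * b * t⁻¹) * (c : J)⁻¹ := by rw [hm]; group
      _ = (c : J) * b⁻¹ * (c : J)⁻¹ := by rw [ht]
      _ = b⁻¹ := by rw [(show Commute (c : J) b from hcb).inv_right.eq, mul_inv_cancel_right]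
  have hmR : ∀ x ∈ (R : Subgroup (Subgroup.centralizer ({b} : Set J))).map (Subgroup.centralizer ({b} : Set J)).subtype, m * x * m⁻¹ ∈ (R : Subgroup (Subgroup.centralizer ({b} : Set J))).map (Subgroup.centralizer ({b} : Set J)).subtype := by
    rintro - ⟨x, hx, rfl⟩
    refine ⟨c * φ x * c⁻¹, ?_, ?_⟩
    · have h1 : φ x ∈ ((R.mapSurjective hφs : Sylow r (Subgroup.centralizer ({b} : Set J))) : Subgroup (Subgroup.centralizer ({b} : Set J))) := by
        rw [Sylow.coe_mapSurjective]
        exact Subgroup.mem_map_of_mem _ hx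
      show c * φ x * c⁻¹ ∈ (R : Subgroup (Subgroup.centralizer ({b} : Set J)))
      rw [← hc, Sylow.coe_subgroup_smul]
      exact Subgroup.smul_mem_pointwise_smul _ _ _ h1
    · show (c : J) * (t * x * t⁻¹) * (c : J)⁻¹ = _
      rw [hm]; simp [mul_assoc]
  obtain ⟨l, -, hk, hlb⟩ := exists_two_inverter hmb
  refine ⟨m ^ l, hk, hlb, ?_⟩
  clear hk hlb
  induction l with
  | zero => intro x hx; simpa using hx
  | succ l ih =>
    intro x hx
    have := ih _ (hmR x hx)
    rw [pow_succ]
    simpa [mul_assoc] using this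

variable {J : Type u} [Group J] {W : Type v} [CommGroup W] [MulDistribMulAction J W]

namespace Hyp

variable (h : Hyp J W) [Finite J] [Finite W]
include h

/-- With even order the Sylow 2-subgroups fix proper nontrivial subspaces. -/
theorem card_fixSet_lt (heven : 2 ∣ Nat.card J) (P : Sylow 2 J) :
    1 < Nat.card (fixSet ((P : Subgroup J) : Set J) : Subgroup W) ∧
      Nat.card (fixSet ((P : Subgroup J) : Set J) : Subgroup W) < Nat.card W := by
  refine ⟨?_, ?_⟩
  · by_contra hle
    have h1 := h.card_fixSet_sylow P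
    rw [show Nat.card (fixSet ((P : Subgroup J) : Set J) : Subgroup W) - 1 = 0 by omega, mul_zero] at h1
    have := h.one_lt_card
    omega
  · refine lt_of_le_of_ne (Subgroup.card_le_card_group _) fun e => ?_
    obtain ⟨v, hvP, hv⟩ := Involutions.exists_involution_mem_sylow P (even_iff_two_dvd.2 heven)
    have htop := Subgroup.eq_top_of_card_eq _ e
    have h1 := h.faith v fun w => (htop.symm ▸ Subgroup.mem_top w :
      w ∈ (fixSet ((P : Subgroup J) : Set J) : Subgroup W)) v hvP
    rw [h1, orderOf_one] at hv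
    omega

/-- The number of Sylow 2-subgroups divides every orbit length. -/
theorem card_sylow_dvd {z : W} (hz : z ≠ 1) :
    Nat.card (Sylow 2 J) ∣ (MulAction.stabilizer J z).index := by
  haveI : Fact (Nat.Prime 2) := ⟨Nat.prime_two⟩
  rw [(h.syl hz).card_eq_index_normalizer]
  refine Subgroup.index_dvd_of_le fun x hx => ?_
  rw [← Sylow.smul_eq_iff_mem_normalizer]
  refine (h.syl_eq hz fun y hy => ?_).symm
  rw [Sylow.coe_subgroup_smul, Subgroup.mem_pointwise_smul_iff_inv_smul_mem] at hy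
  have h1 := h.smul_of_mem_syl hz hy
  rw [MulAut.smul_def, show ((MulAut.conj x)⁻¹ : MulAut J) y = x⁻¹ * y * x by simp] at h1
  have hx' : x • z = z := hx
  calc y • z = y • x • z := by rw [hx']
    _ = x • ((x⁻¹ * y * x) • z) := by rw [mul_smul, mul_smul, smul_inv_smul]
    _ = z := by rw [h1, hx']

/-- A prime dividing the number of Sylow 2-subgroups divides the order of the centraliser of a
real element of prime order, a Sylow subgroup of which is one of the group. -/
theorem not_dvd_index {r : ℕ} (hr : r.Prime) (hdvd : r ∣ Nat.card (Sylow 2 J)) {b : J}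
    (hb : RealPrime b) : ¬ r ∣ (Subgroup.centralizer ({b} : Set J)).index := by
  obtain ⟨w, hw⟩ := h.nontriv
  exact fun h' => Nat.not_coprime_of_dvd_of_dvd hr.one_lt h'
    (hdvd.trans (h.card_sylow_dvd hw)) (h.cop b hb w hw)

theorem exists_torus (heven : 2 ∣ Nat.card J) (h64 : Nat.card W ≠ 64) :
    ∃ g s : J, IsTorus h g s := by
  classical
  haveI : Fact (Nat.Prime 2) := ⟨Nat.prime_two⟩
  have hexp : ∀ w : W, w ^ 2 = 1 := fun w => by rw [pow_two, h.two]
  obtain ⟨v, hv⟩ := exists_prime_orderOf_dvd_card' 2 heven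
  obtain ⟨b, hb, -⟩ := h.exists_inverted hv
  obtain ⟨P⟩ : Nonempty (Sylow 2 J) := inferInstance
  obtain ⟨n, hn⟩ := IsPGroup.iff_card.1 (show IsPGroup 2 W from fun w => ⟨1, by
    rw [pow_one]; exact hexp w⟩)
  obtain ⟨a, han, ha⟩ := (Nat.dvd_prime_pow Nat.prime_two).1
    (hn ▸ Subgroup.card_subgroup_dvd_card (fixSet ((P : Subgroup J) : Set J) : Subgroup W))
  obtain ⟨hP1, hPlt⟩ := h.card_fixSet_lt heven P
  rw [ha] at hP1 hPlt
  rw [hn] at hPlt
  have ha0 : 0 < a := by
    rcases Nat.eq_zero_or_pos a with rfl | h0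
    · simp at hP1
    · exact h0
  have halt : a < n := (Nat.pow_lt_pow_iff_right one_lt_two).1 hPlt
  have hn1 : 1 < n := by
    have hf : Nat.card (fix v : Subgroup W) ^ 2 = 2 ^ n := hn ▸ h.card_fix_sq hv
    have h1 := h.one_lt_card_fix hv
    by_contra hle
    have h3 : (2 : ℕ) ^ n ≤ 2 ^ 1 := Nat.pow_le_pow_right two_pos (by omega)
    nlinarith
  obtain ⟨r, hr⟩ := Zsigmondy.exists_isPpd (a := 2) one_lt_two hn1
    (fun e => h64 (by rw [hn, e.2]; norm_num)) (fun e => by
      obtain ⟨-, m, hm⟩ := e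
      rcases m with _ | m
      · simp at hm
      · rw [pow_succ] at hm; omega)
  haveI := Fact.mk hr.1
  have hrdvd : r ∣ Nat.card (Sylow 2 J) := by
    have h1 := h.card_fixSet_sylow P
    rw [ha, hn] at h1
    have h2 := hr.2.1
    rw [h1] at h2
    exact (hr.1.dvd_mul.1 h2).resolve_right (hr.2.2 a ha0 halt)
  have hr2 : r ≠ 2 := by
    rintro rfl
    have h2 := hr.2.1
    have : Even (2 ^ n) := (Nat.even_pow.2 ⟨even_two, by omega⟩)
    obtain ⟨c, hc⟩ := this
    have := Nat.one_le_two_pow (n := n)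
    omega
  have hnd := h.not_dvd_index hr.1 hrdvd hb
  set B := Subgroup.centralizer ({b} : Set J) with hB
  obtain ⟨R⟩ : Nonempty (Sylow r B) := inferInstance
  set R' := (R : Subgroup B).map B.subtype with hR'
  have hRi : ¬ r ∣ R'.index := by
    rw [hR', Subgroup.index_map_subtype]
    exact fun h' => (hr.1.dvd_mul.1 h').elim R.not_dvd_index hnd
  have hRp : IsPGroup r R' := R.isPGroup'.map _
  obtain ⟨w, hw⟩ := h.nontriv
  haveI : Nontrivial R' := by
    rw [Subgroup.nontrivial_iff_ne_bot]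
    intro e
    rw [e, Subgroup.index_bot] at hRi
    exact hRi ((hrdvd.trans (h.card_sylow_dvd hw)).trans (Subgroup.index_dvd_card _))
  haveI := hRp.center_nontrivial
  obtain ⟨k, hk⟩ := IsPGroup.iff_card.1 (hRp.to_subgroup (Subgroup.center R'))
  have hk0 : k ≠ 0 := by
    rintro rfl
    rw [pow_zero] at hk
    exact (Finite.one_lt_card (α := Subgroup.center R')).ne' hk
  obtain ⟨g0, hg0⟩ := exists_prime_orderOf_dvd_card' (G := Subgroup.center R') r
    (hk ▸ dvd_pow_self r hk0)
  set g : J := ((g0 : R') : J) with hg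
  have hgo : orderOf g = r := by rw [hg, Subgroup.orderOf_coe, Subgroup.orderOf_coe, hg0]
  have hgR : g ∈ R' := (g0 : R').2
  have hgcent : ∀ x ∈ R', x ∈ Subgroup.centralizer ({g} : Set J) := fun x hx =>
    Subgroup.mem_centralizer_singleton_iff.2
      (congrArg Subtype.val (Subgroup.mem_center_iff.1 g0.2 ⟨x, hx⟩))
  have hirr : SmallBlocks.NormalDef.Irred W g :=
    SmallBlocks.NormalDef.irred_of_ppd (p := 2) h.faith hn hr hgo
  haveI : Nontrivial W := ⟨⟨w, 1, hw⟩⟩
  have hcyc : IsCyclic (Subgroup.centralizer ({g} : Set J)) :=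
    SmallBlocks.NormalDef.isCyclic_centralizer h.faith hirr inferInstance
  have hsemi : ∀ a ∈ Subgroup.centralizer ({g} : Set J), ∀ z : W, z ≠ 1 → a • z = z → a = 1 := by
    intro x hx z hz hxz
    rcases hirr (fix x) (fun y hy => by
      rw [mem_fix] at hy ⊢
      rw [← mul_smul, Subgroup.mem_centralizer_singleton_iff.1 hx, mul_smul, hy]) with e | e
    · have h1 : z ∈ (fix x : Subgroup W) := mem_fix.2 hxz
      rw [e, Subgroup.mem_bot] at h1
      exact absurd h1 hz
    · exact h.faith x fun y => mem_fix.1 (e ▸ Subgroup.mem_top y)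
  have hbC : b ∈ Subgroup.centralizer ({g} : Set J) := by
    obtain ⟨x, -, hx⟩ := Subgroup.mem_map.1 hgR
    rw [Subgroup.mem_centralizer_singleton_iff, ← hx]
    exact (Subgroup.mem_centralizer_singleton_iff.1 x.2).symm
  -- the powers of `g` are all elements of order `r` of the centraliser
  have huniq : ∀ x ∈ Subgroup.centralizer ({g} : Set J), orderOf x = r → x ∈ Subgroup.zpowers g := by
    intro x hx hxo
    haveI := hcyc
    set A := Subgroup.centralizer ({g} : Set J) with hA
    obtain ⟨c, hc⟩ := IsCyclic.exists_generator (α := A)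
    have key : ∀ y : A, orderOf y = r → y ∈ Subgroup.zpowers (c ^ (orderOf c / r)) := by
      intro y hy
      obtain ⟨i, rfl⟩ := (isOfFinOrder_of_finite c).mem_powers_iff_mem_zpowers.2 (hc y)
      have h3 : orderOf c ∣ i * r := orderOf_dvd_of_pow_eq_one
        (by rw [pow_mul, ← hy, pow_orderOf_eq_one])
      obtain ⟨m, hm⟩ := (hy ▸ orderOf_pow_dvd i : r ∣ orderOf c)
      rw [hm, mul_comm r m] at h3
      obtain ⟨j, rfl⟩ := Nat.dvd_of_mul_dvd_mul_right hr.1.pos h3
      refine ⟨(j : ℤ), ?_⟩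
      simp only [zpow_natCast]
      rw [← pow_mul, hm, Nat.mul_div_cancel_left m hr.1.pos, mul_comm]
    have hgA : g ∈ A := Subgroup.mem_centralizer_singleton_iff.2 rfl
    obtain ⟨i, hi⟩ := key ⟨x, hx⟩ (by rw [Subgroup.orderOf_mk, hxo])
    obtain ⟨j, hj⟩ := key ⟨g, hgA⟩ (by rw [Subgroup.orderOf_mk, hgo])
    set e : A := c ^ (orderOf c / r)
    have heo : orderOf (e : J) = r := by
      obtain ⟨m, hm⟩ := (isOfFinOrder_of_finite c).mem_powers_iff_mem_zpowers.2 (hc ⟨g, hgA⟩)
      have hrc : r ∣ orderOf c := by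
        have h5 := orderOf_pow_dvd (x := c) m
        rwa [show c ^ m = ⟨g, hgA⟩ from hm, Subgroup.orderOf_mk, hgo] at h5
      rw [Subgroup.orderOf_coe, orderOf_pow_orderOf_div (orderOf_pos c).ne' hrc]
    have hej : (e : J) ^ j = g := by rw [← Subgroup.coe_zpow]; exact congrArg Subtype.val hj
    have hei : (e : J) ^ i = x := by rw [← Subgroup.coe_zpow]; exact congrArg Subtype.val hi
    have hg1 : g ≠ 1 := fun e' => by rw [e', orderOf_one] at hgo; exact hr.1.one_lt.ne hgo
    exact hei ▸ zpow_mem (mem_zpowers_of_prime hr.1 heo ⟨j, hej⟩ hg1) i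
  obtain ⟨q, -, hq2, hbo, t, ht⟩ := id hb
  obtain ⟨nn, ⟨k', hk'⟩, hnb, hnR⟩ := exists_normalizer ht R
  have hk'0 : k' ≠ 0 := by
    rintro rfl
    rw [pow_zero, orderOf_eq_one_iff] at hk'
    rw [hk', one_mul, inv_one, mul_one] at hnb
    exact hb.ne_inv hnb
  have hnorm : nn * g * nn⁻¹ ∈ Subgroup.zpowers g :=
    huniq _ (hgcent _ (hnR g hgR)) (((MulAut.conj nn).orderOf_eq g).trans hgo)
  have hpow : ∀ l : ℕ, nn ^ l * g * (nn ^ l)⁻¹ ∈ Subgroup.zpowers g := by
    intro l
    induction l with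
    | zero => simp
    | succ l ih =>
      obtain ⟨i, hi⟩ := ih
      simp only at hi
      have h1 : nn ^ (l + 1) * g * (nn ^ (l + 1))⁻¹ = (nn * g * nn⁻¹) ^ i := by
        rw [← MulAut.conj_apply nn g, ← map_zpow, hi, MulAut.conj_apply, pow_succ']
        group
      rw [h1]
      exact zpow_mem hnorm i
  set s := nn ^ (orderOf nn / 2) with hs
  have hso : orderOf s = 2 := orderOf_pow_orderOf_div (orderOf_pos nn).ne' (hk' ▸ dvd_pow_self 2 hk'0)
  have hg1 : g ≠ 1 := fun e' => by rw [e', orderOf_one] at hgo; exact hr.1.one_lt.ne hgo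
  have hsg : s * g * s⁻¹ = g⁻¹ := by
    have hsg0 : s * g * s⁻¹ ∈ Subgroup.zpowers g := hpow _
    set x := g⁻¹ * (s * g * s⁻¹) with hx
    have hxz : x ∈ Subgroup.zpowers g := mul_mem (inv_mem (Subgroup.mem_zpowers g)) hsg0
    obtain ⟨j, hj⟩ := hsg0
    have hxinv : s * x * s⁻¹ = x⁻¹ := by
      calc s * x * s⁻¹ = (s * g * s⁻¹)⁻¹ * (s * s * g * (s * s)⁻¹) := by rw [hx]; group
        _ = (s * g * s⁻¹)⁻¹ * g := by
          rw [show s * s = 1 by rw [← pow_two, ← hso, pow_orderOf_eq_one]]; simp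
        _ = x⁻¹ := by rw [hx]; group
    by_cases hx1 : x = 1
    · exfalso
      have h1 : s ∈ Subgroup.centralizer ({g} : Set J) := by
        rw [Subgroup.mem_centralizer_singleton_iff]
        rw [hx, inv_mul_eq_one] at hx1
        calc s * g = s * g * s⁻¹ * s := by group
          _ = g * s := by rw [← hx1]
      obtain ⟨z, hz, hfz⟩ := h.exists_ne_one_fix hso
      rw [hsemi s h1 z hz hfz, orderOf_one] at hso
      omega
    · obtain ⟨i, hi⟩ := mem_zpowers_of_prime hr.1 hgo hxz hx1
      simp only at hi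
      rw [← hi, ← MulAut.conj_apply, map_zpow, MulAut.conj_apply, hxinv, inv_zpow]
  exact ⟨g, s, ⟨r, hr.1, hr2, hgo, s, hsg⟩, hcyc, hsemi, hso, hsg⟩

end Hyp

end CfsgLib.RealClassGraph
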