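import Cfsg.Agent.Lib.RealClassGraph.Basic

/-!
# Linear groups with odd stabiliser indices and fixed-point-free real elements

The setting for the structure of `G/C_G(W)`: the fixed spaces of involutions and the unique Sylow
2-subgroup fixing a given vector.
-/

set_option autoImplicit false
set_option linter.style.haveILetI false
set_option linter.unusedSectionVars false
open Cfsg

namespace CfsgLib.RealClassGraph

universe u v

/-- A faithful irreducible group on an elementary abelian 2-group with every stabiliser of odd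
index, all real elements of odd prime order fixed point free and with class size prime to every
orbit length. -/
structure Hyp (J : Type u) (W : Type v) [Group J] [CommGroup W] [MulDistribMulAction J W] :
    Prop where
  faith : ∀ g : J, (∀ w : W, g • w = w) → g = 1
  two : ∀ w : W, w * w = 1
  nontriv : ∃ w : W, w ≠ 1
  odd : ∀ z : W, z ≠ 1 → Odd (MulAction.stabilizer J z).index
  fpf : ∀ a : J, RealPrime a → ∀ z : W, a • z = z → z = 1
  cop : ∀ a : J, RealPrime a → ∀ z : W, z ≠ 1 →
    Nat.Coprime (Subgroup.centralizer ({a} : Set J)).index (MulAction.stabilizer J z).index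
  irred : ∀ U : Subgroup W, (∀ g : J, ∀ x ∈ U, g • x ∈ U) → U = ⊥ ∨ U = ⊤

variable {J : Type u} [Group J] {W : Type v} [CommGroup W] [MulDistribMulAction J W]

/-- The fixed points of a set of elements. -/
def fixSet (S : Set J) : Subgroup W where
  carrier := {w | ∀ g ∈ S, g • w = w}
  one_mem' g _ := smul_one g
  mul_mem' {a b} ha hb g hg := by rw [smul_mul', ha g hg, hb g hg]
  inv_mem' {a} ha g hg := by rw [smul_inv', ha g hg]

/-- The fixed points of one element. -/
abbrev fix (g : J) : Subgroup W := fixSet ({g} : Set J)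

@[simp] theorem mem_fix {g : J} {w : W} : w ∈ fix g ↔ g • w = w :=
  ⟨fun h => h g rfl, fun h x hx => by rw [Set.mem_singleton_iff.1 hx]; exact h⟩

theorem mem_fixSet {S : Set J} {w : W} : w ∈ (fixSet S : Subgroup W) ↔ ∀ g ∈ S, g • w = w := Iff.rfl

theorem smul_mem_fix_conj {g v : J} {w : W} : g • w ∈ (fix (g * v * g⁻¹) : Subgroup W) ↔ w ∈ fix v := by
  rw [mem_fix, mem_fix, mul_smul, mul_smul, inv_smul_smul, smul_left_cancel_iff]

/-- An element of prime order fixes as many points of an invariant subgroup as it has, modulo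
that prime. -/
theorem card_modEq_inf_fix [Finite W] {a : J} {q : ℕ} (hq : q.Prime) (ha : orderOf a = q)
    (U : Subgroup W) (hU : ∀ x ∈ U, a • x ∈ U) :
    Nat.card U ≡ Nat.card (U ⊓ fix a : Subgroup W) [MOD q] := by
  haveI := Fact.mk hq
  have hpow : ∀ i : ℕ, ∀ x ∈ U, a ^ i • x ∈ U := fun i => by
    induction i with
    | zero => exact fun x hx => by rwa [pow_zero, one_smul]
    | succ i ih => exact fun x hx => by rw [pow_succ', mul_smul]; exact hU _ (ih x hx)
  have hfin : IsOfFinOrder a := orderOf_pos_iff.1 (ha ▸ hq.pos)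
  have hstab : ∀ y ∈ Subgroup.zpowers a, ∀ x ∈ U, y • x ∈ U := fun y hy x hx => by
    obtain ⟨i, rfl⟩ := hfin.mem_powers_iff_mem_zpowers.2 hy
    exact hpow i x hx
  let _ : MulAction (Subgroup.zpowers a) U :=
    { smul := fun y x => ⟨(y : J) • (x : W), hstab y y.2 x x.2⟩
      one_smul := fun x => Subtype.ext (one_smul J (x : W))
      mul_smul := fun y z x => Subtype.ext (mul_smul (y : J) (z : J) (x : W)) }
  haveI : Finite (Subgroup.zpowers a) := (finite_zpowers.2 hfin).to_subtype
  have hR : IsPGroup q (Subgroup.zpowers a) :=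
    IsPGroup.of_card (n := 1) (by rw [Nat.card_zpowers, ha, pow_one])
  have h1 := hR.card_modEq_card_fixedPoints U
  have h2 : Nat.card (MulAction.fixedPoints (Subgroup.zpowers a) U) =
      Nat.card (U ⊓ fix a : Subgroup W) :=
    Nat.card_congr
      { toFun := fun x => ⟨x.1.1, x.1.2,
          mem_fix.2 (congrArg Subtype.val (x.2 ⟨a, Subgroup.mem_zpowers a⟩))⟩
        invFun := fun y => ⟨⟨y.1, y.2.1⟩, fun z => Subtype.ext (by
          have h : MulAction.stabilizer J (y.1 : W) ≥ Subgroup.zpowers a :=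
            Subgroup.zpowers_le.2 (mem_fix.1 y.2.2)
          exact h z.2)⟩
        left_inv := fun x => rfl
        right_inv := fun y => rfl }
  rwa [h2] at h1

/-- Membership in a normal subgroup of coprime index. -/
theorem mem_of_coprime_index {G : Type*} [Group G] [Finite G] {N : Subgroup G} [N.Normal] {x : G}
    (h : Nat.Coprime (orderOf x) N.index) : x ∈ N := by
  rw [← QuotientGroup.eq_one_iff, ← orderOf_eq_one_iff]
  exact Nat.eq_one_of_dvd_coprimes h (orderOf_map_dvd (QuotientGroup.mk' N) x)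
    (Subgroup.index_eq_card N ▸ orderOf_dvd_natCard _)

namespace Hyp

variable (h : Hyp J W)
include h

theorem inv_eq (w : W) : w⁻¹ = w := inv_eq_of_mul_eq_one_right (h.two w)

variable [Finite J] [Finite W]

/-- Normal 2-subgroups act trivially. -/
theorem normal_two_eq_bot {P : Subgroup J} [P.Normal] (hP : IsPGroup 2 P) : P = ⊥ := by
  refine (Subgroup.eq_bot_iff_forall _).2 fun p hp => h.faith p fun w => ?_
  rcases eq_or_ne w 1 with rfl | hw
  · exact smul_one p
  · exact le_of_odd_index hP (h.odd w hw) hp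

/-- Every involution inverts a real element of odd prime order. -/
theorem exists_inverted {v : J} (hv : orderOf v = 2) :
    ∃ b : J, RealPrime b ∧ v * b * v⁻¹ = b⁻¹ := by
  haveI : Fact (Nat.Prime 2) := ⟨Nat.prime_two⟩
  obtain ⟨x, b, hx, hb, hxb⟩ := exists_inverted_of_notMem hv (fun hmem => by
    rw [h.normal_two_eq_bot (CfsgLib.Cores.isPGroup_pCore 2 J), Subgroup.mem_bot] at hmem
    rw [hmem, orderOf_one] at hv
    omega)
  obtain ⟨c, rfl⟩ := isConj_iff.1 hx
  refine ⟨c⁻¹ * b * c, by simpa using hb.conj c⁻¹, ?_⟩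
  calc v * (c⁻¹ * b * c) * v⁻¹ = c⁻¹ * (c * v * c⁻¹ * b * (c * v * c⁻¹)⁻¹) * c := by group
    _ = (c⁻¹ * b * c)⁻¹ := by rw [hxb]; group

/-- The fixed space of an involution has the square root of the order of the module. -/
theorem card_fix_sq {v : J} (hv : orderOf v = 2) :
    Nat.card (fix v : Subgroup W) ^ 2 = Nat.card W := by
  have hvv : v * v = 1 := by rw [← pow_two, ← hv, pow_orderOf_eq_one]
  let φ : W →* W :=
    { toFun := fun w => w * v • w
      map_one' := by rw [smul_one, mul_one]
      map_mul' := fun a b => by rw [smul_mul']; exact mul_mul_mul_comm a b (v • a) (v • b) }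
  have hker : φ.ker = fix v := by
    ext w
    rw [MonoidHom.mem_ker, mem_fix]
    show w * v • w = 1 ↔ _
    rw [mul_eq_one_iff_inv_eq, h.inv_eq, eq_comm]
  have hrange : φ.range ≤ fix v := by
    rintro - ⟨w, rfl⟩
    rw [mem_fix]
    show v • (w * v • w) = w * v • w
    rw [smul_mul', ← mul_smul, hvv, one_smul, mul_comm]
  have hle : Nat.card W ≤ Nat.card (fix v : Subgroup W) ^ 2 := by
    rw [← Subgroup.card_mul_index φ.ker, Subgroup.index_ker, hker, pow_two]
    exact Nat.mul_le_mul_left _ (Subgroup.card_le_of_le hrange)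
  obtain ⟨a, ha, hva⟩ := h.exists_inverted hv
  refine le_antisymm ?_ hle
  let U : Subgroup W := fix v
  have hinj : Function.Injective (fun p : U × U => (p.1 : W) * a • (p.2 : W)) := by
    rintro ⟨p, p'⟩ ⟨r, r'⟩ e
    simp only at e
    have e2 : (p : W) * (r : W)⁻¹ = a • ((r' : W) * (p' : W)⁻¹) := by
      rw [smul_mul', smul_inv', eq_mul_inv_iff_mul_eq, mul_right_comm, e, mul_right_comm,
        mul_inv_cancel, one_mul]
    set x : W := (r' : W) * (p' : W)⁻¹ with hx
    have hxv : v • x = x := mem_fix.1 (mul_mem r'.2 (inv_mem p'.2))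
    have hyv : v • (a • x) = a • x := e2 ▸ mem_fix.1 (mul_mem p.2 (inv_mem r.2))
    have hax : (a * a) • x = x := by
      have h1 : v * a = a⁻¹ * v := by rw [← hva]; group
      rw [← mul_smul, h1, mul_smul, hxv] at hyv
      calc (a * a) • x = a • (a • x) := mul_smul _ _ _
        _ = a • (a⁻¹ • x) := by rw [hyv]
        _ = x := smul_inv_smul a x
    have hx1 : x = 1 := by
      refine h.fpf a ha x ?_
      obtain ⟨q, hq, hq2, hqo, -⟩ := ha
      obtain ⟨i, hi⟩ := hq.odd_of_ne_two hq2
      have h2 : (a * a) ^ (i + 1) = a := by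
        rw [← pow_two, ← pow_mul, show 2 * (i + 1) = q + 1 by omega, pow_succ, ← hqo,
          pow_orderOf_eq_one, one_mul]
      have hmem : a ∈ MulAction.stabilizer J x :=
        h2 ▸ pow_mem (show a * a ∈ MulAction.stabilizer J x from hax) _
      exact hmem
    rw [hx1, smul_one, mul_inv_eq_one] at e2
    rw [hx, mul_inv_eq_one] at hx1
    exact Prod.ext (Subtype.ext e2) (Subtype.ext hx1.symm)
  have := Nat.card_le_card_of_injective _ hinj
  rwa [Nat.card_prod, ← pow_two] at this

theorem one_lt_card : 1 < Nat.card W :=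
  Finite.one_lt_card_iff_nontrivial.2 (by obtain ⟨w, hw⟩ := h.nontriv; exact ⟨⟨w, 1, hw⟩⟩)

theorem one_lt_card_fix {v : J} (hv : orderOf v = 2) : 1 < Nat.card (fix v : Subgroup W) := by
  have h1 := h.card_fix_sq hv
  have h2 := h.one_lt_card
  rw [← h1] at h2
  exact (one_lt_pow_iff_of_nonneg (Nat.zero_le _) two_ne_zero).1 h2

theorem exists_ne_one_fix {v : J} (hv : orderOf v = 2) : ∃ z : W, z ≠ 1 ∧ v • z = z := by
  haveI : Nontrivial (fix v : Subgroup W) :=
    Finite.one_lt_card_iff_nontrivial.1 (h.one_lt_card_fix hv)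
  obtain ⟨⟨z, hz⟩, hz1⟩ := exists_ne (1 : (fix v : Subgroup W))
  exact ⟨z, fun e => hz1 (Subtype.ext e), mem_fix.1 hz⟩

/-- Two fixed spaces, one contained in the other, are equal. -/
theorem fix_eq_of_le {v w : J} (hv : orderOf v = 2) (hw : orderOf w = 2)
    (hle : (fix v : Subgroup W) ≤ fix w) : (fix w : Subgroup W) = fix v := by
  refine (Subgroup.eq_of_le_of_card_ge hle (le_of_eq ?_)).symm
  exact Nat.pow_left_injective two_ne_zero ((h.card_fix_sq hw).trans (h.card_fix_sq hv).symm)

/-- The Sylow 2-subgroup fixing a vector, with all 2-elements fixing it. -/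
theorem exists_syl {z : W} (hz : z ≠ 1) :
    ∃ P : Sylow 2 J, (∀ g ∈ (P : Subgroup J), g • z = z) ∧
      ∀ g : J, (∃ k, orderOf g = 2 ^ k) → g • z = z → g ∈ (P : Subgroup J) := by
  haveI : Fact (Nat.Prime 2) := ⟨Nat.prime_two⟩
  set S := MulAction.stabilizer J z with hS
  haveI : (Cfsg.pCore 2 S).Normal := Cfsg.pCore_normal 2 S
  have hR : Odd (Cfsg.pCore 2 S).index := odd_index_pCore fun a ha => hz (h.fpf a ha.coe z a.2)
  have hp : IsPGroup 2 ((Cfsg.pCore 2 S).map S.subtype) :=
    (CfsgLib.Cores.isPGroup_pCore 2 S).map _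
  have hidx : ¬ 2 ∣ ((Cfsg.pCore 2 S).map S.subtype).index := by
    rw [Subgroup.index_map_subtype]
    exact (hR.mul (h.odd z hz)).not_two_dvd_nat
  refine ⟨hp.toSylow hidx, fun g hg => ?_, fun g ⟨k, hk⟩ hgz => ?_⟩
  · rw [IsPGroup.toSylow_coe, Subgroup.mem_map] at hg
    obtain ⟨x, -, rfl⟩ := hg
    exact x.2
  · rw [IsPGroup.toSylow_coe, Subgroup.mem_map]
    refine ⟨⟨g, hgz⟩, mem_of_coprime_index ?_, rfl⟩
    rw [← Subgroup.orderOf_coe, show ((⟨g, hgz⟩ : S) : J) = g from rfl, hk]
    exact (Nat.coprime_two_left.2 hR).pow_left k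

/-- The Sylow 2-subgroup fixing `z`. -/
noncomputable def syl {z : W} (hz : z ≠ 1) : Sylow 2 J := (h.exists_syl hz).choose

theorem smul_of_mem_syl {z : W} (hz : z ≠ 1) {g : J} (hg : g ∈ (h.syl hz : Subgroup J)) :
    g • z = z := (h.exists_syl hz).choose_spec.1 g hg

theorem mem_syl {z : W} (hz : z ≠ 1) {g : J} (hg : ∃ k, orderOf g = 2 ^ k) (hgz : g • z = z) :
    g ∈ (h.syl hz : Subgroup J) := (h.exists_syl hz).choose_spec.2 g hg hgz

theorem syl_eq {z : W} (hz : z ≠ 1) {P : Sylow 2 J} (hP : ∀ g ∈ (P : Subgroup J), g • z = z) :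
    h.syl hz = P := by
  haveI : Fact (Nat.Prime 2) := ⟨Nat.prime_two⟩
  refine Sylow.ext (P.is_maximal' (h.syl hz).isPGroup' fun g hg => ?_)
  obtain ⟨k, hk⟩ := IsPGroup.iff_orderOf.1 P.isPGroup' ⟨g, hg⟩
  rw [Subgroup.orderOf_mk] at hk
  exact h.mem_syl hz ⟨k, hk⟩ (hP g hg)

/-- Every element of a Sylow 2-subgroup fixes some vector. -/
theorem exists_syl_eq (P : Sylow 2 J) : ∃ (z : W) (hz : z ≠ 1), h.syl hz = P := by
  haveI : Fact (Nat.Prime 2) := ⟨Nat.prime_two⟩
  obtain ⟨w, hw⟩ := h.nontriv
  obtain ⟨g, hg⟩ := MulAction.exists_smul_eq J (h.syl hw) P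
  have hgw : g • w ≠ 1 := fun e => hw (smul_left_cancel g (e.trans (smul_one g).symm))
  refine ⟨g • w, hgw, h.syl_eq hgw fun x hx => ?_⟩
  rw [← hg, Sylow.coe_subgroup_smul, Subgroup.mem_pointwise_smul_iff_inv_smul_mem] at hx
  have h1 := h.smul_of_mem_syl hw hx
  rw [MulAut.smul_def] at h1
  rw [show ((MulAut.conj g)⁻¹ : MulAut J) x = g⁻¹ * x * g by simp] at h1
  calc x • g • w = g • ((g⁻¹ * x * g) • w) := by rw [mul_smul, mul_smul, smul_inv_smul]
    _ = g • w := by rw [h1]

/-- Every orbit of a subgroup transitive on it contains a point fixed by a given involution. -/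
theorem exists_fixed_in_orbit {v : J} (hv : orderOf v = 2) {z : W} (hz : z ≠ 1) :
    ∃ g : J, v • (g • z) = g • z := by
  haveI : Fact (Nat.Prime 2) := ⟨Nat.prime_two⟩
  obtain ⟨g, hg⟩ := Involutions.exists_conj_mem_of_involution (h.syl hz) hv
  refine ⟨g⁻¹, smul_left_cancel g ?_⟩
  rw [smul_inv_smul, ← mul_smul, ← mul_smul]
  exact h.smul_of_mem_syl hz hg

/-- The centraliser of a real element of prime order is transitive on every orbit. -/
theorem exists_comm_smul {a : J} (ha : RealPrime a) {z : W} (hz : z ≠ 1) (g : J) :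
    ∃ c ∈ Subgroup.centralizer ({a} : Set J), c • z = g • z := by
  set C := Subgroup.centralizer ({a} : Set J) with hC
  set S := MulAction.stabilizer J z with hS
  have h1 : (S ⊓ C).index = S.relIndex C * C.index := by
    rw [← Subgroup.inf_relIndex_right S C, Subgroup.relIndex_mul_index inf_le_right]
  have h2 : S.index ∣ (S ⊓ C).index := Subgroup.index_dvd_of_le inf_le_left
  rw [h1] at h2
  have h3 : S.index ∣ S.relIndex C := (h.cop a ha z hz).symm.dvd_of_dvd_mul_right h2
  have h4 : 0 < S.relIndex C := Nat.pos_of_ne_zero (Subgroup.index_ne_zero_of_finite (H := S.subgroupOf C))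
  have horb : MulAction.orbit C z = MulAction.orbit J z := by
    refine Set.eq_of_subset_of_ncard_le ?_ ?_ (Set.toFinite _)
    · rintro - ⟨c, rfl⟩
      exact ⟨(c : J), rfl⟩
    · have e1 : (MulAction.orbit C z).ncard = S.relIndex C := by
        rw [← Nat.card_coe_set_eq, Nat.card_congr (MulAction.orbitEquivQuotientStabilizer C z),
          ← Subgroup.index_eq_card, Subgroup.relIndex]
        rfl
      have e2 : (MulAction.orbit J z).ncard = S.index := by
        rw [← Nat.card_coe_set_eq, Nat.card_congr (MulAction.orbitEquivQuotientStabilizer J z),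
          ← Subgroup.index_eq_card]
      rw [e1, e2]
      exact Nat.le_of_dvd h4 h3
  obtain ⟨c, hc⟩ : g • z ∈ MulAction.orbit C z := horb ▸ MulAction.mem_orbit z g
  exact ⟨c, c.2, hc⟩

/-- All Sylow 2-subgroups fix equally many vectors, and these spaces partition the module. -/
theorem card_fixSet_sylow (P : Sylow 2 J) :
    Nat.card W - 1 =
      Nat.card (Sylow 2 J) * (Nat.card (fixSet ((P : Subgroup J) : Set J) : Subgroup W) - 1) := by
  classical
  haveI : Fact (Nat.Prime 2) := ⟨Nat.prime_two⟩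
  haveI := Fintype.ofFinite W
  haveI := Fintype.ofFinite (Sylow 2 J)
  let F : {w : W // w ≠ 1} → Sylow 2 J := fun w => h.syl w.2
  have hfib : ∀ Q : Sylow 2 J, Nat.card {w : {w : W // w ≠ 1} // F w = Q} =
      Nat.card (fixSet ((P : Subgroup J) : Set J) : Subgroup W) - 1 := by
    intro Q
    obtain ⟨g, rfl⟩ := MulAction.exists_smul_eq J P Q
    have hcard : Nat.card (fixSet ((P : Subgroup J) : Set J) : Subgroup W) - 1 =
        Nat.card {w : (fixSet ((P : Subgroup J) : Set J) : Subgroup W) // w ≠ 1} := by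
      rw [Nat.card_eq_fintype_card, Nat.card_eq_fintype_card, Fintype.card_subtype_compl,
        Fintype.card_subtype_eq]
    rw [hcard]
    have key : ∀ x : J, x ∈ ((g • P : Sylow 2 J) : Subgroup J) ↔ g⁻¹ * x * g ∈ (P : Subgroup J) := by
      intro x
      rw [Sylow.coe_subgroup_smul, Subgroup.mem_pointwise_smul_iff_inv_smul_mem, MulAut.smul_def]
      simp
    refine Nat.card_congr
      { toFun := fun w => ⟨⟨g⁻¹ • (w.1.1 : W), fun x hx => ?_⟩, fun e => w.1.2 ?_⟩
        invFun := fun y => ⟨⟨g • (y.1.1 : W), fun e => y.2 ?_⟩, ?_⟩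
        left_inv := fun w => by simp
        right_inv := fun y => by simp }
    · have h1 : g * x * g⁻¹ ∈ ((g • P : Sylow 2 J) : Subgroup J) := (key _).2 (by simpa [mul_assoc] using (show x ∈ (P : Subgroup J) from hx))
      have h2 : (g * x * g⁻¹) • (w.1.1 : W) = w.1.1 := h.smul_of_mem_syl w.1.2 (by
        rw [show h.syl w.1.2 = g • P from w.2]; exact h1)
      rw [mul_smul, mul_smul] at h2
      exact eq_inv_smul_iff.2 h2
    · have h1 := congrArg Subtype.val e
      simpa [inv_smul_eq_iff] using h1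
    · refine Subtype.ext ?_
      have h1 : g • (y.1.1 : W) = g • (1 : W) := by rw [e, smul_one]
      exact smul_left_cancel g h1
    · refine h.syl_eq _ fun x hx => ?_
      have h1 := y.1.2 _ ((key x).1 hx)
      rw [mul_smul, mul_smul, inv_smul_eq_iff] at h1
      exact h1
  have h1 : Nat.card {w : W // w ≠ 1} = Nat.card W - 1 := by
    rw [Nat.card_eq_fintype_card, Nat.card_eq_fintype_card, Fintype.card_subtype_compl,
      Fintype.card_subtype_eq]
  rw [← h1, ← Nat.card_congr (Equiv.sigmaFiberEquiv F), Nat.card_sigma,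
    Finset.sum_congr rfl (fun Q _ => hfib Q), Finset.sum_const, smul_eq_mul, Finset.card_univ,
    ← Nat.card_eq_fintype_card]

end Hyp

end CfsgLib.RealClassGraph
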