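import Cfsg.Agent.Lib.RealClassGraph.Existence
import Cfsg.Agent.S0205

/-!
# The module of order 64

Real elements of odd prime order have order three, so none stabilises a subspace of order eight;
every Sylow 2-subgroup then has a single involution, which is isolated.
-/

set_option autoImplicit false
set_option linter.style.haveILetI false
set_option linter.unusedSectionVars false
open Cfsg

namespace CfsgLib.RealClassGraph

universe u v

/-- A group with a normal Sylow 2-subgroup is solvable. -/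
theorem isSolvable_of_odd_index_pCore {G : Type u} [Group G] [Finite G]
    (hodd : Odd (Cfsg.pCore 2 G).index) : Group.IsSolvable G := by
  haveI : Fact (Nat.Prime 2) := ⟨Nat.prime_two⟩
  haveI : (Cfsg.pCore 2 G).Normal := Cfsg.pCore_normal 2 G
  haveI : Group.IsNilpotent (Cfsg.pCore 2 G) := (CfsgLib.Cores.isPGroup_pCore 2 G).isNilpotent
  haveI : Group.IsSolvable (G ⧸ Cfsg.pCore 2 G) :=
    Cfsg.Agent.S0205.result (by rw [← Subgroup.index_eq_card]; exact hodd)
  exact Group.isSolvable_of_ker_le_range (Cfsg.pCore 2 G).subtype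
    (QuotientGroup.mk' (Cfsg.pCore 2 G))
    (by rw [QuotientGroup.ker_mk', Subgroup.range_subtype])

variable {J : Type u} [Group J] {W : Type v} [CommGroup W] [MulDistribMulAction J W]

/-- A 2-group of maps stabilising a nontrivial subgroup fixes a nontrivial element of it. -/
theorem exists_fixed_in [Finite W] {Q : Subgroup J} [Finite Q] (hQ : IsPGroup 2 Q) {U : Subgroup W}
    (hU : Q ≤ stabSub U) (heven : 2 ∣ Nat.card U) :
    ∃ z ∈ U, z ≠ 1 ∧ ∀ x ∈ Q, x • z = z := by
  haveI : Fact (Nat.Prime 2) := ⟨Nat.prime_two⟩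
  let _ : MulAction Q U :=
    { smul := fun x z => ⟨(x : J) • (z : W), (hU x.2 z.1).2 z.2⟩
      one_smul := fun z => Subtype.ext (one_smul J (z : W))
      mul_smul := fun x y z => Subtype.ext (mul_smul (x : J) (y : J) (z : W)) }
  have h1 : (⟨1, one_mem U⟩ : U) ∈ MulAction.fixedPoints Q U :=
    fun x => Subtype.ext (smul_one (x : J))
  obtain ⟨z, hz, hzne⟩ := hQ.exists_fixed_point_of_prime_dvd_card_of_fixed_point U heven h1
  exact ⟨z.1, z.2, fun e => hzne (Subtype.ext e.symm), fun x hx => congrArg Subtype.val (hz ⟨x, hx⟩)⟩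

namespace Hyp

variable (h : Hyp J W) [Finite J] [Finite W] (h64 : Nat.card W = 64)
include h h64

/-- A real element of prime order has order three. -/
theorem order_three {a : J} (ha : RealPrime a) : orderOf a = 3 := by
  obtain ⟨q, hq, hq2, hqo, t, ht⟩ := id ha
  have hfix : (⊤ ⊓ fix a : Subgroup W) = ⊥ := (Subgroup.eq_bot_iff_forall _).2
    fun z hz => h.fpf a ha z (mem_fix.1 hz.2)
  have h1 := card_modEq_inf_fix hq hqo (⊤ : Subgroup W) fun x _ => Subgroup.mem_top _
  rw [hfix, Subgroup.card_bot, Subgroup.card_top, h64] at h1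
  have h63 : q ∣ 63 := (Nat.modEq_iff_dvd' (by norm_num)).1 h1.symm
  have hle : q ≤ 63 := Nat.le_of_dvd (by norm_num) h63
  have hq37 : q = 3 ∨ q = 7 := by
    rcases hq.dvd_mul.1 (show q ∣ 9 * 7 from h63) with h2 | h2
    · left
      have : q ∣ 3 ^ 2 := h2
      exact (Nat.prime_dvd_prime_iff_eq hq Nat.prime_three).1 (hq.dvd_of_dvd_pow this)
    · right
      exact (Nat.prime_dvd_prime_iff_eq hq (by norm_num)).1 h2
  rcases hq37 with rfl | rfl
  · exact hqo
  exfalso
  have ha7 : a ^ 7 = 1 := hqo ▸ pow_orderOf_eq_one a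
  let f₁ : W →* W :=
    { toFun := fun w => a ^ 3 • w * a • w * w
      map_one' := by simp
      map_mul' := fun x y => by
        simp only [smul_mul']
        ac_rfl }
  let f₂ : W →* W :=
    { toFun := fun w => a ^ 3 • w * a ^ 2 • w * w
      map_one' := by simp
      map_mul' := fun x y => by
        simp only [smul_mul']
        ac_rfl }
  -- the product over all powers is trivial
  have hprod : ∀ w, f₁ (f₂ w) = 1 := by
    intro w
    have hcancel : ∀ x y : W, x * (x * y) = y := fun x y => by rw [← mul_assoc, h.two, one_mul]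
    set P0 : W := w * a • w * a ^ 2 • w * a ^ 3 • w * a ^ 4 • w * a ^ 5 • w * a ^ 6 • w with hP0
    have e : f₁ (f₂ w) = P0 := by
      show a ^ 3 • (a ^ 3 • w * a ^ 2 • w * w) * a • (a ^ 3 • w * a ^ 2 • w * w) *
        (a ^ 3 • w * a ^ 2 • w * w) = P0
      simp only [smul_mul', ← mul_smul, ← pow_add, ← pow_succ', Nat.reduceAdd, hP0]
      calc a ^ 6 • w * a ^ 5 • w * a ^ 3 • w * (a ^ 4 • w * a ^ 3 • w * a • w) *
            (a ^ 3 • w * a ^ 2 • w * w)
          = a ^ 3 • w * (a ^ 3 • w * (w * a • w * a ^ 2 • w * a ^ 3 • w * a ^ 4 • w * a ^ 5 • w *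
              a ^ 6 • w)) := by ac_rfl
        _ = _ := hcancel _ _
    rw [e]
    refine h.fpf a ha P0 ?_
    rw [hP0]
    simp only [smul_mul', ← mul_smul, ← pow_succ', Nat.reduceAdd]
    rw [← pow_two, ha7, one_smul]
    ac_rfl
  have hkerinv : ∀ (f : W →* W), (∀ c : J, c * a = a * c → ∀ w, f (c • w) = c • f w) →
      ∀ x : J, ∀ w ∈ f.ker, x • w ∈ f.ker := by
    intro f hf x w hw
    rw [MonoidHom.mem_ker] at hw ⊢
    rcases eq_or_ne w 1 with rfl | hw1
    · rw [smul_one, map_one]
    obtain ⟨c, hc, e⟩ := h.exists_comm_smul ha hw1 x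
    rw [← e, hf c (Subgroup.mem_centralizer_singleton_iff.1 hc), hw, smul_one]
  have hcommpow : ∀ c : J, c * a = a * c → ∀ (i : ℕ) (w : W), a ^ i • c • w = c • a ^ i • w :=
    fun c hc i w => by
      rw [← mul_smul, ← mul_smul, ((show Commute c a from hc).pow_right i).eq]
  have hf₁ : ∀ c : J, c * a = a * c → ∀ w, f₁ (c • w) = c • f₁ w := fun c hc w => by
    show a ^ 3 • c • w * a • c • w * c • w = c • (a ^ 3 • w * a • w * w)
    have h1 := hcommpow c hc 1 w
    rw [pow_one] at h1
    rw [hcommpow c hc, h1, smul_mul', smul_mul']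
  have hf₂ : ∀ c : J, c * a = a * c → ∀ w, f₂ (c • w) = c • f₂ w := fun c hc w => by
    show a ^ 3 • c • w * a ^ 2 • c • w * c • w = c • (a ^ 3 • w * a ^ 2 • w * w)
    rw [hcommpow c hc, hcommpow c hc, smul_mul', smul_mul']
  have htinv : ∀ (i : ℕ) (w : W), a ^ i • t • a ^ i • w = t • w := by
    intro i w
    rw [← mul_smul, ← mul_smul]
    congr 1
    have h2 := inv_pow_of_inv ht i
    calc a ^ i * t * a ^ i = a ^ i * (t * a ^ i * t⁻¹) * t := by group
      _ = t := by rw [h2, mul_inv_cancel, one_mul]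
  -- `t` carries the first kernel into the second
  have hswap : ∀ w, f₁ w = 1 → f₂ (t • w) = 1 := by
    intro w hw
    have h3 : a ^ 3 • (t • f₁ w) = f₂ (t • w) := by
      show a ^ 3 • t • (a ^ 3 • w * a • w * w) = a ^ 3 • t • w * a ^ 2 • t • w * t • w
      have e1 : a ^ 3 • t • a • w = a ^ 2 • t • w := by
        have := htinv 1 w
        rw [pow_one] at this
        calc a ^ 3 • t • a • w = a ^ 2 • a • t • a • w := by rw [pow_succ a 2, mul_smul]
          _ = a ^ 2 • t • w := by rw [this]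
      rw [smul_mul', smul_mul', smul_mul', smul_mul', htinv 3, e1]
      ac_rfl
    rw [← h3, hw, smul_one, smul_one]
  rcases h.irred f₁.ker (hkerinv f₁ hf₁) with e1 | e1
  · have e2 : f₂.ker = ⊤ := eq_top_iff.2 fun w _ => by
      rw [MonoidHom.mem_ker]
      have h4 : f₂ w ∈ f₁.ker := hprod w
      rwa [e1, Subgroup.mem_bot] at h4
    have hswap' : ∀ w, f₂ w = 1 → f₁ (t • w) = 1 := by
      intro w hw
      have h3 : a ^ 3 • (t • f₂ w) = f₁ (t • w) := by
        show a ^ 3 • t • (a ^ 3 • w * a ^ 2 • w * w) = a ^ 3 • t • w * a • t • w * t • w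
        have e3 : a ^ 3 • t • a ^ 2 • w = a • t • w := by
          calc a ^ 3 • t • a ^ 2 • w = a • a ^ 2 • t • a ^ 2 • w := by rw [pow_succ' a 2, mul_smul]
            _ = a • t • w := by rw [htinv 2]
        rw [smul_mul', smul_mul', smul_mul', smul_mul', htinv 3, e3]
        ac_rfl
      rw [← h3, hw, smul_one, smul_one]
    obtain ⟨w, hw⟩ := h.nontriv
    have h5 : t • w ∈ f₁.ker := hswap' w (e2.symm ▸ Subgroup.mem_top w : w ∈ f₂.ker)
    rw [e1, Subgroup.mem_bot] at h5
    exact hw (smul_left_cancel t (h5.trans (smul_one t).symm))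
  · obtain ⟨w, hw⟩ := h.nontriv
    have h6 : f₁ w = 1 := (e1.symm ▸ Subgroup.mem_top w : w ∈ f₁.ker)
    have h7 : f₁ (t⁻¹ • w) = 1 := (e1.symm ▸ Subgroup.mem_top _ : t⁻¹ • w ∈ f₁.ker)
    have h8 := hswap _ h7
    rw [smul_inv_smul] at h8
    refine hw (h.fpf a ha w ?_)
    have h9 : a • w = a ^ 2 • w := by
      have h10 : a ^ 3 • w * a • w * w = a ^ 3 • w * a ^ 2 • w * w := h6.trans h8.symm
      exact mul_left_cancel (mul_right_cancel h10)
    rw [pow_two, mul_smul] at h9
    exact (smul_left_cancel a h9).symm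

/-- No real element of prime order stabilises a subgroup of order eight. -/
theorem not_mem_stabSub {a : J} (ha : RealPrime a) {U : Subgroup W} (hU : Nat.card U = 8) :
    a ∉ (stabSub U : Subgroup J) := by
  intro hmem
  have h1 := card_modEq_inf_fix Nat.prime_three (h.order_three h64 ha) U
    fun x hx => (hmem x).2 hx
  rw [show (U ⊓ fix a : Subgroup W) = ⊥ from (Subgroup.eq_bot_iff_forall _).2
    fun z hz => h.fpf a ha z (mem_fix.1 hz.2), Subgroup.card_bot, hU] at h1
  exact absurd h1 (by decide)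

theorem card_fix {v : J} (hv : orderOf v = 2) : Nat.card (fix v : Subgroup W) = 8 := by
  have h1 := h.card_fix_sq hv
  rw [h64] at h1
  exact Nat.pow_left_injective two_ne_zero (h1.trans (by norm_num))

theorem odd_index_pCore_stabSub {U : Subgroup W} (hU : Nat.card U = 8) :
    Odd (Cfsg.pCore 2 (stabSub U : Subgroup J)).index :=
  odd_index_pCore fun a ha => h.not_mem_stabSub h64 ha.coe hU a.2

set_option maxHeartbeats 1600000 in
/-- Every Sylow 2-subgroup fixes eight vectors. -/
theorem card_fixSet_eq (heven : 2 ∣ Nat.card J) (P : Sylow 2 J) :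
    Nat.card (fixSet ((P : Subgroup J) : Set J) : Subgroup W) = 8 := by
  haveI : Fact (Nat.Prime 2) := ⟨Nat.prime_two⟩
  haveI : Fact (Nat.Prime 7) := ⟨by norm_num⟩
  by_contra hne
  obtain ⟨hP1, hPlt⟩ := h.card_fixSet_lt heven P
  obtain ⟨v0, hv0P, hv0⟩ := Involutions.exists_involution_mem_sylow P (even_iff_two_dvd.2 heven)
  have hle : (fixSet ((P : Subgroup J) : Set J) : Subgroup W) ≤ fix v0 :=
    fun w hw => mem_fix.2 (hw v0 hv0P)
  have hdvd : Nat.card (fixSet ((P : Subgroup J) : Set J) : Subgroup W) ∣ 8 :=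
    h.card_fix h64 hv0 ▸ Subgroup.card_dvd_of_le hle
  have h7 : 7 ∣ Nat.card (Sylow 2 J) := by
    have h1 := h.card_fixSet_sylow P
    rw [h64] at h1
    obtain ⟨a, ha, hae⟩ := (Nat.dvd_prime_pow Nat.prime_two).1 (show _ ∣ 2 ^ 3 from hdvd)
    rw [hae] at h1 hne hP1
    interval_cases a
    · omega
    · exact ⟨9, by omega⟩
    · exact ⟨3, by omega⟩
    · exact absurd rfl hne
  obtain ⟨b, hb, -⟩ := h.exists_inverted hv0
  obtain ⟨q, -, -, -, t, ht⟩ := id hb
  have hnd := h.not_dvd_index (by norm_num) h7 hb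
  obtain ⟨R⟩ : Nonempty (Sylow 7 (Subgroup.centralizer ({b} : Set J))) := inferInstance
  obtain ⟨n, ⟨k, hk⟩, hnb, hnR⟩ := exists_normalizer ht R
  set R' := (R : Subgroup (Subgroup.centralizer ({b} : Set J))).map
    (Subgroup.centralizer ({b} : Set J)).subtype with hR'
  have hRi : ¬ 7 ∣ R'.index := by
    rw [hR', Subgroup.index_map_subtype]
    exact fun h' => ((show Nat.Prime 7 by norm_num).dvd_mul.1 h').elim R.not_dvd_index hnd
  have hRp : IsPGroup 7 R' := R.isPGroup'.map _
  have hk0 : k ≠ 0 := by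
    rintro rfl
    rw [pow_zero, orderOf_eq_one_iff] at hk
    rw [hk, one_mul, inv_one, mul_one] at hnb
    exact hb.ne_inv hnb
  set v := n ^ (orderOf n / 2) with hv
  have hvo : orderOf v = 2 := orderOf_pow_orderOf_div (orderOf_pos n).ne' (hk ▸ dvd_pow_self 2 hk0)
  have hvv : v * v = 1 := by rw [← pow_two, ← hvo, pow_orderOf_eq_one]
  have hvR : ∀ x ∈ R', v * x * v⁻¹ ∈ R' := by
    rw [hv]
    generalize orderOf n / 2 = l
    induction l with
    | zero => intro x hx; simpa using hx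
    | succ l ih =>
      intro x hx
      have := ih _ (hnR x hx)
      rw [pow_succ]
      simpa [mul_assoc] using this
  -- the involution centralises the Sylow 7-subgroup
  have hcent : ∀ x ∈ R', v * x = x * v := by
    intro x hx
    set y := x⁻¹ * (v * x * v⁻¹) with hy
    have hyR : y ∈ R' := mul_mem (inv_mem hx) (hvR x hx)
    have hyinv : v * y * v⁻¹ = y⁻¹ := by
      calc v * y * v⁻¹ = (v * x * v⁻¹)⁻¹ * (v * v * x * (v * v)⁻¹) := by rw [hy]; group
        _ = (v * x * v⁻¹)⁻¹ * x := by rw [hvv]; simp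
        _ = y⁻¹ := by rw [hy]; group
    by_cases hy1 : y = 1
    · rw [hy, inv_mul_eq_one] at hy1
      calc v * x = v * x * v⁻¹ * v := by group
        _ = x * v := by rw [← hy1]
    · exfalso
      obtain ⟨j, hj⟩ := IsPGroup.iff_orderOf.1 hRp ⟨y, hyR⟩
      rw [Subgroup.orderOf_mk] at hj
      rcases j with _ | j
      · exact hy1 (orderOf_eq_one_iff.1 (by rw [hj, pow_zero]))
      obtain ⟨i, hi1, hi2⟩ := exists_realPrime_pow hyinv (show Nat.Prime 7 by norm_num) (by norm_num)
        (hj ▸ dvd_pow_self 7 (Nat.succ_ne_zero j))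
      have := h.order_three h64 hi2
      omega
  haveI : Nontrivial R' := by
    rw [Subgroup.nontrivial_iff_ne_bot]
    intro e
    rw [e, Subgroup.index_bot] at hRi
    obtain ⟨w, hw⟩ := h.nontriv
    exact hRi ((h7.trans (h.card_sylow_dvd hw)).trans (Subgroup.index_dvd_card _))
  obtain ⟨g0, hg0⟩ := exists_prime_orderOf_dvd_card' (G := R') 7 (by
    obtain ⟨j, hj⟩ := IsPGroup.iff_card.1 hRp
    rw [hj]
    refine dvd_pow_self 7 ?_
    rintro rfl
    rw [pow_zero] at hj
    exact (Finite.one_lt_card (α := R')).ne' hj)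
  set g : J := (g0 : J) with hg
  have hgo : orderOf g = 7 := by rw [hg, Subgroup.orderOf_coe, hg0]
  have hgb : g * b = b * g := by
    obtain ⟨x, -, hx⟩ := Subgroup.mem_map.1 g0.2
    rw [hg, ← hx]
    exact Subgroup.mem_centralizer_singleton_iff.1 x.2
  have hgv := hcent g g0.2
  -- `g` is fixed point free
  have hgfix : (fix g : Subgroup W) = ⊥ := by
    have hb3 := h.order_three h64 hb
    have h3 := card_modEq_inf_fix Nat.prime_three hb3 (fix g : Subgroup W) fun x hx => by
      rw [mem_fix] at hx ⊢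
      rw [← mul_smul, hgb, mul_smul, hx]
    rw [show (fix g ⊓ fix b : Subgroup W) = ⊥ from (Subgroup.eq_bot_iff_forall _).2
      fun z hz => h.fpf b hb z (mem_fix.1 hz.2), Subgroup.card_bot] at h3
    have h7' := card_modEq_inf_fix (show Nat.Prime 7 by norm_num) hgo (⊤ : Subgroup W)
      fun x _ => Subgroup.mem_top _
    rw [top_inf_eq, Subgroup.card_top, h64] at h7'
    obtain ⟨a, ha, hae⟩ := (Nat.dvd_prime_pow Nat.prime_two).1
      (show _ ∣ 2 ^ 6 from h64 ▸ Subgroup.card_subgroup_dvd_card (fix g : Subgroup W))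
    rw [hae] at h3 h7'
    have ha6 : a ≠ 6 := fun e => by
      have htop : (fix g : Subgroup W) = ⊤ :=
        Subgroup.eq_top_of_card_eq _ (by rw [hae, e, h64]; norm_num)
      have := h.faith g fun w => mem_fix.1 (htop ▸ Subgroup.mem_top w)
      rw [this, orderOf_one] at hgo
      omega
    refine Subgroup.card_eq_one.1 ?_
    rw [hae]
    interval_cases a <;> first | rfl | exact absurd h3 (by decide) | exact absurd h7' (by decide) | omega
  set U : Subgroup W := fix v with hU
  have hU8 : Nat.card U = 8 := h.card_fix h64 hvo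
  have hgU : g ∈ (stabSub U : Subgroup J) := mem_stabSub_fix_of_comm hgv.symm
  set H : Subgroup J := stabSub U with hH
  have hHodd := h.odd_index_pCore_stabSub h64 hU8
  haveI : (Cfsg.pCore 2 H).Normal := Cfsg.pCore_normal 2 H
  set Q := (Cfsg.pCore 2 H).map H.subtype with hQ
  have hQp : IsPGroup 2 Q := (CfsgLib.Cores.isPGroup_pCore 2 H).map _
  set U' : Subgroup W := U ⊓ fixSet (Q : Set J) with hU'
  have hU'g : ∀ x ∈ U', g • x ∈ U' := by
    rintro x ⟨hx1, hx2⟩
    refine ⟨(hgU x).2 hx1, fun y hy => ?_⟩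
    obtain ⟨y', hy', rfl⟩ := Subgroup.mem_map.1 hy
    have h1 : g⁻¹ * (y' : J) * g ∈ Q := by
      refine Subgroup.mem_map.2 ⟨(⟨g, hgU⟩ : H)⁻¹ * y' * ⟨g, hgU⟩, ?_, by simp⟩
      have := ‹(Cfsg.pCore 2 H).Normal›.conj_mem y' hy' (⟨g, hgU⟩ : H)⁻¹
      simpa using this
    have h2 := hx2 _ h1
    rw [mul_smul, mul_smul] at h2
    exact eq_inv_smul_iff.1 h2.symm |>.symm
  have hU'8 : U' = U := by
    refine Subgroup.eq_of_le_of_card_ge inf_le_left ?_
    rw [hU8]
    obtain ⟨z, hzU, hz1, hzf⟩ := exists_fixed_in (Q := Q) hQp (U := U)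
      (fun x hx => by obtain ⟨x', -, rfl⟩ := Subgroup.mem_map.1 hx; exact x'.2)
      (hU8 ▸ (by norm_num : 2 ∣ 8))
    have h1 := card_modEq_inf_fix (show Nat.Prime 7 by norm_num) hgo U' hU'g
    rw [hgfix, inf_bot_eq, Subgroup.card_bot] at h1
    obtain ⟨a, ha, hae⟩ := (Nat.dvd_prime_pow Nat.prime_two).1
      (show _ ∣ 2 ^ 3 from hU8 ▸ Subgroup.card_dvd_of_le (inf_le_left : U' ≤ U))
    have hgt : 1 < Nat.card U' := by
      refine Finite.one_lt_card_iff_nontrivial.2 ⟨⟨⟨z, hzU, hzf⟩, 1, fun e => hz1 ?_⟩⟩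
      exact congrArg Subtype.val e
    rw [hae] at h1 hgt ⊢
    interval_cases a <;> first | omega | exact absurd h1 (by decide) | exact le_rfl | norm_num
  -- every 2-element of the stabiliser fixes the fixed space pointwise
  have htwo : ∀ x ∈ H, (∃ j, orderOf x = 2 ^ j) → ∀ z ∈ U, x • z = z := by
    rintro x hx ⟨j, hj⟩ z hz
    rw [← hU'8] at hz
    refine hz.2 x (Subgroup.mem_map.2 ⟨⟨x, hx⟩, mem_of_coprime_index ?_, rfl⟩)
    rw [Subgroup.orderOf_mk, hj]
    exact (Nat.coprime_two_left.2 hHodd).pow_left j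
  -- a Sylow 2-subgroup containing the involution fixes it
  obtain ⟨T, hT⟩ := (IsPGroup.of_card (n := 1) (by rw [Nat.card_zpowers, hvo, pow_one]) :
    IsPGroup 2 (Subgroup.zpowers v)).exists_le_sylow
  have hvT := hT (Subgroup.mem_zpowers v)
  haveI : Nontrivial (T : Subgroup J) := ⟨⟨v, hvT⟩, 1, fun e => by
    have e' : v = 1 := congrArg Subtype.val e
    rw [e', orderOf_one] at hvo
    omega⟩
  haveI := T.isPGroup'.center_nontrivial
  obtain ⟨c, hc⟩ := exists_prime_orderOf_dvd_card' (G := Subgroup.center (T : Subgroup J)) 2 (by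
    obtain ⟨j, hj⟩ := IsPGroup.iff_card.1 (T.isPGroup'.to_subgroup (Subgroup.center _))
    rw [hj]
    refine dvd_pow_self 2 ?_
    rintro rfl
    rw [pow_zero] at hj
    exact (Finite.one_lt_card (α := Subgroup.center (T : Subgroup J))).ne' hj)
  have hc2 : orderOf (((c : (T : Subgroup J)) : J)) = 2 := by
    rw [Subgroup.orderOf_coe, Subgroup.orderOf_coe, hc]
  have hcomm : ∀ x (hx : x ∈ (T : Subgroup J)),
      x * ((c : (T : Subgroup J)) : J) = ((c : (T : Subgroup J)) : J) * x := fun x hx =>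
    congrArg Subtype.val (Subgroup.mem_center_iff.1 c.2 ⟨x, hx⟩)
  have hcU : (fix ((c : (T : Subgroup J)) : J) : Subgroup W) = U :=
    h.fix_eq_of_le hvo hc2 fun z hz => mem_fix.2
      (htwo _ (mem_stabSub_fix_of_comm (hcomm v hvT).symm) ⟨1, by rw [pow_one, hc2]⟩ z hz)
  have hle' : U ≤ fixSet ((T : Subgroup J) : Set J) := fun z hz x hx => by
    refine htwo x ?_ ?_ z hz
    · have := mem_stabSub_fix_of_comm (W := W) (hcomm x hx)
      rwa [hcU] at this
    · obtain ⟨j, hj⟩ := IsPGroup.iff_orderOf.1 T.isPGroup' ⟨x, hx⟩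
      exact ⟨j, by rwa [Subgroup.orderOf_mk] at hj⟩
  have hT8 : 8 ≤ Nat.card (fixSet ((T : Subgroup J) : Set J) : Subgroup W) :=
    hU8 ▸ Subgroup.card_le_of_le hle'
  have h1 := h.card_fixSet_sylow P
  have h2 := h.card_fixSet_sylow T
  rw [h1] at h2
  have h3 := Nat.eq_of_mul_eq_mul_left Nat.card_pos h2
  have h4 : Nat.card (fixSet ((P : Subgroup J) : Set J) : Subgroup W) ≤ 8 :=
    Nat.le_of_dvd (by norm_num) hdvd
  omega

/-- Solvability for the module of order 64. -/
theorem isSolvable_sixtyFour (heven : 2 ∣ Nat.card J) : Group.IsSolvable J := by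
  classical
  haveI : Fact (Nat.Prime 2) := ⟨Nat.prime_two⟩
  have hfixeq : ∀ {v : J}, orderOf v = 2 → ∀ (Q : Sylow 2 J), v ∈ (Q : Subgroup J) →
      (fix v : Subgroup W) = fixSet ((Q : Subgroup J) : Set J) := by
    intro v hv Q hvQ
    exact (Subgroup.eq_of_le_of_card_ge
      (fun w hw => mem_fix.2 (hw v hvQ) : (fixSet ((Q : Subgroup J) : Set J) : Subgroup W) ≤ fix v)
      (by rw [h.card_fix h64 hv, h.card_fixSet_eq h64 heven Q])).symm
  -- an involution lies in one Sylow 2-subgroup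
  have honly : ∀ {v : J}, orderOf v = 2 → ∀ (Q Q' : Sylow 2 J), v ∈ (Q : Subgroup J) →
      v ∈ (Q' : Subgroup J) → Q = Q' := by
    intro v hv Q Q' hQ hQ'
    obtain ⟨z, hz, hvz⟩ := h.exists_ne_one_fix hv
    have e1 : z ∈ (fixSet ((Q : Subgroup J) : Set J) : Subgroup W) :=
      hfixeq hv Q hQ ▸ mem_fix.2 hvz
    have e2 : z ∈ (fixSet ((Q' : Subgroup J) : Set J) : Subgroup W) :=
      hfixeq hv Q' hQ' ▸ mem_fix.2 hvz
    exact (h.syl_eq hz e1).symm.trans (h.syl_eq hz e2)
  obtain ⟨T⟩ : Nonempty (Sylow 2 J) := inferInstance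
  obtain ⟨u, huT, hu⟩ := Involutions.exists_involution_mem_sylow T (even_iff_two_dvd.2 heven)
  set U : Subgroup W := fixSet ((T : Subgroup J) : Set J) with hU
  have hU8 : Nat.card U = 8 := h.card_fixSet_eq h64 heven T
  let Out := {t : J // orderOf t = 2 ∧ t ∉ (T : Subgroup J)}
  let VP := {v : J // orderOf v = 2 ∧ v ∈ (T : Subgroup J)}
  let Sp := {Q : Sylow 2 J // Q ≠ T}
  have hconj : ∀ Q : Sylow 2 J, ∃ x : J, x • T = Q := fun Q => MulAction.exists_smul_eq J T Q
  choose conjTo hconjTo using hconj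
  have hmem : ∀ (Q : Sylow 2 J) (v : J), v ∈ (T : Subgroup J) →
      conjTo Q * v * (conjTo Q)⁻¹ ∈ (Q : Subgroup J) := by
    intro Q v hv
    suffices h' : conjTo Q * v * (conjTo Q)⁻¹ ∈ ((conjTo Q • T : Sylow 2 J) : Subgroup J) by
      rwa [hconjTo Q] at h'
    rw [Sylow.coe_subgroup_smul, Subgroup.mem_pointwise_smul_iff_inv_smul_mem, MulAut.smul_def]
    simpa [mul_assoc] using hv
  let F1 : VP × Sp → Out := fun p => ⟨conjTo p.2.1 * p.1.1 * (conjTo p.2.1)⁻¹,
    ((MulAut.conj _).orderOf_eq p.1.1).trans p.1.2.1, fun e => p.2.2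
      (honly (((MulAut.conj _).orderOf_eq p.1.1).trans p.1.2.1) _ _ (hmem _ _ p.1.2.2) e)⟩
  have hF1 : Function.Injective F1 := by
    rintro ⟨v, Q⟩ ⟨v', Q'⟩ e
    have e' := congrArg Subtype.val e
    have hQ : Q = Q' := Subtype.ext (honly (((MulAut.conj _).orderOf_eq v.1).trans v.2.1) _ _
      (hmem Q.1 v.1 v.2.2) (by
        show conjTo Q.1 * v.1 * (conjTo Q.1)⁻¹ ∈ (Q'.1 : Subgroup J)
        rw [show conjTo Q.1 * v.1 * (conjTo Q.1)⁻¹ = conjTo Q'.1 * v'.1 * (conjTo Q'.1)⁻¹ from e']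
        exact hmem _ _ v'.2.2))
    subst hQ
    exact Prod.ext (Subtype.ext (mul_left_cancel (mul_right_cancel e'))) rfl
  have hstab : ∀ x : J, x • T = T → x ∈ (stabSub U : Subgroup J) := by
    intro x hx
    have key : ∀ x : J, x • T = T → ∀ z ∈ U, x • z ∈ U := by
      intro x hx z hz y hy
      have h1 : x⁻¹ * y * x ∈ (T : Subgroup J) := by
        have hy' : y ∈ ((x • T : Sylow 2 J) : Subgroup J) := by rw [hx]; exact hy
        rw [Sylow.coe_subgroup_smul, Subgroup.mem_pointwise_smul_iff_inv_smul_mem, MulAut.smul_def] at hy'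
        simpa [mul_assoc] using hy'
      have h2 := hz _ h1
      rw [mul_smul, mul_smul] at h2
      exact (eq_inv_smul_iff.1 h2.symm).symm
    intro z
    refine ⟨fun hz => ?_, key x hx z⟩
    have := key x⁻¹ (inv_smul_eq_iff.2 hx.symm) _ hz
    rwa [inv_smul_smul] at this
  haveI : (Cfsg.pCore 2 (stabSub U : Subgroup J)).Normal := Cfsg.pCore_normal 2 _
  have hTU : ∀ x ∈ (T : Subgroup J), x ∈ (stabSub U : Subgroup J) := fun x hx => hstab x
    (Sylow.smul_eq_iff_mem_normalizer.2 (Subgroup.le_normalizer hx))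
  have htwo : ∀ y ∈ (stabSub U : Subgroup J), (∃ j, orderOf y = 2 ^ j) → y ∈ (T : Subgroup J) := by
    intro y hy hj
    obtain ⟨j, hj⟩ := hj
    have hodd := h.odd_index_pCore_stabSub h64 hU8
    have hR : IsPGroup 2 ((Cfsg.pCore 2 (stabSub U : Subgroup J)).map
        (stabSub U : Subgroup J).subtype) := (CfsgLib.Cores.isPGroup_pCore 2 _).map _
    have hmemR : ∀ x ∈ (stabSub U : Subgroup J), (∃ i, orderOf x = 2 ^ i) →
        x ∈ (Cfsg.pCore 2 (stabSub U : Subgroup J)).map (stabSub U : Subgroup J).subtype := by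
      rintro x hx ⟨i, hi⟩
      refine Subgroup.mem_map.2 ⟨⟨x, hx⟩, mem_of_coprime_index ?_, rfl⟩
      rw [Subgroup.orderOf_mk, hi]
      exact (Nat.coprime_two_left.2 hodd).pow_left i
    have hle : (T : Subgroup J) ≤ (Cfsg.pCore 2 (stabSub U : Subgroup J)).map
        (stabSub U : Subgroup J).subtype := fun x hx => hmemR x (hTU x hx) (by
      obtain ⟨i, hi⟩ := IsPGroup.iff_orderOf.1 T.isPGroup' ⟨x, hx⟩
      exact ⟨i, by rwa [Subgroup.orderOf_mk] at hi⟩)
    exact (T.is_maximal' hR hle) ▸ hmemR y hy ⟨j, hj⟩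
  let F2 : Out → Sp := fun t => ⟨t.1 • T, fun e =>
    t.2.2 (htwo _ (hstab _ e) ⟨1, by rw [pow_one]; exact t.2.1⟩)⟩
  have hF2 : Function.Injective F2 := by
    intro t t' e
    have ht1 : t.1 * t.1 = 1 := by
      have h0 := pow_orderOf_eq_one t.1
      rwa [t.2.1, pow_two] at h0
    have ht1' : t'.1 * t'.1 = 1 := by
      have h0 := pow_orderOf_eq_one t'.1
      rwa [t'.2.1, pow_two] at h0
    have e' : t.1 • T = t'.1 • T := congrArg Subtype.val e
    set y := t.1 * t'.1 with hy
    have hyT : y • T = T := by rw [hy, mul_smul, ← e', ← mul_smul, ht1, one_smul]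
    have hyU := hstab y hyT
    have hyinv : t.1 * y * t.1⁻¹ = y⁻¹ := by
      rw [hy, mul_inv_rev, inv_eq_of_mul_eq_one_right ht1', ← mul_assoc, ht1, one_mul]
    have hy1 : y = 1 := by
      by_contra hy1
      have hyord : ∀ q : ℕ, q.Prime → q ∣ orderOf y → q = 2 := by
        intro q hq hqy
        by_contra hq2
        obtain ⟨i, -, hi⟩ := exists_realPrime_pow hyinv hq hq2 hqy
        exact h.not_mem_stabSub h64 hi hU8 (pow_mem hyU i)
      have h2 : 2 ∣ orderOf y := by
        obtain ⟨q, hq, hqd⟩ := Nat.exists_prime_and_dvd (mt orderOf_eq_one_iff.1 hy1)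
        exact hyord q hq hqd ▸ hqd
      set c := y ^ (orderOf y / 2) with hc
      have hc2 : orderOf c = 2 := orderOf_pow_orderOf_div (orderOf_pos y).ne' h2
      have hcT := htwo c (pow_mem hyU _) ⟨1, by rw [pow_one, hc2]⟩
      have hct : t.1 * c * t.1⁻¹ = c := by
        rw [hc, inv_pow_of_inv hyinv, ← hc]
        exact inv_eq_of_mul_eq_one_right (by rw [← pow_two, ← hc2, pow_orderOf_eq_one])
      have hc' : c ∈ ((t.1 • T : Sylow 2 J) : Subgroup J) := by
        rw [Sylow.coe_subgroup_smul, Subgroup.mem_pointwise_smul_iff_inv_smul_mem, MulAut.smul_def]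
        have : t.1⁻¹ * c * t.1 = c := by
          calc t.1⁻¹ * c * t.1 = t.1⁻¹ * (t.1 * c * t.1⁻¹) * t.1 := by rw [hct]
            _ = c := by group
        simpa [mul_assoc, this] using hcT
      exact (F2 t).2 (honly hc2 _ _ hc' hcT)
    refine Subtype.ext ?_
    rw [hy, mul_eq_one_iff_eq_inv, inv_eq_of_mul_eq_one_right ht1'] at hy1
    exact hy1
  have hSp : Nonempty Sp := by
    have h1 := h.card_fixSet_sylow T
    rw [h64, ← hU, hU8] at h1
    by_contra hne
    have : Subsingleton (Sylow 2 J) := ⟨fun a b => by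
      have ha : a = T := by by_contra h'; exact hne ⟨⟨a, h'⟩⟩
      have hb : b = T := by by_contra h'; exact hne ⟨⟨b, h'⟩⟩
      rw [ha, hb]⟩
    rw [Nat.card_unique] at h1
    omega
  have huniq : ∀ v ∈ (T : Subgroup J), orderOf v = 2 → v = u := by
    have hle := Nat.card_le_card_of_injective (F2 ∘ F1) (hF2.comp hF1)
    rw [Nat.card_prod] at hle
    have hpos : 0 < Nat.card Sp := Nat.card_pos
    have h1 : Nat.card VP ≤ 1 := by nlinarith
    haveI : Subsingleton VP := Finite.card_le_one_iff_subsingleton.1 h1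
    exact fun v hv hv2 => congrArg Subtype.val (Subsingleton.elim (⟨v, hv2, hv⟩ : VP) ⟨u, hu, huT⟩)
  have hz := Involutions.zstar_isolated T hu
    fun g hg => huniq _ hg (((MulAut.conj g).orderOf_eq u).trans hu)
  -- the group is the product of the odd core and the centraliser of the involution
  set C := Subgroup.centralizer ({u} : Set J) with hC
  haveI : Group.IsSolvable C := by
    refine isSolvable_of_odd_index_pCore (odd_index_pCore fun a ha => ?_)
    exact h.not_mem_stabSub h64 ha.coe (h.card_fix h64 hu)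
      (mem_stabSub_fix_of_comm (Subgroup.mem_centralizer_singleton_iff.1 a.2))
  haveI : (Cfsg.oddCore J).Normal := by
    haveI := CfsgLib.Cores.pPrimeCore_characteristic 2 J
    rw [Cfsg.oddCore]; infer_instance
  have hodd := CfsgLib.Cores.odd_card_oddCore (G := J)
  haveI : Group.IsSolvable (Cfsg.oddCore J) := Cfsg.Agent.S0205.result hodd
  have huu : u * u = 1 := by rw [← pow_two, ← hu, pow_orderOf_eq_one]
  have hui : u⁻¹ = u := inv_eq_of_mul_eq_one_right huu
  haveI : Group.IsSolvable (J ⧸ Cfsg.oddCore J) := by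
    refine Group.isSolvable_of_surjective (f := (QuotientGroup.mk' (Cfsg.oddCore J)).comp C.subtype) ?_
    intro x
    induction x using QuotientGroup.induction_on with
    | H g =>
      set o := u * g * u⁻¹ * g⁻¹ with ho
      have hoO : o ∈ Cfsg.oddCore J := hz g
      have huo : u * o * u⁻¹ = g * u * g⁻¹ * u⁻¹ := by
        rw [ho]
        calc u * (u * g * u⁻¹ * g⁻¹) * u⁻¹ = u * u * g * u⁻¹ * g⁻¹ * u⁻¹ := by group
          _ = _ := by rw [huu, one_mul, hui]
      have hinv : u * o * u⁻¹ = o⁻¹ := by rw [huo, ho]; group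
      obtain ⟨i, hi⟩ : Odd (orderOf o) := hodd.of_dvd_nat (by
        have := orderOf_dvd_natCard (⟨o, hoO⟩ : Cfsg.oddCore J)
        rwa [Subgroup.orderOf_mk] at this)
      set p := o ^ (i + 1) with hp
      have hp2 : p * p = o := by
        rw [hp, ← pow_add, show i + 1 + (i + 1) = orderOf o + 1 by omega, pow_succ, pow_orderOf_eq_one,
          one_mul]
      have hup : u * p * u⁻¹ = p⁻¹ := inv_pow_of_inv hinv (i + 1)
      have hmem : p * g ∈ C := by
        rw [hC, Subgroup.mem_centralizer_singleton_iff]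
        have h1 : u * (p * g) * u⁻¹ = p * g := by
          calc u * (p * g) * u⁻¹ = (u * p * u⁻¹) * o * g := by rw [ho]; group
            _ = p * g := by rw [hup, ← hp2]; group
        calc p * g * u = u * (p * g) * u⁻¹ * u := by rw [h1]
          _ = u * (p * g) := by group
      refine ⟨⟨p * g, hmem⟩, ?_⟩
      show ((p * g : J) : J ⧸ Cfsg.oddCore J) = g
      rw [QuotientGroup.mk_mul, (QuotientGroup.eq_one_iff p).2 (pow_mem hoO _), one_mul]
  exact Group.isSolvable_of_ker_le_range (Cfsg.oddCore J).subtype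
    (QuotientGroup.mk' (Cfsg.oddCore J)) (by rw [QuotientGroup.ker_mk', Subgroup.range_subtype])

end Hyp

/-- The groups in question are solvable. -/
theorem Hyp.isSolvable [Finite J] [Finite W] (h : Hyp J W) : Group.IsSolvable J := by
  by_cases heven : 2 ∣ Nat.card J
  · by_cases h64 : Nat.card W = 64
    · exact h.isSolvable_sixtyFour h64 heven
    · obtain ⟨g, s, T⟩ := h.exists_torus heven h64
      exact T.isSolvable
  · exact Cfsg.Agent.S0205.result (Nat.not_even_iff_odd.1 fun he => heven (even_iff_two_dvd.1 he))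

end CfsgLib.RealClassGraph
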