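import Cfsg.Agent.Lib.RealClassGraph.Classes
import Cfsg.Agent.Lib.RealClassGraph.SixtyFour
import Cfsg.Agent.Lib.BGAppendix.QuadraticOdd

/-!
# Groups with disconnected real class size graph
-/

set_option autoImplicit false
set_option linter.style.haveILetI false
set_option linter.unusedSectionVars false
open Cfsg

namespace CfsgLib.RealClassGraph

universe u

/-- Two sets of primes split the real class sizes. -/
structure Split (G : Type u) [Group G] (π₁ π₂ : Set ℕ) : Prop where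
  disj : Disjoint π₁ π₂
  cover : ∀ n ∈ realSizes G, ∀ q : ℕ, q.Prime → q ∣ n → q ∈ π₁ ∨ q ∈ π₂
  sep : ∀ a ∈ π₁, ∀ b ∈ π₂, ∀ n ∈ realSizes G, ¬ (a ∣ n ∧ b ∣ n)
  ne₁ : ∃ q : ℕ, q.Prime ∧ q ∈ π₁ ∧ ∃ n ∈ realSizes G, q ∣ n
  ne₂ : ∃ q : ℕ, q.Prime ∧ q ∈ π₂ ∧ ∃ n ∈ realSizes G, q ∣ n

/-- The subgroup generated by the 2-elements. -/
def twoGen (G : Type u) [Group G] : Subgroup G :=
  Subgroup.closure {g : G | ∃ k : ℕ, orderOf g = 2 ^ k}

instance twoGen_normal (G : Type u) [Group G] : (twoGen G).Normal where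
  conj_mem m hm g := by
    have hle : (twoGen G).map (MulAut.conj g).toMonoidHom ≤ twoGen G := by
      rw [twoGen, MonoidHom.map_closure, Subgroup.closure_le]
      rintro - ⟨a, ⟨k, hk⟩, rfl⟩
      exact Subgroup.subset_closure ⟨k, ((MulAut.conj g).orderOf_eq a).trans hk⟩
    exact hle ⟨m, hm, rfl⟩

theorem mem_twoGen {G : Type u} [Group G] {g : G} {k : ℕ} (h : orderOf g = 2 ^ k) : g ∈ twoGen G :=
  Subgroup.subset_closure ⟨k, h⟩

theorem mem_twoGen_of_sq {G : Type u} [Group G] {g : G} (h : g * g = 1) : g ∈ twoGen G := by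
  obtain ⟨k, -, hk⟩ := (Nat.dvd_prime_pow Nat.prime_two).1
    (show orderOf g ∣ 2 ^ 1 by rw [pow_one]; exact orderOf_dvd_of_pow_eq_one (by rw [pow_two, h]))
  exact mem_twoGen hk

variable {G : Type u} [Group G] [Finite G] {π₁ π₂ : Set ℕ}

theorem Split.symm (h : Split G π₁ π₂) : Split G π₂ π₁ where
  disj := h.disj.symm
  cover n hn q hq hqn := (h.cover n hn q hq hqn).symm
  sep a ha b hb n hn hab := h.sep b hb a ha n hn hab.symm
  ne₁ := h.ne₂
  ne₂ := h.ne₁

theorem mem_realSizes {x : G} (hx : IsConj x x⁻¹) : sz x ∈ realSizes G := ⟨x, hx, rfl⟩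

theorem Split.side₁ (h : Split G π₁ π₂) {n : ℕ} (hn : n ∈ realSizes G) {q : ℕ} (hq : q ∈ π₁)
    (hqn : q ∣ n) : ∀ r : ℕ, r.Prime → r ∣ n → r ∈ π₁ :=
  fun r hr hrn => (h.cover n hn r hr hrn).resolve_right fun h' => h.sep q hq r h' n hn ⟨hqn, hrn⟩

theorem coprime_of_sides (h : Split G π₁ π₂) {m k : ℕ} (hm : ∀ r : ℕ, r.Prime → r ∣ m → r ∈ π₂)
    (hk : ∀ r : ℕ, r.Prime → r ∣ k → r ∈ π₁) : Nat.Coprime m k := by
  by_contra hc
  obtain ⟨r, hr, hrm, hrk⟩ := Nat.Prime.not_coprime_iff_dvd.1 hc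
  exact Set.disjoint_left.1 h.disj (hk r hr hrk) (hm r hr hrm)

/-- Two real classes on different sides: one translates the other. -/
theorem dichotomy (h : Split G π₁ π₂) {x y : G} (hx : IsConj x x⁻¹) (hy : IsConj y y⁻¹)
    (hxs : ∀ r : ℕ, r.Prime → r ∣ sz x → r ∈ π₂) (hys : ∀ r : ℕ, r.Prime → r ∣ sz y → r ∈ π₁) :
    dsub x ≤ leftStab (cls y) ∨ dsub y ≤ leftStab (cls x) := by
  have hc := coprime_of_sides h hxs hys
  have hn := mem_realSizes (isConj_inv_mul hx hy hc)
  have hd := sz_mul_dvd hc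
  rcases eq_or_ne (sz (x * y)) 1 with h1 | h1
  · exact Or.inl (dsub_le_leftStab hc (h1 ▸ one_dvd _))
  obtain ⟨q, hq, hqn⟩ := Nat.exists_prime_and_dvd h1
  rcases h.cover _ hn q hq hqn with hq1 | hq2
  · refine Or.inl (dsub_le_leftStab hc (Nat.Coprime.dvd_of_dvd_mul_left ?_ hd))
    exact (coprime_of_sides h hxs (h.side₁ hn hq1 hqn)).symm
  · refine Or.inr (dsub_le_leftStab hc.symm ?_)
    rw [show sz (y * x) = sz (x * y) from sz_eq_of_isConj (isConj_iff.2 ⟨y, by group⟩)]
    refine Nat.Coprime.dvd_of_dvd_mul_right ?_ hd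
    exact coprime_of_sides h (h.symm.side₁ hn hq2 hqn) hys

/-- A class of commuting involutions with quotients generating a group of odd order is trivial. -/
theorem sz_eq_one_of_comm_odd {x : G} (hx : x * x = 1)
    (hcomm : ∀ a b, IsConj x a → IsConj x b → a * b = b * a) (hodd : Odd (Nat.card (dsub x))) :
    sz x = 1 := by
  refine sz_eq_one_of_dsub ((Subgroup.eq_bot_iff_forall _).2 fun m hm => ?_)
  rw [← orderOf_eq_one_iff]
  refine Nat.eq_one_of_dvd_coprimes (Nat.coprime_two_left.2 hodd)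
    (orderOf_dvd_of_pow_eq_one (by rw [pow_two, (dsub_sq_eq_one hx hcomm).1 m hm])) ?_
  have := orderOf_dvd_natCard (⟨m, hm⟩ : dsub x)
  rwa [Subgroup.orderOf_mk] at this

/-- Real classes of odd size do not lie on both sides. -/
theorem no_two_odd (h : Split G π₁ π₂) {x y : G} (hx : IsConj x x⁻¹) (hy : IsConj y y⁻¹)
    (hxo : Odd (sz x)) (hyo : Odd (sz y)) (hx1 : sz x ≠ 1) (hy1 : sz y ≠ 1)
    (hxs : ∀ r : ℕ, r.Prime → r ∣ sz x → r ∈ π₂) (hys : ∀ r : ℕ, r.Prime → r ∣ sz y → r ∈ π₁) :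
    False := by
  have key : ∀ a b : G, IsConj a a⁻¹ → Odd (sz a) → Odd (sz b) → Nat.Coprime (sz a) (sz b) →
      dsub a ≤ leftStab (cls b) → sz a = 1 := by
    intro a b ha hao hbo hab hle
    have hd : Nat.card (dsub a) ∣ sz b := card_cls b ▸ card_dvd_of_le_leftStab hle
    have hcent := le_centralizer_of_coprime (dsub a) (Nat.Coprime.coprime_dvd_left hd hab.symm)
    exact sz_eq_one_of_comm_odd (sq_eq_one_of_odd ha hao) (fun _ _ => commute_cls hcent)
      (hbo.of_dvd_nat hd)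
  have hc := coprime_of_sides h hxs hys
  rcases dichotomy h hx hy hxs hys with h1 | h1
  · exact hx1 (key x y hx hxo hyo hc h1)
  · exact hy1 (key y x hy hyo hxo hc.symm h1)

/-- Some real class size is even. -/
theorem exists_even_size (h : Split G π₁ π₂) : ∃ n ∈ realSizes G, 2 ∣ n := by
  by_contra hno
  push Not at hno
  obtain ⟨q, hq, hq1, -, ⟨y, hy, rfl⟩, hqn⟩ := h.ne₁
  obtain ⟨r, hr, hr2, -, ⟨x, hx, rfl⟩, hrn⟩ := h.ne₂
  have hodd : ∀ z : G, IsConj z z⁻¹ → Odd (sz z) := fun z hz =>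
    Nat.not_even_iff_odd.1 fun he => hno _ (mem_realSizes hz) (even_iff_two_dvd.1 he)
  exact no_two_odd h hx hy (hodd x hx) (hodd y hy)
    (fun e => hr.one_lt.ne' (Nat.dvd_one.1 (e ▸ hrn))) (fun e => hq.one_lt.ne' (Nat.dvd_one.1 (e ▸ hqn)))
    (h.symm.side₁ (mem_realSizes hx) hr2 hrn) (h.side₁ (mem_realSizes hy) hq1 hqn)

section Two

variable (h : Split G π₁ π₂) (h2 : 2 ∈ π₁)
include h h2

theorem side_even {x : G} (hx : IsConj x x⁻¹) (he : 2 ∣ sz x) :
    ∀ r : ℕ, r.Prime → r ∣ sz x → r ∈ π₁ := h.side₁ (mem_realSizes hx) h2 he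

theorem exists_odd : ∃ x : G, IsConj x x⁻¹ ∧ Odd (sz x) ∧ sz x ≠ 1 := by
  obtain ⟨r, hr, hr2, -, ⟨x, hx, rfl⟩, hrn⟩ := h.ne₂
  refine ⟨x, hx, Nat.not_even_iff_odd.1 fun he => ?_, fun e => hr.one_lt.ne' (Nat.dvd_one.1 (e ▸ hrn))⟩
  exact h.sep 2 h2 r hr2 _ (mem_realSizes hx) ⟨even_iff_two_dvd.1 he, hrn⟩

theorem side_odd {x : G} (hx : IsConj x x⁻¹) (ho : Odd (sz x)) :
    ∀ r : ℕ, r.Prime → r ∣ sz x → r ∈ π₂ := by
  intro r hr hrx
  refine (h.cover _ (mem_realSizes hx) r hr hrx).resolve_left fun hr1 => ?_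
  obtain ⟨q, hq, hq2, -, ⟨y, hy, rfl⟩, hqn⟩ := h.ne₂
  have hyo : Odd (sz y) := Nat.not_even_iff_odd.1 fun he =>
    h.sep 2 h2 q hq2 _ (mem_realSizes hy) ⟨even_iff_two_dvd.1 he, hqn⟩
  exact no_two_odd h hy hx hyo ho (fun e => hq.one_lt.ne' (Nat.dvd_one.1 (e ▸ hqn)))
    (fun e => hr.one_lt.ne' (Nat.dvd_one.1 (e ▸ hrx)))
    (h.symm.side₁ (mem_realSizes hy) hq2 hqn) (h.side₁ (mem_realSizes hx) hr1 hrx)

/-- For an odd class of commuting involutions the quotients translate every even real class. -/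
theorem dsub_le_of_comm {x y : G} (hx : IsConj x x⁻¹) (hxo : Odd (sz x))
    (hcomm : ∀ a b, IsConj x a → IsConj x b → a * b = b * a) (hy : IsConj y y⁻¹) (hye : 2 ∣ sz y) :
    dsub x ≤ leftStab (cls y) := by
  rcases dichotomy h hx hy (side_odd h h2 hx hxo) (side_even h h2 hy hye) with h1 | h1
  · exact h1
  exfalso
  have hd : Nat.card (dsub y) ∣ sz x := card_cls x ▸ card_dvd_of_le_leftStab h1
  have hxx := sq_eq_one_of_odd hx hxo
  have hsq : ∀ c, IsConj x c → c * c = 1 := fun c hc => by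
    obtain ⟨g, rfl⟩ := isConj_iff.1 hc
    calc g * x * g⁻¹ * (g * x * g⁻¹) = g * (x * x) * g⁻¹ := by group
      _ = 1 := by rw [hxx]; group
  have hbot : dsub y = ⊥ := (Subgroup.eq_bot_iff_forall _).2 fun n hn => by
    have h3 : IsConj x (n * x) := ((h1 hn) x).2 (mem_cls_self x)
    have h4 : n * n = 1 := by
      have hc := hcomm _ _ h3 (IsConj.refl x)
      calc n * n = n * (x * x) * (n * (x * x)) := by rw [hxx]; group
        _ = (n * x) * (x * (n * x)) * x := by group
        _ = (n * x) * (n * x * x) * x := by rw [← hc]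
        _ = (n * x * (n * x)) * (x * x) := by group
        _ = 1 := by rw [hsq _ h3, hxx, one_mul]
    rw [← orderOf_eq_one_iff]
    refine Nat.eq_one_of_dvd_coprimes (Nat.coprime_two_left.2 (hxo.of_dvd_nat hd))
      (orderOf_dvd_of_pow_eq_one (by rw [pow_two, h4])) ?_
    have := orderOf_dvd_natCard (⟨n, hn⟩ : dsub y)
    rwa [Subgroup.orderOf_mk] at this
  rw [sz_eq_one_of_dsub hbot] at hye
  omega

end Two

/-- Real elements of prime order have classes of even size. -/
theorem RealPrime.real {u : G} (hu : RealPrime u) : IsConj u u⁻¹ ∧ 2 ∣ sz u := by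
  obtain ⟨q, hq, hq2, hqo, t, ht⟩ := id hu
  have hr : IsConj u u⁻¹ := isConj_iff.2 ⟨t, ht⟩
  exact ⟨hr, even_sz hr fun e => hu.ne_inv (inv_eq_of_mul_eq_one_right e).symm⟩

theorem real_mem_twoGen {u : G} (hu : RealPrime u) : u ∈ twoGen G := by
  obtain ⟨q, hq, hq2, hqo, t, ht⟩ := hu
  obtain ⟨l, -, ⟨k, hk⟩, hl⟩ := exists_two_inverter ht
  have h1 : u⁻¹ * u⁻¹ ∈ twoGen G := by
    rw [show u⁻¹ * u⁻¹ = t ^ l * (u * (t ^ l)⁻¹ * u⁻¹) by
      nth_rw 1 [← hl]; group]
    exact mul_mem (mem_twoGen hk) ((twoGen_normal G).conj_mem _ (inv_mem (mem_twoGen hk)) u)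
  obtain ⟨i, hi⟩ := hq.odd_of_ne_two hq2
  have h2 : u = ((u⁻¹ * u⁻¹) ^ (i + 1))⁻¹ := by
    rw [← pow_two, ← pow_mul, show 2 * (i + 1) = q + 1 by omega, inv_pow, inv_inv, pow_succ, ← hqo,
      pow_orderOf_eq_one, one_mul]
  rw [h2]
  exact inv_mem (pow_mem h1 _)

/-- The class sizes in a normal subgroup. -/
theorem sz_sub_dvd (K : Subgroup G) [K.Normal] (x : K) : sz x ∣ sz (x : G) := by
  have he : Subgroup.centralizer ({x} : Set K) =
      (Subgroup.centralizer ({(x : G)} : Set G)).subgroupOf K := by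
    ext z
    rw [Subgroup.mem_subgroupOf, Subgroup.mem_centralizer_singleton_iff,
      Subgroup.mem_centralizer_singleton_iff]
    exact Subtype.ext_iff
  rw [sz, he]
  exact relIndex_dvd_index _ K

/-- A real element in `K = ⟨2-elements⟩` is real in it. -/
theorem real_in_twoGen {x : twoGen G} (hx : IsConj (x : G) (x : G)⁻¹) : IsConj x x⁻¹ := by
  obtain ⟨t, ht⟩ := isConj_iff.1 hx
  obtain ⟨l, -, ⟨k, hk⟩, hl⟩ := exists_two_inverter ht
  exact isConj_iff.2 ⟨⟨t ^ l, mem_twoGen hk⟩, Subtype.ext hl⟩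

/-- Without real elements of order `p` a solvable group generated by 2-elements has order prime
to `p`. -/
theorem not_dvd_card_twoGen (hs : Group.IsSolvable G) {p : ℕ} (hp : p.Prime) (hp2 : p ≠ 2)
    (hreal : ∀ a : G, RealPrime a → orderOf a ≠ p) : ¬ p ∣ Nat.card (twoGen G) := by
  suffices ∀ (n : ℕ) (G : Type u) [Group G] [Finite G], Nat.card G = n → Group.IsSolvable G →
      (∀ a : G, RealPrime a → orderOf a ≠ p) → ¬ p ∣ Nat.card (twoGen G) from this _ G rfl hs hreal
  intro n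
  induction n using Nat.strong_induction_on with
  | h n IH =>
  intro G _ _ hn hs hreal
  subst hn
  haveI := hs
  haveI := Fact.mk hp
  haveI : Fact (Nat.Prime 2) := ⟨Nat.prime_two⟩
  by_cases hK : twoGen G = ⊤
  swap
  · have hlt : Nat.card (twoGen G) < Nat.card G :=
      lt_of_le_of_ne (Subgroup.card_le_card_group _) fun e => hK (Subgroup.eq_top_of_card_eq _ e)
    have h1 := IH _ hlt (twoGen G) rfl inferInstance fun a ha e => hreal _ ha.coe (by
      rw [Subgroup.orderOf_coe, e])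
    have htop : twoGen (twoGen G) = ⊤ := by
      refine Subgroup.map_injective (twoGen G).subtype_injective ?_
      rw [← MonoidHom.range_eq_map, Subgroup.range_subtype]
      refine le_antisymm (Subgroup.map_subtype_le _) ?_
      rw [twoGen, Subgroup.closure_le]
      rintro g ⟨k, hk⟩
      exact ⟨⟨g, mem_twoGen hk⟩, mem_twoGen (k := k) ((Subgroup.orderOf_mk g _).trans hk), rfl⟩
    rwa [htop, Subgroup.card_top] at h1
  rw [hK, Subgroup.card_top]
  intro hdvd
  haveI : Nontrivial G := Finite.one_lt_card_iff_nontrivial.1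
    (lt_of_lt_of_le hp.one_lt (Nat.le_of_dvd Nat.card_pos hdvd))
  obtain ⟨V, hVn, hV1, hVc⟩ := BGAppendix.exists_abelian_normal (T := G)
  haveI := hVn
  have hlt : Nat.card (G ⧸ V) < Nat.card G := by
    rw [← Subgroup.index_eq_card, ← Subgroup.card_mul_index V]
    exact lt_mul_left (Nat.pos_of_ne_zero Subgroup.index_ne_zero_of_finite)
      (Subgroup.one_lt_card_iff_ne_bot _ |>.2 hV1)
  have hq : ∀ a : G ⧸ V, RealPrime a → orderOf a ≠ p := by
    intro a ha e
    obtain ⟨u, t, q, i, hq, hq2, hu, hi, hi1, ht⟩ := ha.lift (QuotientGroup.mk'_surjective V)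
    have hqp : q = p := by
      have h1 : orderOf a ∣ q ^ i := hu ▸ hi ▸ orderOf_map_dvd (QuotientGroup.mk' V) u
      exact ((Nat.prime_dvd_prime_iff_eq hp hq).1 (hp.dvd_of_dvd_pow (e ▸ h1))).symm
    obtain ⟨j, hj1, hj⟩ := exists_realPrime_pow ht hq hq2 (hi ▸ dvd_pow_self q (by omega))
    exact hreal _ hj (hj1.trans hqp)
  have htopQ : twoGen (G ⧸ V) = ⊤ := by
    rw [eq_top_iff, ← Subgroup.map_top_of_surjective _ (QuotientGroup.mk'_surjective V), ← hK,
      twoGen, MonoidHom.map_closure, Subgroup.closure_le]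
    rintro - ⟨g, ⟨k, hk⟩, rfl⟩
    obtain ⟨j, -, hj⟩ := (Nat.dvd_prime_pow Nat.prime_two).1 (hk ▸ orderOf_map_dvd (QuotientGroup.mk' V) g)
    exact mem_twoGen hj
  have hVp : ¬ p ∣ V.index := by
    have h1 := IH _ hlt (G ⧸ V) rfl inferInstance hq
    rwa [htopQ, Subgroup.card_top, ← Subgroup.index_eq_card] at h1
  -- the Sylow subgroup inside `V`
  obtain ⟨P⟩ : Nonempty (Sylow p G) := inferInstance
  have hPV : (P : Subgroup G) ≤ V := fun x hx => by
    obtain ⟨k, hk⟩ := IsPGroup.iff_orderOf.1 P.isPGroup' ⟨x, hx⟩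
    rw [Subgroup.orderOf_mk] at hk
    exact mem_of_coprime_index (by rw [hk]; exact ((hp.coprime_iff_not_dvd).2 hVp).pow_left k)
  haveI : (P : Subgroup G).Normal := by
    refine ⟨fun x hx g => ?_⟩
    have hk : ∃ k, orderOf (g * x * g⁻¹) = p ^ k := by
      obtain ⟨k, hk⟩ := IsPGroup.iff_orderOf.1 P.isPGroup' ⟨x, hx⟩
      exact ⟨k, ((MulAut.conj g).orderOf_eq x).trans (by rwa [Subgroup.orderOf_mk] at hk)⟩
    obtain ⟨k, hk⟩ := hk
    have hy : g * x * g⁻¹ ∈ V := hVn.conj_mem x (hPV hx) g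
    have hnorm : ∀ v ∈ V, v ∈ Subgroup.normalizer ((P : Subgroup G) : Set G) := by
      intro v hv
      rw [Subgroup.mem_normalizer_iff]
      intro z
      constructor
      · intro hz
        rwa [hVc v hv z (hPV hz), mul_inv_cancel_right]
      · intro hz
        have e : z = v * z * v⁻¹ := by
          calc z = v⁻¹ * (v * z * v⁻¹ * v) := by group
            _ = v⁻¹ * (v * (v * z * v⁻¹)) := by rw [hVc v hv _ (hPV hz)]
            _ = v * z * v⁻¹ := by group
        rwa [e]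
    have hsup : IsPGroup p (Subgroup.zpowers (g * x * g⁻¹) ⊔ (P : Subgroup G) : Subgroup G) :=
      (IsPGroup.of_card (n := k) (by rw [Nat.card_zpowers, hk])).to_sup_of_normal_right'
        P.isPGroup' (Subgroup.zpowers_le.2 (hnorm _ hy))
    exact (P.is_maximal' hsup le_sup_right) ▸ Subgroup.mem_sup_left (Subgroup.mem_zpowers _)
  -- 2-elements centralise it
  have hcent : ∀ v ∈ (P : Subgroup G), ∀ g : G, g * v = v * g := by
    intro v hv g
    have hle : twoGen G ≤ Subgroup.centralizer ((P : Subgroup G) : Set G) := by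
      rw [twoGen, Subgroup.closure_le]
      rintro t ⟨k, hk⟩
      induction k generalizing t with
      | zero => rw [pow_zero, orderOf_eq_one_iff] at hk; rw [hk]; exact one_mem _
      | succ k ih =>
        have hsq : t ^ 2 ∈ Subgroup.centralizer ((P : Subgroup G) : Set G) := ih (t := t ^ 2) (by
          rw [orderOf_pow_of_dvd two_ne_zero (hk ▸ dvd_pow_self 2 (Nat.succ_ne_zero k)), hk, pow_succ,
            Nat.mul_div_cancel _ two_pos])
        rw [SetLike.mem_coe, Subgroup.mem_centralizer_iff]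
        intro w hw
        by_contra hne
        set a := w⁻¹ * (t * w * t⁻¹) with ha
        have haP : a ∈ (P : Subgroup G) := mul_mem (inv_mem hw) (‹(P : Subgroup G).Normal›.conj_mem w hw t)
        have ha1 : a ≠ 1 := fun e => hne (by
          rw [ha, inv_mul_eq_one] at e
          calc w * t = t * w * t⁻¹ * t := by rw [← e]
            _ = t * w := by group)
        have htinv : t * a * t⁻¹ = a⁻¹ := by
          have h1 := Subgroup.mem_centralizer_iff.1 hsq w hw
          have hwP := hPV hw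
          have htwP : t * w * t⁻¹ ∈ V := hVn.conj_mem w hwP t
          calc t * a * t⁻¹ = (t * w * t⁻¹)⁻¹ * (t ^ 2 * w * (t ^ 2)⁻¹) := by rw [ha, pow_two]; group
            _ = (t * w * t⁻¹)⁻¹ * w := by rw [← h1, mul_inv_cancel_right]
            _ = a⁻¹ := by rw [ha]; group
        obtain ⟨j, hj⟩ := IsPGroup.iff_orderOf.1 P.isPGroup' ⟨a, haP⟩
        rw [Subgroup.orderOf_mk] at hj
        rcases j with _ | j
        · exact ha1 (orderOf_eq_one_iff.1 (by rw [hj, pow_zero]))
        obtain ⟨i, hi1, hi2⟩ := exists_realPrime_pow htinv hp hp2 (hj ▸ dvd_pow_self p (Nat.succ_ne_zero j))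
        exact hreal _ hi2 hi1
    exact (Subgroup.mem_centralizer_iff.1 ((hK ▸ hle) (Subgroup.mem_top g)) v hv).symm
  obtain ⟨H, hH⟩ := Subgroup.exists_right_complement'_of_coprime
    (N := (P : Subgroup G)) (Sylow.card_coprime_index P)
  have hHn : H.Normal := by
    refine ⟨fun x hx g => ?_⟩
    obtain ⟨⟨v, y⟩, hvy⟩ := (hH.2 g)
    simp only at hvy
    rw [← hvy]
    have h1 : (y : G) * x * (y : G)⁻¹ ∈ H := mul_mem (mul_mem y.2 hx) (inv_mem y.2)
    have h2 : (v : G) * y * x * ((v : G) * y)⁻¹ = (y : G) * x * (y : G)⁻¹ := by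
      calc (v : G) * y * x * ((v : G) * y)⁻¹ = (v : G) * ((y : G) * x * (y : G)⁻¹) * (v : G)⁻¹ := by group
        _ = _ := by rw [← hcent v v.2, mul_inv_cancel_right]
    rwa [h2]
  have hHi : H.index = Nat.card (P : Subgroup G) := hH.index_eq_card
  have htopH : H = ⊤ := by
    rw [eq_top_iff, ← hK, twoGen, Subgroup.closure_le]
    rintro t ⟨k, hk⟩
    haveI := hHn
    refine mem_of_coprime_index ?_
    rw [hk, hHi]
    obtain ⟨j, hj⟩ := IsPGroup.iff_card.1 P.isPGroup'
    rw [hj]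
    exact Nat.Coprime.pow k j ((Nat.coprime_primes Nat.prime_two hp).2 hp2.symm)
  rw [htopH, Subgroup.index_top] at hHi
  have hPp := P.dvd_card_of_dvd_card hdvd
  rw [← hHi] at hPp
  exact hp.one_lt.ne' (Nat.dvd_one.1 hPp)

section Conclusion

variable (h : Split G π₁ π₂) (h2 : 2 ∈ π₁)
include h h2

/-- Case I: an odd class of non-commuting involutions. -/
theorem case_noncomm {x : G} (hx : IsConj x x⁻¹) (hxo : Odd (sz x)) (hx1 : sz x ≠ 1)
    (hnc : ¬ ∀ a b, IsConj x a → IsConj x b → a * b = b * a) {u : G} (hu : RealPrime u) :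
    u * x ≠ x * u ∧
      Group.IsSolvable G ∧
      ∀ y : twoGen G, IsConj (y : G) (y : G)⁻¹ → 2 ∣ sz (y : G) → ∃ j, sz y = 2 ^ j := by
  have hxx := sq_eq_one_of_odd hx hxo
  set N := leftStab (cls x) with hN
  haveI : N.Normal := leftStab_cls_normal x
  have hNd : Nat.card N ∣ sz x := card_cls x ▸ card_dvd_of_le_leftStab le_rfl
  have hNodd : Odd (Nat.card N) := hxo.of_dvd_nat hNd
  have hinvx : ∀ n ∈ N, x * n * x = n⁻¹ := by
    intro n hn
    have h1 : IsConj x (n * x) := (hn x).2 (mem_cls_self x)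
    obtain ⟨g, hg⟩ := isConj_iff.1 h1
    have h3 : n * x * (n * x) = 1 := by
      rw [← hg]
      calc g * x * g⁻¹ * (g * x * g⁻¹) = g * (x * x) * g⁻¹ := by group
        _ = 1 := by rw [hxx]; group
    calc x * n * x = n⁻¹ * (n * x * (n * x)) := by group
      _ = n⁻¹ := by rw [h3, mul_one]
  have hNc : ∀ n ∈ N, ∀ m ∈ N, n * m = m * n := by
    intro n hn m hm
    have h1 := hinvx _ (mul_mem hn hm)
    have h3 : x * (n * m) * x = x * n * x * (x * m * x) := by
      calc x * (n * m) * x = x * n * (1 : G) * m * x := by group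
        _ = x * n * (x * x) * m * x := by rw [hxx]
        _ = _ := by group
    rw [h3, hinvx n hn, hinvx m hm] at h1
    calc n * m = (m⁻¹ * n⁻¹)⁻¹ := by group
      _ = ((n * m)⁻¹)⁻¹ := by rw [← mul_inv_rev]
      _ = m * n := by rw [← h1]; group
  have hxs := side_odd h h2 hx hxo
  have hB : ∀ {y : G}, IsConj y y⁻¹ → 2 ∣ sz y → dsub y ≤ N := by
    intro y hy hye
    have hys := side_even h h2 hy hye
    rcases dichotomy h hx hy hxs hys with h1 | h1
    · refine absurd ?_ hnc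
      have hcent := le_centralizer_of_coprime (dsub x) (x := x) (Nat.Coprime.coprime_dvd_left
        (card_cls y ▸ card_dvd_of_le_leftStab h1) (coprime_of_sides h hxs hys).symm)
      exact fun _ _ => commute_cls hcent
    · exact h1
  have hsq : ∀ {y : G}, IsConj y y⁻¹ → 2 ∣ sz y → y * y ∈ N := by
    intro y hy hye
    have h1 := inv_mem (hB hy hye (mem_dsub (IsConj.refl y) hy))
    simpa using h1
  have hodd_mem : ∀ {y : G}, y * y ∈ N → Odd (orderOf y) → y ∈ N := by
    intro y hy ⟨i, hi⟩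
    have h1 : (y * y) ^ (i + 1) = y := by
      rw [← pow_two, ← pow_mul, show 2 * (i + 1) = orderOf y + 1 by omega, pow_succ,
        pow_orderOf_eq_one, one_mul]
    exact h1 ▸ pow_mem hy _
  have hrealN : ∀ a : G, RealPrime a → a ∈ N := by
    intro a ha
    obtain ⟨q, hq, hq2, hqo, -⟩ := id ha
    exact hodd_mem (hsq ha.real.1 ha.real.2) (hqo ▸ hq.odd_of_ne_two hq2)
  -- the quotient has a normal Sylow 2-subgroup
  have hQ : ∀ a : G ⧸ N, ¬ RealPrime a := by
    intro a ha
    obtain ⟨w, t, q, i, hq, hq2, hw, hi, hi1, ht⟩ := ha.lift (QuotientGroup.mk'_surjective N)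
    have hwo : Odd (orderOf w) := by rw [hi]; exact (hq.odd_of_ne_two hq2).pow
    have hw2 : w * w ≠ 1 := fun e => by
      have := orderOf_dvd_of_pow_eq_one (x := w) (n := 2) (by rw [pow_two, e])
      rw [hi] at this
      have h3 := (Nat.prime_dvd_prime_iff_eq hq Nat.prime_two).1 ((dvd_pow_self q (by omega)).trans this)
      exact hq2 h3
    have hwr : IsConj w w⁻¹ := isConj_iff.2 ⟨t, ht⟩
    have hwN : w ∈ N := hodd_mem (hsq hwr (even_sz hwr hw2)) hwo
    exact ha.ne_one (hw ▸ (QuotientGroup.eq_one_iff w).2 hwN)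
  haveI : (Cfsg.pCore 2 (G ⧸ N)).Normal := Cfsg.pCore_normal 2 _
  have hQodd := odd_index_pCore hQ
  have hKle : twoGen G ≤ (Cfsg.pCore 2 (G ⧸ N)).comap (QuotientGroup.mk' N) := by
    rw [twoGen, Subgroup.closure_le]
    rintro g ⟨k, hk⟩
    rw [SetLike.mem_coe, Subgroup.mem_comap]
    refine mem_of_coprime_index (Nat.Coprime.coprime_dvd_left (orderOf_map_dvd _ g) ?_)
    rw [hk]
    exact (Nat.coprime_two_left.2 hQodd).pow_left k
  refine ⟨fun e => ?_, ?_, fun y hy hye => ?_⟩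
  · have h1 := hinvx u (hrealN u hu)
    rw [← e, mul_assoc, hxx, mul_one] at h1
    exact hu.ne_inv h1
  · haveI : Group.IsSolvable (G ⧸ N) := isSolvable_of_odd_index_pCore hQodd
    haveI : Group.IsSolvable N := Group.isSolvable_of_comm fun a b => Subtype.ext (hNc _ a.2 _ b.2)
    exact Group.isSolvable_of_ker_le_range N.subtype (QuotientGroup.mk' N)
      (by rw [QuotientGroup.ker_mk', Subgroup.range_subtype])
  -- split `y` into a central involution and an element of `N`
  have hyy := hsq hy hye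
  obtain ⟨i, hi⟩ : Odd (orderOf ((y : G) * y)) := hNodd.of_dvd_nat (by
    have := orderOf_dvd_natCard (⟨_, hyy⟩ : N)
    rwa [Subgroup.orderOf_mk] at this)
  set v := (y : G) ^ orderOf ((y : G) * y) with hv
  have hvv : v * v = 1 := by
    rw [hv, ← pow_add, ← two_mul, pow_mul, pow_two, pow_orderOf_eq_one]
  set w := (((y : G) * y) ^ i)⁻¹ with hw
  have hwN : w ∈ N := inv_mem (pow_mem hyy i)
  have hyvw : (y : G) = v * w := by
    rw [hv, hw, hi, ← pow_two, ← pow_mul, pow_succ', mul_inv_cancel_right]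
  have hvc : ∀ g : G, g * v = v * g := by
    have hvr : IsConj v v⁻¹ := by
      obtain ⟨t, ht⟩ := isConj_iff.1 hy
      exact isConj_iff.2 ⟨t, inv_pow_of_inv ht _⟩
    have hdv : sz v ∣ sz (y : G) := by
      refine Subgroup.index_dvd_of_le fun g hg => ?_
      rw [Subgroup.mem_centralizer_singleton_iff] at hg ⊢
      exact ((show Commute g (y : G) from hg).pow_right _).eq
    refine eq_of_sz_eq_one ?_
    by_contra hv1
    by_cases hve : 2 ∣ sz v
    · have hd := hB hvr hve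
      have hcent := le_centralizer_of_coprime (dsub v) (x := v) (Nat.Coprime.coprime_dvd_left
        ((Subgroup.card_dvd_of_le hd).trans hNd)
        (coprime_of_sides h hxs (side_even h h2 hvr hve)))
      exact hv1 (sz_eq_one_of_comm_odd hvv (fun _ _ => commute_cls hcent)
        (hNodd.of_dvd_nat (Subgroup.card_dvd_of_le hd)))
    · have hvo : Odd (sz v) := Nat.not_even_iff_odd.1 fun he => hve (even_iff_two_dvd.1 he)
      obtain ⟨r, hr, hrv⟩ := Nat.exists_prime_and_dvd hv1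
      exact Set.disjoint_left.1 h.disj (side_even h h2 hy hye r hr (hrv.trans hdv))
        (side_odd h h2 hvr hvo r hr hrv)
  have hle : N.subgroupOf (twoGen G) ≤ Subgroup.centralizer ({y} : Set (twoGen G)) := by
    intro n hn
    rw [Subgroup.mem_subgroupOf] at hn
    rw [Subgroup.mem_centralizer_singleton_iff]
    refine Subtype.ext ?_
    show (n : G) * (y : G) = (y : G) * n
    rw [hyvw, ← mul_assoc, hvc, mul_assoc, hNc _ hn _ hwN, ← mul_assoc]
  let F := (QuotientGroup.mk' N).comp (twoGen G).subtype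
  have hker : F.ker = N.subgroupOf (twoGen G) := by
    ext n
    rw [MonoidHom.mem_ker, Subgroup.mem_subgroupOf]
    exact QuotientGroup.eq_one_iff _
  have hrange : F.range ≤ Cfsg.pCore 2 (G ⧸ N) := by
    rintro - ⟨n, rfl⟩
    exact hKle n.2
  obtain ⟨j, hj⟩ := IsPGroup.iff_card.1 ((CfsgLib.Cores.isPGroup_pCore 2 (G ⧸ N)).to_le hrange)
  have h3 : sz y ∣ 2 ^ j := by
    rw [← hj, ← Subgroup.index_ker, hker]
    exact Subgroup.index_dvd_of_le hle
  obtain ⟨i', -, hi'⟩ := (Nat.dvd_prime_pow Nat.prime_two).1 h3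
  exact ⟨i', hi'⟩

/-- Case II: every odd real class consists of commuting involutions. -/
theorem case_comm (hall : ∀ x : G, IsConj x x⁻¹ → Odd (sz x) →
      ∀ a b, IsConj x a → IsConj x b → a * b = b * a)
    {x : G} (hx : IsConj x x⁻¹) (hxo : Odd (sz x)) (hx1 : sz x ≠ 1) {u : G} (hu : RealPrime u) :
    u * x ≠ x * u ∧
      Group.IsSolvable G ∧
      ∀ y : twoGen G, IsConj (y : G) (y : G)⁻¹ → 2 ∣ sz (y : G) → ∃ j, sz y = 2 ^ j := by
  classical
  have hxx := sq_eq_one_of_odd hx hxo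
  have hsq2 := (dsub_sq_eq_one hxx (hall x hx hxo)).1
  have hA : ∀ {y : G}, IsConj y y⁻¹ → 2 ∣ sz y → dsub x ≤ leftStab (cls y) :=
    fun hy hye => dsub_le_of_comm h h2 hx hxo (hall x hx hxo) hy hye
  have hfpf : ∀ a : G, RealPrime a → ∀ z ∈ dsub x, z * a = a * z → z = 1 := by
    intro a ha z hz hza
    obtain ⟨q, hq, hq2, hqo, -⟩ := id ha
    have h1 : IsConj a (z * a) := ((hA ha.real.1 ha.real.2 hz) a).2 (mem_cls_self a)
    obtain ⟨g, hg⟩ := isConj_iff.1 h1
    have h3 : (z * a) ^ q = 1 := by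
      rw [← hg, ← MulAut.conj_apply, ← map_pow, ← hqo, pow_orderOf_eq_one, map_one]
    rw [(show Commute z a from hza).mul_pow, ← hqo, pow_orderOf_eq_one, mul_one, hqo] at h3
    rw [← orderOf_eq_one_iff]
    exact Nat.eq_one_of_dvd_coprimes (Nat.coprime_two_left.2 (hq.odd_of_ne_two hq2))
      (orderOf_dvd_of_pow_eq_one (by rw [pow_two, hsq2 z hz])) (orderOf_dvd_of_pow_eq_one h3)
  have hnocomm : u * x ≠ x * u := by
    intro e
    refine hx1 (sz_eq_one_of_dsub ((Subgroup.eq_bot_iff_forall _).2 fun z hz => hfpf u hu z hz ?_))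
    have hc : Nat.Coprime (sz x) (sz u) := coprime_of_sides h (side_odd h h2 hx hxo)
      (side_even h h2 hu.real.1 hu.real.2)
    have key : ∀ a, IsConj x a → a * u = u * a := by
      intro a ha
      obtain ⟨g, hg1, hg2⟩ := exists_conj_pair hc ha (IsConj.refl u)
      calc a * u = g * x * g⁻¹ * (g * u * g⁻¹) := by rw [hg1, hg2]
        _ = g * (x * u) * g⁻¹ := by group
        _ = g * (u * x) * g⁻¹ := by rw [e]
        _ = g * u * g⁻¹ * (g * x * g⁻¹) := by group
        _ = u * a := by rw [hg1, hg2]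
    have hle : dsub x ≤ Subgroup.centralizer ({u} : Set G) := by
      rw [dsub, Subgroup.closure_le]
      rintro - ⟨a, ha, b, hb, rfl⟩
      exact mul_mem (inv_mem (Subgroup.mem_centralizer_singleton_iff.2 (key a ha)))
        (Subgroup.mem_centralizer_singleton_iff.2 (key b hb))
    exact Subgroup.mem_centralizer_singleton_iff.1 (hle hz)
  refine ⟨hnocomm, ?_⟩
  -- a minimal normal subgroup among the translations
  have hex : ∃ n, ∃ W : Subgroup G, W.Normal ∧ W ≠ ⊥ ∧ W ≤ dsub x ∧ Nat.card W = n :=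
    ⟨_, dsub x, inferInstance, fun e => hx1 (sz_eq_one_of_dsub e), le_rfl, rfl⟩
  obtain ⟨W, hWn, hW1, hWle, hWc⟩ := Nat.find_spec hex
  haveI := hWn
  have hmin : ∀ B : Subgroup G, B.Normal → B ≤ W → B = ⊥ ∨ B = W := by
    intro B hB hBW
    rcases eq_or_ne B ⊥ with e | e
    · exact Or.inl e
    refine Or.inr (Subgroup.eq_of_le_of_card_ge hBW ?_)
    rw [hWc]
    exact Nat.find_le ⟨B, hB, e, hBW.trans hWle, rfl⟩
  have hWsq : ∀ w ∈ W, w * w = 1 := fun w hw => hsq2 w (hWle hw)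
  letI : CommGroup W :=
    { (inferInstance : Group W) with
      mul_comm := fun a b => Subtype.ext (by
        have h1 := hWsq _ (mul_mem a.2 b.2)
        have ha := inv_eq_of_mul_eq_one_right (hWsq _ a.2)
        have hb := inv_eq_of_mul_eq_one_right (hWsq _ b.2)
        calc (a : G) * b = ((a : G) * b)⁻¹ := (inv_eq_of_mul_eq_one_right h1).symm
          _ = (b : G) * a := by rw [mul_inv_rev, ha, hb]) }
  have hWsize : ∀ z ∈ W, z ≠ 1 → Odd (sz z) ∧ ∀ r : ℕ, r.Prime → r ∣ sz z → r ∈ π₂ := by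
    intro z hz hz1
    have hzz := hWsq z hz
    have hzr : IsConj z z⁻¹ := by rw [inv_eq_of_mul_eq_one_right hzz]
    have hzo : Odd (sz z) := by
      refine Nat.not_even_iff_odd.1 fun he => ?_
      have h1 := ((hA hzr (even_iff_two_dvd.1 he) (hWle hz)) z).2 (mem_cls_self z)
      rw [hzz] at h1
      obtain ⟨g, hg⟩ := isConj_iff.1 (h1 : IsConj z 1)
      exact hz1 (by simpa using hg)
    exact ⟨hzo, side_odd h h2 hzr hzo⟩
  let φ : G →* MulAut W := MulAut.conjNormal
  let f : G →* φ.range := φ.rangeRestrict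
  have hf : Function.Surjective f := φ.rangeRestrict_surjective
  have hsmul : ∀ (g : G) (w : W), ((f g • w : W) : G) = g * (w : G) * g⁻¹ := fun g w =>
    MulAut.conjNormal_apply g w
  have hcomm_of_fix : ∀ (g : G) (w : W), f g • w = w → g * (w : G) = w * g := by
    intro g w e
    have h1 := congrArg Subtype.val e
    rw [hsmul] at h1
    calc g * (w : G) = g * w * g⁻¹ * g := by group
      _ = (w : G) * g := by rw [h1]
  have hlift : ∀ a : φ.range, RealPrime a →
      ∃ w : G, IsConj w w⁻¹ ∧ 2 ∣ sz w ∧ f w = a ∧ ∃ j, RealPrime (w ^ j) := by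
    intro a ha
    obtain ⟨w, t, q, i, hq, hq2, hw, hi, hi1, ht⟩ := ha.lift hf
    obtain ⟨j, -, hj⟩ := exists_realPrime_pow ht hq hq2 (hi ▸ dvd_pow_self q (by omega))
    refine ⟨w, isConj_iff.2 ⟨t, ht⟩, even_sz (isConj_iff.2 ⟨t, ht⟩) fun e => ?_, hw, j, hj⟩
    have h4 := orderOf_dvd_of_pow_eq_one (x := w) (n := 2) (by rw [pow_two, e])
    rw [hi] at h4
    exact hq2 ((Nat.prime_dvd_prime_iff_eq hq Nat.prime_two).1 ((dvd_pow_self q (by omega)).trans h4))
  have hidx : ∀ z : W, (MulAction.stabilizer φ.range z).index = sz (z : G) := by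
    intro z
    rw [← Subgroup.index_comap_of_surjective _ hf, sz]
    congr 1
    ext g
    rw [Subgroup.mem_comap, Subgroup.mem_centralizer_singleton_iff]
    refine ⟨fun e => hcomm_of_fix g z e, fun e => Subtype.ext ?_⟩
    rw [hsmul, e, mul_inv_cancel_right]
  have hyp : Hyp φ.range W :=
    { faith := fun g hg => Subtype.ext (MulEquiv.ext hg)
      two := fun w => Subtype.ext (hWsq w w.2)
      nontriv := by
        obtain ⟨w, hw, hw1⟩ := (Subgroup.ne_bot_iff_exists_ne_one.1 hW1 |>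
          fun ⟨a, ha⟩ => (⟨(a : G), a.2, fun e => ha (Subtype.ext e)⟩ : ∃ w : G, w ∈ W ∧ w ≠ 1))
        exact ⟨⟨w, hw⟩, fun e => hw1 (congrArg Subtype.val e)⟩
      odd := fun z hz => by
        rw [hidx]
        exact (hWsize z z.2 fun e => hz (Subtype.ext e)).1
      fpf := fun a ha z hz => by
        obtain ⟨w, -, -, hw, j, hj⟩ := hlift a ha
        refine Subtype.ext (hfpf _ hj z (hWle z.2) ?_)
        exact ((show Commute w (z : G) from hcomm_of_fix w z (by rw [hw]; exact hz)).pow_left j).eq.symm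
      cop := fun a ha z hz => by
        obtain ⟨w, hwr, hwe, hw, -⟩ := hlift a ha
        rw [hidx]
        have hd : (Subgroup.centralizer ({a} : Set φ.range)).index ∣ sz w := by
          refine (Subgroup.index_dvd_of_le ?_).trans (Subgroup.index_map_dvd _ hf)
          rintro - ⟨g, hg, rfl⟩
          rw [SetLike.mem_coe, Subgroup.mem_centralizer_singleton_iff] at hg
          rw [Subgroup.mem_centralizer_singleton_iff, ← hw, ← map_mul, ← map_mul, hg]
        exact Nat.Coprime.coprime_dvd_left hd (coprime_of_sides h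
          (hWsize z z.2 fun e => hz (Subtype.ext e)).2 (side_even h h2 hwr hwe)).symm
      irred := fun U hU => by
        have hUn : (U.map W.subtype).Normal := ⟨fun m hm g => by
          obtain ⟨m', hm', rfl⟩ := Subgroup.mem_map.1 hm
          exact Subgroup.mem_map.2 ⟨f g • m', hU _ _ hm', hsmul g m'⟩⟩
        rcases hmin _ hUn (Subgroup.map_subtype_le U) with e | e
        · exact Or.inl ((Subgroup.map_eq_bot_iff_of_injective _ W.subtype_injective).1 e)
        · refine Or.inr (Subgroup.map_injective W.subtype_injective ?_)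
          rw [e, ← MonoidHom.range_eq_map, Subgroup.range_subtype] }
  haveI : Group.IsSolvable φ.range := hyp.isSolvable
  have hker : ∀ (a : G), a ∈ φ.ker → ∀ w ∈ W, w * a = a * w := by
    intro a ha w hw
    refine (hcomm_of_fix a ⟨w, hw⟩ ?_).symm
    have h1 : f a = 1 := Subtype.ext ha
    rw [h1, one_smul]
  haveI : Group.IsSolvable φ.ker := by
    refine isSolvable_of_odd_index_pCore (odd_index_pCore fun a ha => ?_)
    refine hW1 ((Subgroup.eq_bot_iff_forall _).2 fun w hw => ?_)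
    exact hfpf _ ha.coe w (hWle hw) (hker _ a.2 w hw)
  have hsolv : Group.IsSolvable G :=
    Group.isSolvable_of_ker_le_range φ.ker.subtype φ.rangeRestrict
      (by rw [MonoidHom.ker_rangeRestrict, Subgroup.range_subtype])
  obtain ⟨z, hzW, hz1⟩ : ∃ z ∈ W, z ≠ 1 := by
    by_contra hcon
    push Not at hcon
    exact hW1 ((Subgroup.eq_bot_iff_forall _).2 hcon)
  have hzs := hWsize z hzW hz1
  refine ⟨hsolv, ?_⟩
  intro y hy hye
  rcases eq_or_ne (sz y) 0 with h0 | h0
  · exact absurd h0 (sz_pos y).ne'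
  refine ⟨_, Nat.eq_prime_pow_of_unique_prime_dvd h0 fun {d} hd hdy => ?_⟩
  by_contra hd2
  have hd1 : d ∈ π₁ := side_even h h2 hy hye d hd (hdy.trans (sz_sub_dvd _ y))
  refine not_dvd_card_twoGen hsolv hd hd2 (fun a ha e => ?_) (hdy.trans ?_)
  · haveI := Fact.mk hd
    have hzd : ¬ d ∣ sz z := fun h' => Set.disjoint_left.1 h.disj hd1 (hzs.2 d hd h')
    set C := Subgroup.centralizer ({z} : Set G) with hC
    obtain ⟨Q⟩ : Nonempty (Sylow d C) := inferInstance
    have hQi : ¬ d ∣ ((Q : Subgroup C).map C.subtype).index := by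
      rw [Subgroup.index_map_subtype]
      exact fun h' => (hd.dvd_mul.1 h').elim Q.not_dvd_index hzd
    obtain ⟨R, hR⟩ := ((IsPGroup.of_card (n := 1) (by rw [Nat.card_zpowers, e, pow_one]) :
      IsPGroup d (Subgroup.zpowers a))).exists_le_sylow
    obtain ⟨c, hc⟩ := MulAction.exists_smul_eq G R ((Q.isPGroup'.map _).toSylow hQi)
    have h1 : c * a * c⁻¹ ∈ (Q : Subgroup C).map C.subtype := by
      rw [← IsPGroup.toSylow_coe (Q.isPGroup'.map _) hQi, ← hc, Sylow.coe_subgroup_smul,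
        Subgroup.mem_pointwise_smul_iff_inv_smul_mem, MulAut.smul_def]
      simpa [mul_assoc] using hR (Subgroup.mem_zpowers a)
    obtain ⟨m, -, hm⟩ := Subgroup.mem_map.1 h1
    refine hz1 (hfpf _ (ha.conj c) z (hWle hzW) ?_)
    rw [← hm]
    exact (Subgroup.mem_centralizer_singleton_iff.1 m.2).symm
  · exact Subgroup.index_dvd_card _

/-- The conclusion for the subgroup generated by the 2-elements. -/
theorem twoGen_split (hS : ¬ ∀ P : Sylow 2 G, (P : Subgroup G).Normal) :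
    (∀ n ∈ realSizes (twoGen G), Odd n ∨ ∃ j : ℕ, n = 2 ^ j) ∧
      (∃ n ∈ realSizes (twoGen G), 2 ∣ n) ∧ ∃ n ∈ realSizes (twoGen G), Odd n ∧ n ≠ 1 := by
  haveI : Fact (Nat.Prime 2) := ⟨Nat.prime_two⟩
  obtain ⟨u, hu⟩ : ∃ u : G, RealPrime u := by
    by_contra hno
    push Not at hno
    refine hS fun P => ?_
    have hodd := odd_index_pCore hno
    haveI : (Cfsg.pCore 2 G).Normal := Cfsg.pCore_normal 2 G
    have hle : (P : Subgroup G) ≤ Cfsg.pCore 2 G := fun g hg => by
      obtain ⟨k, hk⟩ := IsPGroup.iff_orderOf.1 P.isPGroup' ⟨g, hg⟩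
      rw [Subgroup.orderOf_mk] at hk
      exact mem_of_coprime_index (by rw [hk]; exact (Nat.coprime_two_left.2 hodd).pow_left k)
    rw [← P.is_maximal' (CfsgLib.Cores.isPGroup_pCore 2 G) hle]
    infer_instance
  obtain ⟨x, hnx, hx, hxo, hall⟩ : ∃ x : G, u * x ≠ x * u ∧ IsConj x x⁻¹ ∧ Odd (sz x) ∧
      ∀ y : twoGen G, IsConj (y : G) (y : G)⁻¹ → 2 ∣ sz (y : G) → ∃ j, sz y = 2 ^ j := by
    by_cases hcomm : ∀ x : G, IsConj x x⁻¹ → Odd (sz x) →
        ∀ a b, IsConj x a → IsConj x b → a * b = b * a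
    · obtain ⟨x, hx, hxo, hx1⟩ := exists_odd h h2
      obtain ⟨h3, -, h4⟩ := case_comm h h2 hcomm hx hxo hx1 hu
      exact ⟨x, h3, hx, hxo, h4⟩
    · push Not at hcomm
      obtain ⟨x, hx, hxo, a, b, ha, hb, hab⟩ := hcomm
      have hx1 : sz x ≠ 1 := fun e => by
        have hc := eq_of_sz_eq_one e
        obtain ⟨g, rfl⟩ := isConj_iff.1 ha
        obtain ⟨g', rfl⟩ := isConj_iff.1 hb
        rw [show g * x * g⁻¹ = x by rw [hc g]; group, show g' * x * g'⁻¹ = x by rw [hc g']; group] at hab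
        exact hab rfl
      obtain ⟨h3, -, h4⟩ := case_noncomm h h2 hx hxo hx1 (fun h' => hab (h' a b ha hb)) hu
      exact ⟨x, h3, hx, hxo, h4⟩
  refine ⟨?_, ?_, ?_⟩
  · rintro n ⟨y, hy, rfl⟩
    have hyG : IsConj (y : G) (y : G)⁻¹ := by
      obtain ⟨t, ht⟩ := isConj_iff.1 hy
      exact isConj_iff.2 ⟨t, congrArg Subtype.val ht⟩
    by_cases he : 2 ∣ sz (y : G)
    · exact Or.inr (hall y hyG he)
    · exact Or.inl ((Nat.not_even_iff_odd.1 fun h' => he (even_iff_two_dvd.1 h')).of_dvd_nat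
        (sz_sub_dvd _ y))
  · set u' : twoGen G := ⟨u, real_mem_twoGen hu⟩
    have hu' : IsConj u' u'⁻¹ := real_in_twoGen (x := u') hu.real.1
    refine ⟨sz u', mem_realSizes hu', even_sz hu' fun e => ?_⟩
    have h5 : u * u = 1 := congrArg Subtype.val e
    exact hu.ne_inv (inv_eq_of_mul_eq_one_right h5).symm
  · set x' : twoGen G := ⟨x, mem_twoGen_of_sq (sq_eq_one_of_odd hx hxo)⟩
    refine ⟨sz x', mem_realSizes (real_in_twoGen (x := x') hx), hxo.of_dvd_nat (sz_sub_dvd _ x'),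
      fun e => hnx ?_⟩
    exact congrArg Subtype.val (eq_of_sz_eq_one e ⟨u, real_mem_twoGen hu⟩)

/-- A group whose real class sizes split is solvable. -/
theorem isSolvable_of_split : Group.IsSolvable G := by
  by_cases hno : ∃ u : G, RealPrime u
  · obtain ⟨u, hu⟩ := hno
    by_cases hcomm : ∀ x : G, IsConj x x⁻¹ → Odd (sz x) →
        ∀ a b, IsConj x a → IsConj x b → a * b = b * a
    · obtain ⟨x, hx, hxo, hx1⟩ := exists_odd h h2
      exact (case_comm h h2 hcomm hx hxo hx1 hu).2.1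
    · push Not at hcomm
      obtain ⟨x, hx, hxo, a, b, ha, hb, hab⟩ := hcomm
      have hx1 : sz x ≠ 1 := fun e => by
        have hc := eq_of_sz_eq_one e
        obtain ⟨g, rfl⟩ := isConj_iff.1 ha
        obtain ⟨g', rfl⟩ := isConj_iff.1 hb
        rw [show g * x * g⁻¹ = x by rw [hc g]; group, show g' * x * g'⁻¹ = x by rw [hc g']; group] at hab
        exact hab rfl
      exact (case_noncomm h h2 hx hxo hx1 (fun h' => hab (h' a b ha hb)) hu).2.1
  · push Not at hno
    exact isSolvable_of_odd_index_pCore (odd_index_pCore hno)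

end Conclusion

end CfsgLib.RealClassGraph
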