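import Cfsg.Agent.Lib.RealClassGraph.Fixed

/-!
# A cyclic semiregular transitive centraliser is normal

If a real element `g` of prime order has a cyclic semiregular centraliser, then it generates a
normal subgroup: by induction over the subgroups containing the centraliser every involution has
a translate of the fixed space of one involution, and each such space belongs to one involution.
-/

set_option autoImplicit false
set_option linter.style.haveILetI false
set_option linter.unusedSectionVars false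
open Cfsg

namespace CfsgLib.RealClassGraph

universe u v

/-- The elements mapping a subgroup of the module onto itself. -/
def stabSub {J : Type u} [Group J] {W : Type v} [CommGroup W] [MulDistribMulAction J W]
    (U : Subgroup W) : Subgroup J where
  carrier := {x | ∀ z, x • z ∈ U ↔ z ∈ U}
  one_mem' z := by rw [one_smul]
  mul_mem' {a b} ha hb z := by rw [mul_smul, ha, hb]
  inv_mem' {a} ha z := by rw [← ha, smul_inv_smul]

variable {J : Type u} [Group J] {W : Type v} [CommGroup W] [MulDistribMulAction J W]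

theorem mem_stabSub {x : J} {U : Subgroup W} :
    x ∈ (stabSub U : Subgroup J) ↔ ∀ z, x • z ∈ U ↔ z ∈ U := Iff.rfl

theorem mem_stabSub_fix_of_comm {x c : J} (hxc : x * c = c * x) :
    x ∈ (stabSub (fix c : Subgroup W) : Subgroup J) := by
  intro z
  rw [mem_fix, mem_fix, ← mul_smul, ← hxc, mul_smul, smul_left_cancel_iff]

theorem mem_zpowers_of_prime {G : Type*} [Group G] {g y : G} {q : ℕ} (hq : q.Prime)
    (hg : orderOf g = q) (hy : y ∈ Subgroup.zpowers g) (hy1 : y ≠ 1) : g ∈ Subgroup.zpowers y := by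
  haveI : Finite (Subgroup.zpowers g) :=
    Nat.finite_of_card_ne_zero (by rw [Nat.card_zpowers, hg]; exact hq.ne_zero)
  have hle : Subgroup.zpowers y ≤ Subgroup.zpowers g := Subgroup.zpowers_le.2 hy
  have h1 : Nat.card (Subgroup.zpowers y) ∣ q :=
    hg ▸ Nat.card_zpowers g ▸ Subgroup.card_dvd_of_le hle
  rcases (Nat.dvd_prime hq).1 h1 with h | h
  · exact absurd (Subgroup.zpowers_eq_bot.1 (Subgroup.card_eq_one.1 h)) hy1
  · rw [Subgroup.eq_of_le_of_card_ge hle (by rw [h, Nat.card_zpowers, hg])]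
    exact Subgroup.mem_zpowers g

/-- A cyclic semiregular centraliser of a real element `g`, and an involution inverting `g`. -/
structure IsTorus (h : Hyp J W) (g s : J) : Prop where
  real : RealPrime g
  cyc : IsCyclic (Subgroup.centralizer ({g} : Set J))
  semireg : ∀ a ∈ Subgroup.centralizer ({g} : Set J), ∀ z : W, z ≠ 1 → a • z = z → a = 1
  hs : orderOf s = 2
  sg : s * g * s⁻¹ = g⁻¹

namespace IsTorus

variable [Finite J] [Finite W] {h : Hyp J W} {g s : J} (T : IsTorus h g s)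
include T

theorem g_mem : g ∈ Subgroup.centralizer ({g} : Set J) := Subgroup.mem_centralizer_singleton_iff.2 rfl

theorem comm {a b : J} (ha : a ∈ Subgroup.centralizer ({g} : Set J))
    (hb : b ∈ Subgroup.centralizer ({g} : Set J)) : a * b = b * a := by
  haveI := T.cyc
  letI := IsCyclic.commGroup (α := Subgroup.centralizer ({g} : Set J))
  exact congrArg Subtype.val (mul_comm (⟨a, ha⟩ : Subgroup.centralizer ({g} : Set J)) ⟨b, hb⟩)

theorem s_inv : s⁻¹ = s := inv_eq_of_mul_eq_one_right (by rw [← pow_two, ← T.hs, pow_orderOf_eq_one])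

/-- The centraliser has odd order. -/
theorem not_two {a : J} (ha : a ∈ Subgroup.centralizer ({g} : Set J)) : orderOf a ≠ 2 := by
  intro h2
  obtain ⟨z, hz, hfz⟩ := h.exists_ne_one_fix h2
  rw [T.semireg a ha z hz hfz, orderOf_one] at h2
  omega

/-- The elements of the centraliser of `g` of the same order are its powers. -/
theorem mem_zpowers_of_pow {x : J} (hx : x ∈ Subgroup.centralizer ({g} : Set J))
    (h1 : x ^ orderOf g = 1) : x ∈ Subgroup.zpowers g := by
  haveI := T.cyc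
  let g' : Subgroup.centralizer ({g} : Set J) := ⟨g, T.g_mem⟩
  let x' : Subgroup.centralizer ({g} : Set J) := ⟨x, hx⟩
  have hg' : orderOf g' = orderOf g := Subgroup.orderOf_mk g T.g_mem
  have hx' : orderOf x' = orderOf x := Subgroup.orderOf_mk x hx
  obtain ⟨q, hq, -, hqo, -⟩ := T.real
  rw [hqo] at h1
  rcases (Nat.dvd_prime hq).1 (orderOf_dvd_of_pow_eq_one h1) with h2 | h2
  · rw [orderOf_eq_one_iff.1 h2]; exact one_mem _
  · obtain ⟨c, hc⟩ := IsCyclic.exists_generator (α := Subgroup.centralizer ({g} : Set J))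
    have key : ∀ y : Subgroup.centralizer ({g} : Set J), orderOf y = q →
        y ∈ Subgroup.zpowers (c ^ (orderOf c / q)) := by
      intro y hy
      obtain ⟨i, rfl⟩ := (isOfFinOrder_of_finite c).mem_powers_iff_mem_zpowers.2 (hc y)
      have h3 : orderOf c ∣ i * q := orderOf_dvd_of_pow_eq_one
        (by rw [pow_mul, ← hy, pow_orderOf_eq_one])
      have hqc : q ∣ orderOf c := hy ▸ orderOf_pow_dvd i
      obtain ⟨m, hm⟩ := hqc
      rw [hm, mul_comm q m] at h3
      obtain ⟨j, rfl⟩ := Nat.dvd_of_mul_dvd_mul_right hq.pos h3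
      refine ⟨(j : ℤ), ?_⟩
      simp only [zpow_natCast]
      rw [← pow_mul, hm, Nat.mul_div_cancel_left m hq.pos, mul_comm]
    have k1 := key x' (hx'.trans h2)
    have k2 := key g' (hg'.trans hqo)
    obtain ⟨i, hi⟩ := k1
    obtain ⟨j, hj⟩ := k2
    have hg1 : (g' : J) ≠ 1 := T.real.ne_one
    set e : J := ((c ^ (orderOf c / q) : Subgroup.centralizer ({g} : Set J)) : J) with he
    have hei : e ^ i = x := by rw [he, ← Subgroup.coe_zpow]; exact congrArg Subtype.val hi
    have hej : e ^ j = g := by rw [he, ← Subgroup.coe_zpow]; exact congrArg Subtype.val hj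
    have hqc : q ∣ orderOf c := by
      obtain ⟨n, hn⟩ := (isOfFinOrder_of_finite c).mem_powers_iff_mem_zpowers.2 (hc g')
      exact (hg'.trans hqo) ▸ hn ▸ orderOf_pow_dvd n
    have heq : orderOf e = q := by
      rw [he, Subgroup.orderOf_coe, orderOf_pow_orderOf_div (orderOf_pos c).ne' hqc]
    have hmem : e ∈ Subgroup.zpowers g :=
      mem_zpowers_of_prime hq heq ⟨j, hej⟩ T.real.ne_one
    exact hei ▸ zpow_mem hmem i

/-- An element normalising the subgroup of `g` normalises its centraliser. -/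
theorem conj_mem {x : J} (hx : x * g * x⁻¹ ∈ Subgroup.zpowers g) {a : J}
    (ha : a ∈ Subgroup.centralizer ({g} : Set J)) :
    x * a * x⁻¹ ∈ Subgroup.centralizer ({g} : Set J) := by
  obtain ⟨q, hq, -, hqo, -⟩ := T.real
  have hne : x * g * x⁻¹ ≠ 1 := fun e => T.real.ne_one (by simpa using e)
  have hle : Subgroup.zpowers (x * g * x⁻¹) ≤ Subgroup.centralizer ({x * a * x⁻¹} : Set J) := by
    rw [Subgroup.zpowers_le, Subgroup.mem_centralizer_singleton_iff]
    have h1 := Subgroup.mem_centralizer_singleton_iff.1 ha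
    calc x * g * x⁻¹ * (x * a * x⁻¹) = x * (g * a) * x⁻¹ := by group
      _ = x * (a * g) * x⁻¹ := by rw [h1]
      _ = x * a * x⁻¹ * (x * g * x⁻¹) := by group
  have h2 := hle (mem_zpowers_of_prime hq hqo hx hne)
  rw [Subgroup.mem_centralizer_singleton_iff] at h2 ⊢
  exact h2.symm

/-- An involution normalising the subgroup of `g` inverts it. -/
theorem inverts {v : J} (hv : orderOf v = 2) (hvg : v * g * v⁻¹ ∈ Subgroup.zpowers g) :
    v * g * v⁻¹ = g⁻¹ := by
  obtain ⟨q, hq, -, hqo, -⟩ := T.real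
  have hvv : v⁻¹ = v := inv_eq_of_mul_eq_one_right (by rw [← pow_two, ← hv, pow_orderOf_eq_one])
  set w := g⁻¹ * (v * g * v⁻¹) with hw
  have hwz : w ∈ Subgroup.zpowers g := mul_mem (inv_mem (Subgroup.mem_zpowers g)) hvg
  obtain ⟨j, hj⟩ := hvg
  have hc : Commute g (v * g * v⁻¹) := by rw [← hj]; exact (Commute.refl g).zpow_right j
  have hwinv : v * w * v⁻¹ = w⁻¹ := by
    calc v * w * v⁻¹ = (v * g * v⁻¹)⁻¹ * (v * v * g * (v * v)⁻¹) := by rw [hw]; group
      _ = (v * g * v⁻¹)⁻¹ * g := by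
        rw [show v * v = 1 by rw [← pow_two, ← hv, pow_orderOf_eq_one]]; simp
      _ = w⁻¹ := by rw [hw]; group
  by_cases hw1 : w = 1
  · have h1 : v ∈ Subgroup.centralizer ({g} : Set J) := by
      rw [Subgroup.mem_centralizer_singleton_iff]
      rw [hw, inv_mul_eq_one] at hw1
      calc v * g = v * g * v⁻¹ * v := by group
        _ = g * v := by rw [← hw1]
    exact absurd hv (T.not_two h1)
  · obtain ⟨i, hi⟩ := mem_zpowers_of_prime hq hqo hwz hw1
    simp only at hi
    rw [← hi, ← MulAut.conj_apply, map_zpow, MulAut.conj_apply, hwinv, inv_zpow]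

/-- All such involutions act alike on the centraliser. -/
theorem conj_eq {v : J} (hv : orderOf v = 2) (hvg : v * g * v⁻¹ ∈ Subgroup.zpowers g) {a : J}
    (ha : a ∈ Subgroup.centralizer ({g} : Set J)) : v * a * v⁻¹ = s * a * s⁻¹ := by
  have h1 := T.inverts hv hvg
  have hsa : s * a * s⁻¹ ∈ Subgroup.centralizer ({g} : Set J) :=
    T.conj_mem (by rw [T.sg]; exact inv_mem (Subgroup.mem_zpowers g)) ha
  have hc : v * s⁻¹ ∈ Subgroup.centralizer ({g} : Set J) := by
    rw [Subgroup.mem_centralizer_singleton_iff]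
    have hs' : s⁻¹ * g = g⁻¹ * s⁻¹ := by
      have h2 := T.sg
      rw [T.s_inv] at h2 ⊢
      calc s * g = s * g * s * s⁻¹ := by group
        _ = g⁻¹ * s := by rw [h2, T.s_inv]
    calc v * s⁻¹ * g = v * (s⁻¹ * g) := by group
      _ = v * g⁻¹ * v⁻¹ * (v * s⁻¹) := by rw [hs']; group
      _ = (v * g * v⁻¹)⁻¹ * (v * s⁻¹) := by group
      _ = g * (v * s⁻¹) := by rw [h1, inv_inv]
  calc v * a * v⁻¹ = v * s⁻¹ * (s * a * s⁻¹) * (v * s⁻¹)⁻¹ := by group
    _ = s * a * s⁻¹ := by rw [T.comm hc hsa, mul_inv_cancel_right]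

theorem exists_smul {z : W} (hz : z ≠ 1) (x : J) :
    ∃ a ∈ Subgroup.centralizer ({g} : Set J), a • z = x • z := h.exists_comm_smul T.real hz x

theorem eq_of_smul {a b : J} (ha : a ∈ Subgroup.centralizer ({g} : Set J))
    (hb : b ∈ Subgroup.centralizer ({g} : Set J)) {z : W} (hz : z ≠ 1) (e : a • z = b • z) : a = b :=
  (inv_mul_eq_one.1 (T.semireg _ (mul_mem (inv_mem hb) ha) z hz
    (by rw [mul_smul, e, inv_smul_smul]))).symm

theorem smul_ne_one {a : J} {z : W} (hz : z ≠ 1) : a • z ≠ 1 := fun e =>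
  hz (smul_left_cancel a (e.trans (smul_one a).symm))

theorem card_eq {z : W} (hz : z ≠ 1) :
    Nat.card (Subgroup.centralizer ({g} : Set J)) = (MulAction.stabilizer J z).index := by
  rw [Subgroup.index_eq_card, ← Nat.card_congr (MulAction.orbitEquivQuotientStabilizer J z)]
  refine Nat.card_congr (Equiv.ofBijective
    (fun a => ⟨(a : J) • z, MulAction.mem_orbit z (a : J)⟩) ⟨fun a b e => ?_, ?_⟩)
  · exact Subtype.ext (T.eq_of_smul a.2 b.2 hz (congrArg Subtype.val e))
  · rintro ⟨-, x, rfl⟩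
    obtain ⟨a, ha, hax⟩ := T.exists_smul hz x
    exact ⟨⟨a, ha⟩, Subtype.ext hax⟩

theorem coprime {z : W} (hz : z ≠ 1) :
    Nat.Coprime (Nat.card (Subgroup.centralizer ({g} : Set J)))
      (Nat.card (MulAction.stabilizer J z)) ∧
      (Subgroup.centralizer ({g} : Set J)).index = Nat.card (MulAction.stabilizer J z) := by
  set A := Subgroup.centralizer ({g} : Set J) with hA
  set S := MulAction.stabilizer J z with hS
  have h1 : A.index = Nat.card S := by
    refine Nat.eq_of_mul_eq_mul_left (Nat.card_pos (α := A)) ?_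
    rw [Subgroup.card_mul_index, T.card_eq hz, mul_comm, Subgroup.card_mul_index]
  refine ⟨?_, h1⟩
  have := h.cop g T.real z hz
  rw [← hA, h1, ← T.card_eq hz] at this
  exact this.symm

/-- Some translate of a vector is fixed by `s`. -/
theorem exists_smul_fix {z : W} (hz : z ≠ 1) :
    ∃ a ∈ Subgroup.centralizer ({g} : Set J), a • z ∈ (fix s : Subgroup W) := by
  obtain ⟨x, hx⟩ := h.exists_fixed_in_orbit T.hs hz
  obtain ⟨a, ha, hax⟩ := T.exists_smul hz x
  exact ⟨a, ha, mem_fix.2 (by rw [hax]; exact hx)⟩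

/-- An element of the centraliser carrying a fixed vector of `s` to another centralises `s`. -/
theorem comm_of_smul {a : J} (ha : a ∈ Subgroup.centralizer ({g} : Set J)) {z : W} (hz : z ≠ 1)
    (hzs : z ∈ (fix s : Subgroup W)) (haz : a • z ∈ (fix s : Subgroup W)) : s * a = a * s := by
  have hsa : s * a * s⁻¹ ∈ Subgroup.centralizer ({g} : Set J) :=
    T.conj_mem (by rw [T.sg]; exact inv_mem (Subgroup.mem_zpowers g)) ha
  have e : (s * a * s⁻¹) • z = a • z := by
    rw [mul_smul, mul_smul, T.s_inv, mem_fix.1 hzs, mem_fix.1 haz]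
  have h1 := T.eq_of_smul hsa ha hz e
  calc s * a = s * a * s⁻¹ * s := by group
    _ = a * s := by rw [h1]

/-- The subgroup generated by `g` is normalised by every element of every subgroup containing its
centraliser and `s`. -/
theorem normal_of_subgroup : ∀ (n : ℕ) (L : Subgroup J), Nat.card L = n →
    Subgroup.centralizer ({g} : Set J) ≤ L → s ∈ L →
    ∀ l ∈ L, l * g * l⁻¹ ∈ Subgroup.zpowers g := by
  intro n
  induction n using Nat.strong_induction_on with
  | h n IH =>
  intro L hn hAL hsL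
  subst hn
  classical
  haveI : Fact (Nat.Prime 2) := ⟨Nat.prime_two⟩
  set A := Subgroup.centralizer ({g} : Set J) with hA
  set P : Subgroup W := fix s with hP
  set H : Subgroup J := L ⊓ stabSub P with hH
  obtain ⟨z0, hz0, hz0s⟩ := h.exists_ne_one_fix T.hs
  have hz0P : z0 ∈ P := mem_fix.2 hz0s
  have hA0H : ∀ a ∈ A, s * a = a * s → a ∈ H :=
    fun a ha hsa => ⟨hAL ha, mem_stabSub_fix_of_comm hsa.symm⟩
  have hHz : ∀ {x : J}, x ∈ H → ∀ {z : W}, z ≠ 1 → z ∈ P →
      ∃ a ∈ A, s * a = a * s ∧ a⁻¹ * x ∈ MulAction.stabilizer J z := by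
    intro x hx z hz hzP
    obtain ⟨a, ha, hax⟩ := T.exists_smul hz x
    refine ⟨a, ha, T.comm_of_smul ha hz hzP (hax ▸ (hx.2 z).2 hzP), ?_⟩
    show (a⁻¹ * x) • z = z
    rw [mul_smul, ← hax, inv_smul_smul]
  set A0 : Subgroup J := A ⊓ Subgroup.centralizer ({s} : Set J) with hA0
  have hA0le : A0 ≤ H := fun a ha =>
    hA0H a ha.1 (Subgroup.mem_centralizer_singleton_iff.1 ha.2).symm
  have hindex : ∀ {z : W}, z ≠ 1 → z ∈ P →
      ((MulAction.stabilizer J z).subgroupOf H).index ∣ Nat.card A0 ∧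
      (A0.subgroupOf H).index ∣ Nat.card (MulAction.stabilizer J z) := by
    intro z hz hzP
    set S := MulAction.stabilizer J z
    have hdis : ∀ a ∈ A0, a ∈ S → a = 1 := fun a ha haS => T.semireg a ha.1 z hz haS
    have hcard : Nat.card H = Nat.card A0 * Nat.card (S ⊓ H : Subgroup J) := by
      rw [← Nat.card_prod]
      refine (Nat.card_congr (Equiv.ofBijective
        (fun p : A0 × (S ⊓ H : Subgroup J) => (⟨(p.1 : J) * p.2, mul_mem (hA0le p.1.2) p.2.2.2⟩ : H))
        ⟨?_, ?_⟩)).symm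
      · rintro ⟨a, x⟩ ⟨b, y⟩ e
        have e' : (a : J) * x = b * y := congrArg Subtype.val e
        have h1 : (b : J)⁻¹ * a = y * (x : J)⁻¹ := by
          rw [eq_mul_inv_iff_mul_eq, mul_assoc, e', inv_mul_cancel_left]
        have h2 : (b : J)⁻¹ * a = 1 :=
          hdis _ (mul_mem (inv_mem b.2) a.2) (h1 ▸ mul_mem y.2.1 (inv_mem x.2.1))
        have hab : (b : J) = a := inv_mul_eq_one.1 h2
        rw [← hab] at e'
        exact Prod.ext (Subtype.ext hab.symm) (Subtype.ext (mul_left_cancel e'))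
      · rintro ⟨x, hx⟩
        obtain ⟨a, ha, hsa, hax⟩ := hHz hx hz hzP
        have ha0 : a ∈ A0 := ⟨ha, Subgroup.mem_centralizer_singleton_iff.2 hsa.symm⟩
        exact ⟨(⟨a, ha0⟩, ⟨a⁻¹ * x, hax, Subgroup.mul_mem _ (Subgroup.inv_mem _ (hA0le ha0)) hx⟩),
          Subtype.ext (mul_inv_cancel_left a x)⟩
    constructor
    · have h1 := Subgroup.card_mul_index (S.subgroupOf H)
      rw [Nat.card_congr (Subgroup.subgroupOfEquivOfLe (inf_le_right : S ⊓ H ≤ H)).toEquiv.symm,
        Subgroup.inf_subgroupOf_right] at hcard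
      rw [hcard, mul_comm (Nat.card A0)] at h1
      exact dvd_of_eq (Nat.eq_of_mul_eq_mul_left Nat.card_pos h1)
    · have h1 := Subgroup.card_mul_index (A0.subgroupOf H)
      rw [Nat.card_congr (Subgroup.subgroupOfEquivOfLe hA0le).toEquiv, hcard] at h1
      rw [Nat.eq_of_mul_eq_mul_left Nat.card_pos h1]
      exact Subgroup.card_dvd_of_le inf_le_left
  -- (c) no element inverted by an involution stabilises the space
  have hno : ∀ b ∈ H, RealPrime b → ∀ w ∈ L, orderOf w = 2 → w * b * w⁻¹ ≠ b⁻¹ := by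
    intro b hb hbr w hw hw2 hwb
    obtain ⟨q, hq, hq2, hqo, t, ht⟩ := hbr
    haveI := Fact.mk hq
    have hbr : RealPrime b := ⟨q, hq, hq2, hqo, t, ht⟩
    have hqS : ¬ q ∣ Nat.card (MulAction.stabilizer J z0) := by
      intro hdvd
      have hqA : ¬ q ∣ Nat.card A := fun h' =>
        Nat.not_coprime_of_dvd_of_dvd hq.one_lt h' hdvd (T.coprime hz0).1
      obtain ⟨Q⟩ : Nonempty (Sylow q (MulAction.stabilizer J z0)) := inferInstance
      have hQi : ¬ q ∣ ((Q : Subgroup (MulAction.stabilizer J z0)).map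
          (MulAction.stabilizer J z0).subtype).index := by
        rw [Subgroup.index_map_subtype, ← T.card_eq hz0]
        exact fun h' => (hq.dvd_mul.1 h').elim Q.not_dvd_index hqA
      obtain ⟨R, hR⟩ := ((IsPGroup.of_card (n := 1) (by rw [Nat.card_zpowers, hqo, pow_one]) :
        IsPGroup q (Subgroup.zpowers b))).exists_le_sylow
      obtain ⟨c, hc⟩ := MulAction.exists_smul_eq J R ((Q.isPGroup'.map _).toSylow hQi)
      have h1 : c * b * c⁻¹ ∈ (Q : Subgroup (MulAction.stabilizer J z0)).map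
          (MulAction.stabilizer J z0).subtype := by
        rw [← IsPGroup.toSylow_coe (Q.isPGroup'.map _) hQi, ← hc, Sylow.coe_subgroup_smul,
          Subgroup.mem_pointwise_smul_iff_inv_smul_mem, MulAut.smul_def]
        simpa [mul_assoc] using hR (Subgroup.mem_zpowers b)
      obtain ⟨x, -, hx⟩ := Subgroup.mem_map.1 h1
      exact hz0 (h.fpf _ (hbr.conj c) z0 (hx ▸ x.2))
    -- conjugate into the centraliser
    set A0' := A0.subgroupOf H
    obtain ⟨Q⟩ : Nonempty (Sylow q A0') := inferInstance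
    have hQi : ¬ q ∣ ((Q : Subgroup A0').map A0'.subtype).index := by
      rw [Subgroup.index_map_subtype]
      exact fun h' => (hq.dvd_mul.1 h').elim Q.not_dvd_index
        (fun h'' => hqS (h''.trans (hindex hz0 hz0P).2))
    have hb' : IsPGroup q (Subgroup.zpowers (⟨b, hb⟩ : H)) :=
      IsPGroup.of_card (n := 1) (by rw [Nat.card_zpowers, Subgroup.orderOf_mk, hqo, pow_one])
    obtain ⟨R, hR⟩ := hb'.exists_le_sylow
    obtain ⟨c, hc⟩ := MulAction.exists_smul_eq H R ((Q.isPGroup'.map _).toSylow hQi)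
    have h1 : c * (⟨b, hb⟩ : H) * c⁻¹ ∈ (Q : Subgroup A0').map A0'.subtype := by
      rw [← IsPGroup.toSylow_coe (Q.isPGroup'.map _) hQi, ← hc, Sylow.coe_subgroup_smul,
        Subgroup.mem_pointwise_smul_iff_inv_smul_mem, MulAut.smul_def]
      simpa [mul_assoc] using hR (Subgroup.mem_zpowers (⟨b, hb⟩ : H))
    obtain ⟨x, -, hx⟩ := Subgroup.mem_map.1 h1
    set b' := (c : J) * b * (c : J)⁻¹ with hb'def
    set w' := (c : J) * w * (c : J)⁻¹ with hw'def
    have hb'0 : b' ∈ A0 := by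
      have := x.2
      rw [Subgroup.mem_subgroupOf] at this
      rw [show b' = ((x : H) : J) from (congrArg Subtype.val hx).symm]
      exact this
    have hwL : w' ∈ L := mul_mem (mul_mem c.2.1 hw) (inv_mem c.2.1)
    have hw'2 : orderOf w' = 2 := ((MulAut.conj (c : J)).orderOf_eq w).trans hw2
    have hw'b : w' * b' * w'⁻¹ = b'⁻¹ := by
      rw [hw'def, hb'def]
      calc (c : J) * w * (c : J)⁻¹ * ((c : J) * b * (c : J)⁻¹) * ((c : J) * w * (c : J)⁻¹)⁻¹
          = (c : J) * (w * b * w⁻¹) * (c : J)⁻¹ := by group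
        _ = _ := by rw [hwb]; group
    have hb'r : RealPrime b' := hbr.conj _
    set L1 : Subgroup J := L ⊓ Subgroup.centralizer ({b'} : Set J) with hL1
    have hAL1 : A ≤ L1 := fun a ha =>
      ⟨hAL ha, Subgroup.mem_centralizer_singleton_iff.2 (T.comm ha hb'0.1)⟩
    have hsL1 : s ∈ L1 := ⟨hsL, Subgroup.mem_centralizer_singleton_iff.2
      (Subgroup.mem_centralizer_singleton_iff.1 hb'0.2).symm⟩
    have hlt : Nat.card L1 < Nat.card L := by
      refine lt_of_le_of_ne (Subgroup.card_le_of_le inf_le_left) fun e => ?_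
      have h2 : w' ∈ L1 := by
        have heq : L1 = L := Subgroup.eq_of_le_of_card_ge inf_le_left e.ge
        rw [heq]; exact hwL
      have h3 := Subgroup.mem_centralizer_singleton_iff.1 h2.2
      rw [h3, mul_inv_cancel_right] at hw'b
      exact hb'r.ne_inv hw'b
    have hN := IH _ hlt L1 rfl hAL1 hsL1
    haveI : (A.subgroupOf L1).Normal := ⟨fun a ha l => by
      rw [Subgroup.mem_subgroupOf] at ha ⊢
      exact T.conj_mem (hN l l.2) ha⟩
    have hconjL1 : w' * g * w'⁻¹ ∈ L1 := by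
      refine Subgroup.mem_inf.2 ⟨mul_mem (mul_mem hwL (hAL T.g_mem)) (inv_mem hwL), ?_⟩
      rw [Subgroup.mem_centralizer_singleton_iff]
      have hgb : g * b' = b' * g := T.comm T.g_mem hb'0.1
      have hb2 : b' = w' * b'⁻¹ * w'⁻¹ := by
        calc b' = (w' * b' * w'⁻¹)⁻¹ := by rw [hw'b, inv_inv]
          _ = _ := by group
      calc w' * g * w'⁻¹ * b' = w' * g * w'⁻¹ * (w' * b'⁻¹ * w'⁻¹) := by rw [← hb2]
        _ = w' * (g * b'⁻¹) * w'⁻¹ := by group
        _ = w' * (b'⁻¹ * g) * w'⁻¹ := by rw [(show Commute g b' from hgb).inv_right.eq]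
        _ = w' * b'⁻¹ * w'⁻¹ * (w' * g * w'⁻¹) := by group
        _ = b' * (w' * g * w'⁻¹) := by rw [← hb2]
    have hmem : (⟨w' * g * w'⁻¹, hconjL1⟩ : L1) ∈ A.subgroupOf L1 := by
      refine mem_of_coprime_index (Nat.Coprime.coprime_dvd_left ?_
        (Nat.Coprime.coprime_dvd_right ?_ (T.coprime hz0).1))
      · rw [Subgroup.orderOf_mk, show orderOf (w' * g * w'⁻¹) = orderOf g from
          (MulAut.conj w').orderOf_eq g]
        exact orderOf_dvd_natCard (⟨g, T.g_mem⟩ : A) |>.trans (dvd_refl _) |> fun h' => by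
          rwa [Subgroup.orderOf_mk] at h'
      · rw [← (T.coprime hz0).2]
        have h2 := Subgroup.card_mul_index (A.subgroupOf L1)
        rw [Nat.card_congr (Subgroup.subgroupOfEquivOfLe hAL1).toEquiv] at h2
        have h3 : Nat.card A * (A.subgroupOf L1).index ∣ Nat.card A * A.index := by
          rw [h2, Subgroup.card_mul_index]; exact Subgroup.card_subgroup_dvd_card L1
        exact Nat.dvd_of_mul_dvd_mul_left Nat.card_pos h3
    rw [Subgroup.mem_subgroupOf] at hmem
    have hnorm : w' * g * w'⁻¹ ∈ Subgroup.zpowers g := by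
      refine T.mem_zpowers_of_pow hmem ?_
      rw [show w' * g * w'⁻¹ = MulAut.conj w' g from rfl, ← map_pow, pow_orderOf_eq_one, map_one]
    have h4 := T.conj_eq hw'2 hnorm hb'0.1
    rw [hw'b, ← Subgroup.mem_centralizer_singleton_iff.1 hb'0.2, mul_inv_cancel_right] at h4
    exact hb'r.ne_inv h4.symm
  -- (d) involutions stabilising the space fix it pointwise
  have hfixP : ∀ v ∈ H, orderOf v = 2 → (fix v : Subgroup W) = P := by
    intro v hv hv2
    refine h.fix_eq_of_le T.hs hv2 fun z hz => mem_fix.2 ?_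
    rcases eq_or_ne z 1 with rfl | hz1
    · exact smul_one v
    by_cases hmem : (⟨v, hv⟩ : H) ∈ Cfsg.pCore 2 H
    · haveI : (Cfsg.pCore 2 H).Normal := Cfsg.pCore_normal 2 H
      have hoddA : Odd (Nat.card A0) :=
        (Odd.of_dvd_nat (T.card_eq hz0 ▸ h.odd z0 hz0) (Subgroup.card_dvd_of_le inf_le_left))
      have h1 := le_of_odd_index (CfsgLib.Cores.isPGroup_pCore 2 H)
        (Odd.of_dvd_nat hoddA (hindex hz1 hz).1) hmem
      exact Subgroup.mem_subgroupOf.1 h1
    · obtain ⟨x, b, hx, hb, hxb⟩ := exists_inverted_of_notMem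
        (show orderOf (⟨v, hv⟩ : H) = 2 by rw [Subgroup.orderOf_mk, hv2]) hmem
      obtain ⟨c, rfl⟩ := isConj_iff.1 hx
      refine absurd ?_ (hno b b.2 hb.coe (c * ⟨v, hv⟩ * c⁻¹ : H) (c * ⟨v, hv⟩ * c⁻¹ : H).2.1 ?_)
      · exact congrArg Subtype.val hxb
      · rw [show (((c * ⟨v, hv⟩ * c⁻¹ : H)) : J) = (c : J) * v * (c : J)⁻¹ from rfl]
        exact ((MulAut.conj (c : J)).orderOf_eq v).trans hv2
  -- (e) involutions fixing a vector of the space
  have hfix1 : ∀ v ∈ L, orderOf v = 2 → ∀ z : W, z ≠ 1 → z ∈ P → v • z = z →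
      (fix v : Subgroup W) = P := by
    intro v hvL hv2 z hz hzP hvz
    set TL : Subgroup J := L ⊓ (h.syl hz : Subgroup J) with hTL
    have hvT : v ∈ TL := ⟨hvL, h.mem_syl hz ⟨1, by rw [pow_one, hv2]⟩ hvz⟩
    have hsT : s ∈ TL := ⟨hsL, h.mem_syl hz ⟨1, by rw [pow_one, T.hs]⟩ (mem_fix.1 hzP)⟩
    have hTp : IsPGroup 2 TL := (h.syl hz).isPGroup'.to_le inf_le_right
    haveI : Nontrivial TL := ⟨⟨s, hsT⟩, 1, fun e => by
      have := congrArg Subtype.val e
      rw [show s = 1 from this] at T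
      exact absurd T.hs (by rw [orderOf_one]; omega)⟩
    haveI := hTp.center_nontrivial
    obtain ⟨k, hcard⟩ := IsPGroup.iff_card.1 (hTp.to_subgroup (Subgroup.center TL))
    have hk : k ≠ 0 := by
      rintro rfl
      rw [pow_zero] at hcard
      exact (Finite.one_lt_card (α := Subgroup.center TL)).ne' hcard
    obtain ⟨c, hc⟩ := exists_prime_orderOf_dvd_card' (G := Subgroup.center TL) 2
      (by rw [hcard]; exact dvd_pow_self 2 hk)
    have hc2 : orderOf ((c : TL) : J) = 2 := by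
      rw [Subgroup.orderOf_coe, Subgroup.orderOf_coe, hc]
    have hcomm : ∀ x (hx : x ∈ TL), x * ((c : TL) : J) = ((c : TL) : J) * x := fun x hx =>
      congrArg Subtype.val (Subgroup.mem_center_iff.1 c.2 ⟨x, hx⟩)
    have hcH : ((c : TL) : J) ∈ H := ⟨(c : TL).2.1, mem_stabSub_fix_of_comm (hcomm s hsT).symm⟩
    have hcP := hfixP _ hcH hc2
    refine hfixP v ⟨hvL, ?_⟩ hv2
    have := mem_stabSub_fix_of_comm (W := W) (hcomm v hvT)
    rwa [hcP] at this
  -- (f) every involution has a translated space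
  have hmain : ∀ v ∈ L, orderOf v = 2 → ∃ a ∈ A, (fix (a⁻¹ * v * a) : Subgroup W) = P := by
    intro v hvL hv2
    obtain ⟨z, hz, hvz⟩ := h.exists_ne_one_fix hv2
    obtain ⟨a, ha, haz⟩ := T.exists_smul_fix hz
    refine ⟨a⁻¹, inv_mem ha, hfix1 _ ?_ ?_ (a • z) (T.smul_ne_one hz) haz ?_⟩
    · exact mul_mem (mul_mem (inv_mem (inv_mem (hAL ha))) hvL) (inv_mem (hAL ha))
    · rw [inv_inv]; exact ((MulAut.conj a).orderOf_eq v).trans hv2
    · rw [inv_inv, mul_smul, mul_smul, inv_smul_smul, hvz]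
  -- (g) each space has one involution
  have htrans : ∀ a v v' : J, (fix v : Subgroup W) = fix v' →
      (fix (a * v * a⁻¹) : Subgroup W) = fix (a * v' * a⁻¹) := by
    intro a v v' e
    ext z
    have := (smul_mem_fix_conj (g := a) (v := v) (w := a⁻¹ • z)).trans
      ((e ▸ Iff.rfl : a⁻¹ • z ∈ (fix v : Subgroup W) ↔ a⁻¹ • z ∈ (fix v' : Subgroup W)).trans
        (smul_mem_fix_conj (g := a) (v := v') (w := a⁻¹ • z)).symm)
    simpa using this
  let Sp := {U : Subgroup W // U ≠ P ∧ ∃ a ∈ A, U = fix (a * s * a⁻¹)}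
  let Out := {t : J // t ∈ L ∧ orderOf t = 2 ∧ (fix t : Subgroup W) ≠ P}
  let VP := {v : J // v ∈ L ∧ orderOf v = 2 ∧ (fix v : Subgroup W) = P}
  have hspace : ∀ v ∈ L, orderOf v = 2 → ∃ a ∈ A, (fix v : Subgroup W) = fix (a * s * a⁻¹) := by
    intro v hvL hv2
    obtain ⟨a, ha, e⟩ := hmain v hvL hv2
    refine ⟨a, ha, ?_⟩
    have := htrans a _ _ e
    rwa [show a * (a⁻¹ * v * a) * a⁻¹ = v by group] at this
  haveI : Nonempty Sp := by
    have hne : P ≠ ⊤ := fun e => by
      have h1 := h.card_fix_sq T.hs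
      rw [← hP, e, Subgroup.card_top, pow_two] at h1
      have := h.one_lt_card
      nlinarith
    obtain ⟨z, hz⟩ : ∃ z, z ∉ P := by
      by_contra hall
      push Not at hall
      exact hne (eq_top_iff.2 fun z _ => hall z)
    obtain ⟨a, ha, haz⟩ := T.exists_smul_fix (z := z) (fun e => hz (by rw [e]; exact one_mem P))
    refine ⟨⟨fix (a⁻¹ * s * a⁻¹⁻¹), fun e => hz ?_, a⁻¹, inv_mem ha, rfl⟩⟩
    rw [← e]
    have := (smul_mem_fix_conj (g := a⁻¹) (v := s) (w := a • z)).2 haz
    rwa [inv_smul_smul] at this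
  let F1 : VP × Sp → Out := fun p =>
    ⟨p.2.2.2.choose * p.1.1 * p.2.2.2.choose⁻¹,
      mul_mem (mul_mem (hAL p.2.2.2.choose_spec.1) p.1.2.1) (inv_mem (hAL p.2.2.2.choose_spec.1)),
      ((MulAut.conj _).orderOf_eq p.1.1).trans p.1.2.2.1, fun e => p.2.2.1
        ((p.2.2.2.choose_spec.2.trans (htrans _ _ _ p.1.2.2.2.symm)).trans e)⟩
  have hF1 : Function.Injective F1 := by
    rintro ⟨v, U⟩ ⟨v', U'⟩ e
    have e' : U.2.2.choose * v.1 * U.2.2.choose⁻¹ = U'.2.2.choose * v'.1 * U'.2.2.choose⁻¹ :=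
      congrArg Subtype.val e
    have hU : U = U' := Subtype.ext (by
      rw [U.2.2.choose_spec.2, U'.2.2.choose_spec.2, htrans _ _ _ v.2.2.2.symm,
        htrans _ _ _ v'.2.2.2.symm, e'])
    subst hU
    exact Prod.ext (Subtype.ext (mul_left_cancel (mul_right_cancel e'))) rfl
  have htP : ∀ t : Out, ∀ z, t.1 • z ∈ (fix (t.1 * s * t.1⁻¹) : Subgroup W) ↔ z ∈ P :=
    fun t z => smul_mem_fix_conj
  have hne : ∀ t : Out, (fix (t.1 * s * t.1⁻¹) : Subgroup W) ≠ P := by
    intro t e
    refine t.2.2.2 (hfixP _ ⟨t.2.1, fun z => ?_⟩ t.2.2.1)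
    have := htP t z
    rwa [e] at this
  let F2 : Out → Sp := fun t => ⟨fix (t.1 * s * t.1⁻¹), hne t,
    hspace _ (mul_mem (mul_mem t.2.1 hsL) (inv_mem t.2.1))
      (((MulAut.conj t.1).orderOf_eq s).trans T.hs)⟩
  have hF2 : Function.Injective F2 := by
    intro t t' e
    have e' : (fix (t.1 * s * t.1⁻¹) : Subgroup W) = fix (t'.1 * s * t'.1⁻¹) :=
      congrArg Subtype.val e
    have ht1 : t.1 * t.1 = 1 := by
      have h0 := pow_orderOf_eq_one t.1
      rwa [t.2.2.1, pow_two] at h0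
    have ht1' : t'.1 * t'.1 = 1 := by
      have h0 := pow_orderOf_eq_one t'.1
      rwa [t'.2.2.1, pow_two] at h0
    set y := t.1 * t'.1 with hy
    have hyH : y ∈ H := by
      refine ⟨mul_mem t.2.1 t'.2.1, fun z => ?_⟩
      have h1 := htP t (t.1 • (t'.1 • z))
      rw [← mul_smul, ht1, one_smul, e', htP t'] at h1
      rw [hy, mul_smul]
      exact h1.symm
    have hyinv : t.1 * y * t.1⁻¹ = y⁻¹ := by
      rw [hy, mul_inv_rev, inv_eq_of_mul_eq_one_right ht1', ← mul_assoc, ht1, one_mul]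
    have hyord : ∀ q : ℕ, q.Prime → q ∣ orderOf y → q = 2 := by
      intro q hq hqy
      by_contra hq2
      obtain ⟨i, -, hi⟩ := exists_realPrime_pow hyinv hq hq2 hqy
      exact hno _ (pow_mem hyH i) hi t.1 t.2.1 t.2.2.1 (inv_pow_of_inv hyinv i)
    have hy1 : y = 1 := by
      by_contra hy1
      have h2 : 2 ∣ orderOf y := by
        obtain ⟨q, hq, hqd⟩ := Nat.exists_prime_and_dvd (mt orderOf_eq_one_iff.1 hy1)
        exact hyord q hq hqd ▸ hqd
      set c := y ^ (orderOf y / 2) with hc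
      have hc2 : orderOf c = 2 := orderOf_pow_orderOf_div (orderOf_pos y).ne' h2
      have hctt : t.1 * c = c * t.1 := by
        have h3 : t.1 * c * t.1⁻¹ = c := by
          rw [hc, inv_pow_of_inv hyinv, ← hc]
          exact inv_eq_of_mul_eq_one_right (by rw [← pow_two, ← hc2, pow_orderOf_eq_one])
        calc t.1 * c = t.1 * c * t.1⁻¹ * t.1 := by group
          _ = c * t.1 := by rw [h3]
      have hcP := hfixP c (pow_mem hyH _) hc2
      refine t.2.2.2 (hfixP _ ⟨t.2.1, ?_⟩ t.2.2.1)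
      have := mem_stabSub_fix_of_comm (W := W) hctt
      rwa [hcP] at this
    refine Subtype.ext ?_
    rw [hy, mul_eq_one_iff_eq_inv, inv_eq_of_mul_eq_one_right ht1'] at hy1
    exact hy1
  have hVP : ∀ v : VP, v.1 = s := by
    have hle := Nat.card_le_card_of_injective (F2 ∘ F1) (hF2.comp hF1)
    rw [Nat.card_prod] at hle
    have hpos : 0 < Nat.card Sp := Nat.card_pos
    have h1 : Nat.card VP ≤ 1 := by nlinarith
    haveI : Subsingleton VP := Finite.card_le_one_iff_subsingleton.1 h1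
    exact fun v => congrArg Subtype.val (Subsingleton.elim v ⟨s, hsL, T.hs, rfl⟩)
  have hinv : ∀ v ∈ L, orderOf v = 2 → ∃ a ∈ A, v = a * s * a⁻¹ := by
    intro v hvL hv2
    obtain ⟨a, ha, e⟩ := hmain v hvL hv2
    refine ⟨a, ha, ?_⟩
    have h2 : orderOf (a⁻¹ * v * a) = 2 := by
      have := (MulAut.conj a⁻¹).orderOf_eq v
      rw [MulAut.conj_apply, inv_inv] at this
      exact this.trans hv2
    have h1 : a⁻¹ * v * a = s :=
      hVP ⟨_, mul_mem (mul_mem (inv_mem (hAL ha)) hvL) (hAL ha), h2, e⟩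
    rw [← h1]; group
  intro l hl
  -- `g ^ 2` is a product of two involutions
  have hsnorm : ∀ a ∈ A, s * a * s⁻¹ ∈ A := fun a ha =>
    T.conj_mem (by rw [T.sg]; exact inv_mem (Subgroup.mem_zpowers g)) ha
  have hg2 : g * g = g * s * g⁻¹ * s⁻¹ := by
    calc g * g = g * (s * g⁻¹ * s⁻¹) := by
          rw [show s * g⁻¹ * s⁻¹ = (s * g * s⁻¹)⁻¹ by group, T.sg, inv_inv]
      _ = _ := by group
  have hprod : l * (g * g) * l⁻¹ ∈ A := by
    have hgL : g ∈ L := hAL T.g_mem
    obtain ⟨a, ha, e1⟩ := hinv (l * g * s * (l * g)⁻¹)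
      (mul_mem (mul_mem (mul_mem hl hgL) hsL) (inv_mem (mul_mem hl hgL)))
      (((MulAut.conj (l * g)).orderOf_eq s).trans T.hs)
    obtain ⟨a', ha', e2⟩ := hinv (l * s * l⁻¹) (mul_mem (mul_mem hl hsL) (inv_mem hl))
      (((MulAut.conj l).orderOf_eq s).trans T.hs)
    have e : l * (g * g) * l⁻¹ = a * (s * (a⁻¹ * a') * s⁻¹) * a'⁻¹ := by
      rw [hg2]
      calc l * (g * s * g⁻¹ * s⁻¹) * l⁻¹ = (l * g * s * (l * g)⁻¹) * (l * s * l⁻¹)⁻¹ := by group
        _ = (a * s * a⁻¹) * (a' * s * a'⁻¹)⁻¹ := by rw [e1, e2]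
        _ = a * (s * (a⁻¹ * a') * s⁻¹) * a'⁻¹ := by group
    rw [e]
    exact mul_mem (mul_mem ha (hsnorm _ (mul_mem (inv_mem ha) ha'))) (inv_mem ha')
  obtain ⟨q, hq, hq2, hqo, -⟩ := T.real
  obtain ⟨i, hi⟩ := hq.odd_of_ne_two hq2
  have hg1 : l * g * l⁻¹ = (l * (g * g) * l⁻¹) ^ (i + 1) := by
    rw [← MulAut.conj_apply l (g * g), ← map_pow, MulAut.conj_apply, ← pow_two, ← pow_mul,
      show 2 * (i + 1) = q + 1 by omega, pow_succ, ← hqo, pow_orderOf_eq_one, one_mul]
  refine T.mem_zpowers_of_pow (hg1 ▸ pow_mem hprod _) ?_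
  rw [show l * g * l⁻¹ = MulAut.conj l g from rfl, ← map_pow, pow_orderOf_eq_one, map_one]

/-- A group with a torus is solvable. -/
theorem isSolvable : Group.IsSolvable J := by
  have hN := T.normal_of_subgroup _ ⊤ rfl le_top (Subgroup.mem_top s)
  set A := Subgroup.centralizer ({g} : Set J) with hA
  haveI : A.Normal := ⟨fun a ha l => T.conj_mem (hN l (Subgroup.mem_top l)) ha⟩
  haveI := T.cyc
  letI := IsCyclic.commGroup (α := A)
  letI : CommGroup (MulAut A) :=
    { (inferInstance : Group (MulAut A)) with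
      mul_comm := fun a b => (IsCyclic.mulAutMulEquiv A).injective (by
        rw [map_mul, map_mul]; exact mul_comm _ _) }
  refine Group.isSolvable_of_ker_le_range A.subtype (MulAut.conjNormal (H := A)) fun x hx => ?_
  rw [Subgroup.range_subtype]
  rw [MonoidHom.mem_ker] at hx
  rw [hA, Subgroup.mem_centralizer_singleton_iff]
  have h1 := congrArg (fun e : MulAut A => (e ⟨g, T.g_mem⟩ : J)) hx
  simp only [MulAut.conjNormal_apply, MulAut.one_apply] at h1
  calc x * g = x * g * x⁻¹ * x := by group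
    _ = g * x := by rw [h1]

end IsTorus

end CfsgLib.RealClassGraph
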